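import Mathlib
import Cfsg.Agent.FGS.SymAb
import Cfsg.Agent.SymNil.Basic

set_option autoImplicit false
open Cfsg Equiv Subgroup MulAction
open scoped Pointwise

namespace Cfsg.Agent.Mix26

open FGS

theorem abS_lt (n : ℕ) (h : n ≠ 2) : abS n < 2 * abA n := by
  induction n using Nat.strong_induction_on with
  | _ n ih =>
  by_cases hn : 9 ≤ n
  · obtain ⟨n, rfl⟩ := Nat.exists_eq_add_of_le' hn
    have := ih (n + 6) (by omega) (by omega)
    rw [abA, show n + 9 = n + 4 + 5 from rfl, abS]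
    exact by linarith
  · clear ih
    interval_cases n <;> simp_all [abA, abS]

theorem abA_lt (n : ℕ) (h : 2 ≤ n) : abA n < abA (n + 1) := by
  induction n using Nat.strong_induction_on with
  | _ n ih =>
  by_cases hn : 9 ≤ n
  · obtain ⟨n, rfl⟩ := Nat.exists_eq_add_of_le' hn
    have := ih (n + 6) (by omega) (by omega)
    rw [abA, show n + 9 + 1 = n + 1 + 9 by ring, abA, show n + 1 + 6 = n + 6 + 1 by ring]
    omega
  · clear ih
    interval_cases n <;> simp_all [abA]

theorem mul_abA_lt (k m : ℕ) (h : 5 ≤ m) (h' : m + k ≠ 5) : m * abA k < abA (m + k) := by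
  induction k using Nat.strong_induction_on with
  | _ k ih =>
  by_cases hk : 9 ≤ k
  · obtain ⟨k, rfl⟩ := Nat.exists_eq_add_of_le' hk
    have := ih (k + 6) (by omega) (by omega)
    rw [abA, ← add_assoc, abA, add_assoc]
    nlinarith
  clear ih
  induction m using Nat.strong_induction_on with
  | _ m ih =>
  by_cases hm : 9 ≤ m
  · obtain ⟨m, rfl⟩ := Nat.exists_eq_add_of_le' hm
    have := ih (m + 6) (by omega) (by omega) (by omega)
    rw [add_right_comm, abA, add_right_comm m k]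
    nlinarith [abA_pos k]
  · clear ih
    interval_cases k <;> interval_cases m <;> simp_all [abA]

theorem four_abA_lt (k : ℕ) (h : 3 ∣ 4 + k) : 4 * abA k < abA (4 + k) := by
  induction k using Nat.strong_induction_on with
  | _ k ih =>
  by_cases hk : 9 ≤ k
  · obtain ⟨k, rfl⟩ := Nat.exists_eq_add_of_le' hk
    have := ih (k + 6) (by omega) (by omega)
    rw [abA, ← add_assoc, abA, add_assoc]
    omega
  · clear ih
    interval_cases k <;> simp_all [abA]

theorem exAb (n : ℕ) (h : n ≠ 5) : ExAb True n (abA n) := by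
  have h1 : ∀ m, ExAb True m 1 := fun m => ⟨⊥, inferInstance, card_bot, fun _ => bot_le⟩
  by_cases h6 : 6 ≤ n
  · obtain ⟨k, rfl | rfl | rfl⟩ : ∃ k, n = 3 * (k + 2) ∨ n = 3 * (k + 2) + 1 ∨ n = 3 * (k + 2) + 2 :=
      ⟨n / 3 - 2, by omega⟩
    · exact (abA_eq k).1 ▸ .three _ _
    · rw [(abA_eq k).2.1]
      exact mul_comm _ 4 ▸ (ExAb.three _ (k + 1)).add (.four _)
    · rw [(abA_eq k).2.2]
      exact mul_comm _ 16 ▸ (ExAb.three _ k).add ((ExAb.four _).add (.four _))
  · interval_cases n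
    exacts [h1 0, h1 1, h1 2, .three _ 1, .four _, absurd rfl h]

variable {α : Type*} [Fintype α] [DecidableEq α]

/-- an abelian group of even permutations of `S` of the largest order -/
structure Ext (A : Subgroup (Perm α)) (S : Finset α) : Prop where
  comm : IsMulCommutative A
  supp : ∀ a ∈ A, a.support ⊆ S
  alt : A ≤ alternatingGroup α
  card : Nat.card A = abA S.card

variable {A B : Subgroup (Perm α)} {S : Finset α}

theorem Ext.mem (h : Ext A S) (h2 : S.card ≠ 2) {t : Perm α} (ht : t.support ⊆ S)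
    (hc : ∀ a ∈ A, Commute a t) : t ∈ A := by
  have hA := isMulCommutative_iff_forall.mp h.comm
  have c1 : A ⊔ zpowers t ≤ centralizer (A : Set (Perm α)) :=
    sup_le (fun a ha b hb => hA b hb a ha) (zpowers_le.2 hc)
  have c2 : A ⊔ zpowers t ≤ centralizer ((zpowers t : Subgroup _) : Set (Perm α)) := by
    refine sup_le (fun a ha => ?_) fun a ha => ?_
    · rintro _ ⟨k, rfl⟩; exact ((hc a ha).zpow_right k).symm
    · rintro _ ⟨k, rfl⟩; obtain ⟨l, rfl⟩ := ha; exact (Commute.refl t).zpow_zpow k l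
  have c3 : IsMulCommutative (A ⊔ zpowers t : Subgroup _) :=
    le_centralizer_iff_isMulCommutative.1 (le_centralizer_iff.1 (sup_le
      (le_centralizer_iff.1 c1) (le_centralizer_iff.1 c2)))
  have c4 : ∀ a ∈ A ⊔ zpowers t, a.support ⊆ S := fun a ha =>
    SymNil.mem_Fx.1 ((sup_le (fun b hb => SymNil.mem_Fx.2 (h.supp b hb))
      (zpowers_le.2 (SymNil.mem_Fx.2 ht)) : A ⊔ zpowers t ≤ SymNil.Fx S) ha)
  have c5 := (card_le_abS c3 c4).trans_lt (abS_lt _ h2)
  obtain ⟨k, hk⟩ := card_dvd_of_le (le_sup_left : A ≤ A ⊔ zpowers t)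
  have c6 : 0 < Nat.card (A ⊔ zpowers t : Subgroup _) := Nat.card_pos
  rw [← h.card, hk] at c5
  rw [hk] at c6
  have c7 : k = 1 := by
    rcases k with _ | _ | k
    · simp at c6
    · rfl
    · nlinarith
  rw [c7, mul_one] at hk
  exact (eq_of_le_of_card_ge le_sup_left hk.le).ge (mem_sup_right (mem_zpowers t))

theorem orbF_iff {a : Perm α} (ha : a ∈ A) (x y : α) : a y ∈ orbF A x ↔ y ∈ orbF A x := by
  simp only [mem_orbF]
  exact ⟨fun ⟨b, hb, e⟩ => ⟨a⁻¹ * b, mul_mem (inv_mem ha) hb, by simp [e]⟩,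
    fun ⟨b, hb, e⟩ => ⟨a * b, mul_mem ha hb, by simp [e]⟩⟩

theorem self_mem_orbF (A : Subgroup (Perm α)) (x : α) : x ∈ orbF A x :=
  mem_orbF.2 ⟨1, one_mem _, rfl⟩

/-- split an element along an orbit -/
theorem Ext.split (h : Ext A S) (h2 : S.card ≠ 2) {x : α} (hx : x ∈ S) {a : Perm α} (ha : a ∈ A) :
    ∃ r ∈ A, ∃ s ∈ A ⊓ stabilizer (Perm α) x, r.support ⊆ orbF A x ∧ a = r * s := by
  let r := Perm.ofSubtype (a.subtypePerm (p := (· ∈ orbF A x)) (orbF_iff ha x))
  have r1 : ∀ y ∈ orbF A x, r y = a y := fun y hy => Perm.ofSubtype_subtypePerm_of_mem _ hy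
  have r2 : ∀ y, y ∉ orbF A x → r y = y := fun y hy => Perm.ofSubtype_apply_of_not_mem _ hy
  have r3 : r.support ⊆ orbF A x := fun y hy => by_contra fun c => Perm.mem_support.1 hy (r2 y c)
  have r4 : r ∈ A := h.mem h2 (r3.trans (orbF_subset h.supp hx)) fun b hb => Equiv.ext fun y => by
    simp only [Perm.mul_apply]
    by_cases hy : y ∈ orbF A x
    · rw [r1 y hy, r1 _ ((orbF_iff hb x y).2 hy), ← Perm.mul_apply,
        isMulCommutative_iff_forall.mp h.comm b hb a ha, Perm.mul_apply]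
    · rw [r2 y hy, r2 _ (mt (orbF_iff hb x y).1 hy)]
  refine ⟨r, r4, r⁻¹ * a, mem_inf.2 ⟨mul_mem (inv_mem r4) ha, ?_⟩, r3, by simp⟩
  show r⁻¹ (a x) = x
  rw [← r1 x (self_mem_orbF A x)]; simp

theorem Ext.orb (h : Ext A S) (h3 : 3 ≤ S.card) (h5 : S.card ≠ 5) {x : α} (hx : x ∈ S) :
    ((orbF A x).card = 3 ∨ (orbF A x).card = 4 ∧ ¬ 3 ∣ S.card) ∧
      Ext (A ⊓ stabilizer (Perm α) x) (S \ orbF A x) := by
  have hs := orbF_subset h.supp hx
  have h1 := card_le_abA (Core.isMulCommutative_of_le h.comm inf_le_left)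
    (support_stab h.comm h.supp x) (inf_le_left.trans h.alt)
  have h2 := card_orbF_mul A x
  have h0 : 0 < (orbF A x).card := Finset.card_pos.2 ⟨x, self_mem_orbF A x⟩
  have h4 : (orbF A x).card ≠ 2 := fun e => by
    obtain ⟨y, hy, hyx⟩ := Finset.exists_mem_ne (e ▸ one_lt_two : 1 < (orbF A x).card) x
    obtain ⟨a, ha, rfl⟩ := mem_orbF.1 hy
    obtain ⟨r, r1, s, s1, r2, rfl⟩ := h.split (by omega) hx ha
    have r3 : r ≠ 1 := by rintro rfl; exact hyx s1.2
    have := Perm.card_support_eq_two.mp (le_antisymm ((Finset.card_le_card r2).trans e.le)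
      (Perm.two_le_card_support_of_ne_one r3))
    exact absurd (this.sign_eq.symm.trans (h.alt r1)) (by decide)
  have hc := Finset.card_sdiff_add_card_eq_card hs
  rw [h.card, ← hc, add_comm] at h2
  have e : 3 ≤ (orbF A x).card → Ext (A ⊓ stabilizer (Perm α) x) (S \ orbF A x) := fun h6 =>
    ⟨Core.isMulCommutative_of_le h.comm inf_le_left, support_stab h.comm h.supp x,
      inf_le_left.trans h.alt, le_antisymm h1 (Nat.le_of_mul_le_mul_left
        (h2 ▸ mul_abA_le _ _ h6) h0)⟩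
  have h7 := Nat.mul_le_mul_left (orbF A x).card h1
  rw [h2] at h7
  generalize (orbF A x).card = m at *
  generalize (S \ orbF A x).card = k at *
  have h8 : m ≠ 1 := by
    rintro rfl
    have := abA_lt k (by omega)
    rw [add_comm] at h7; omega
  have h9 : ¬ 5 ≤ m := fun h9 => absurd (mul_abA_lt k m h9 (by omega)) (by omega)
  refine ⟨?_, e (by omega)⟩
  by_cases h10 : m = 3
  · exact Or.inl h10
  obtain rfl : m = 4 := by omega
  exact Or.inr ⟨rfl, fun h11 => absurd (four_abA_lt k (by omega)) (by omega)⟩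

theorem Ext.exists_orb (S : Finset α) : ∀ A : Subgroup (Perm α), Ext A S → 3 ≤ S.card → S.card ≠ 5 →
    ∃ x ∈ S, (orbF A x).card = if 3 ∣ S.card then 3 else 4 := by
  induction S using Finset.strongInduction with
  | _ S ih =>
  intro A h h3 h5
  obtain ⟨x, hx⟩ := Finset.card_pos.1 (show 0 < S.card by omega)
  obtain ⟨h1, h2⟩ := h.orb h3 h5 hx
  split_ifs with h4
  · exact ⟨x, hx, h1.resolve_right fun e => e.2 h4⟩
  rcases h1 with h1 | h1
  swap
  · exact ⟨x, hx, h1.1⟩
  have hs := orbF_subset h.supp hx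
  have hc := Finset.card_sdiff_add_card_eq_card hs
  have h6 := card_orbF_mul A x
  rw [h1, h2.card, h.card] at h6
  rw [h1] at hc
  have h7 : (S \ orbF A x).card ≠ 1 := fun e => by rw [← hc, e] at h6; simp [abA] at h6
  have h8 : (S \ orbF A x).card ≠ 5 := fun e => by rw [← hc, e] at h6; simp [abA] at h6
  obtain ⟨y, hy, h9⟩ := ih _ (Finset.sdiff_ssubset hs ⟨x, self_mem_orbF A x⟩) _ h2 (by omega) h8
  rw [if_neg (by omega)] at h9
  have h10 : orbF (A ⊓ stabilizer (Perm α) x) y ⊆ orbF A y := fun z hz => by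
    obtain ⟨a, ha, rfl⟩ := mem_orbF.1 hz
    exact mem_orbF.2 ⟨a, ha.1, rfl⟩
  have := Finset.card_le_card h10
  have hy' := (Finset.mem_sdiff.1 hy).1
  have := (h.orb h3 h5 hy').1
  exact ⟨y, hy', by omega⟩

theorem comm_small {O : Finset α} (hO : O.card = 3 ∨ O.card = 4) {a b : Perm α}
    (a1 : a.support ⊆ O) (b1 : b.support ⊆ O) (a2 : a ∈ alternatingGroup α)
    (b2 : b ∈ alternatingGroup α) (a3 : a ^ O.card = 1) (b3 : b ^ O.card = 1) : Commute a b := by
  obtain ⟨a, rfl⟩ := SymNil.mem_Fx.2 a1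
  obtain ⟨b, rfl⟩ := SymNil.mem_Fx.2 b1
  rw [Perm.mem_alternatingGroup, Perm.sign_ofSubtype] at a2 b2
  rw [← map_pow, map_eq_one_iff _ Perm.ofSubtype_injective] at a3 b3
  refine Commute.map ?_ _
  obtain ⟨a, rfl⟩ := O.equivFin.symm.permCongrHom.surjective a
  obtain ⟨b, rfl⟩ := O.equivFin.symm.permCongrHom.surjective b
  rw [← map_pow, map_eq_one_iff _ (MulEquiv.injective _)] at a3 b3
  have a4 : Perm.sign a = 1 := (Perm.sign_permCongr _ _).symm.trans a2
  have b4 : Perm.sign b = 1 := (Perm.sign_permCongr _ _).symm.trans b2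
  refine Commute.map ?_ _
  clear a1 b1 a2 b2
  revert a b
  generalize O.card = m at hO
  rcases hO with rfl | rfl <;> unfold Commute SemiconjBy <;> decide +kernel

theorem pow_orb (h : IsMulCommutative A) {x : α} {r : Perm α} (hr : r ∈ A)
    (h1 : r.support ⊆ orbF A x) : r ^ (orbF A x).card = 1 := by
  have h2 : (r ^ (orbF A x).card) x = x := by
    haveI : (stabilizer A x).Normal := inferInstance
    have := pow_index_mem (H := stabilizer A x) ⟨r, hr⟩
    rw [index_stabilizer, Set.ncard_eq_toFinset_card] at this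
    exact this
  have h3 := support_stab h (S := Finset.univ) (fun _ _ => Finset.subset_univ _) x _
    ⟨pow_mem hr _, h2⟩
  refine Perm.support_eq_empty_iff.1 (Finset.eq_empty_of_forall_notMem fun y hy => ?_)
  exact (Finset.mem_sdiff.1 (h3 hy)).2 (h1 (Perm.support_pow_le _ _ hy))

theorem Ext.mem_of_orb (h : Ext A S) (h3 : 3 ≤ S.card) (h5 : S.card ≠ 5) {x : α} (hx : x ∈ S)
    {c : Perm α} (c1 : c.support ⊆ orbF A x) (c2 : c ∈ alternatingGroup α)
    (c3 : c ^ (orbF A x).card = 1) : c ∈ A := by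
  refine h.mem (by omega) (c1.trans (orbF_subset h.supp hx)) fun a ha => ?_
  obtain ⟨r, r1, s, s1, r2, rfl⟩ := h.split (by omega) hx ha
  refine Commute.mul_left (comm_small ((h.orb h3 h5 hx).1.imp id And.left) r2 c1 (h.alt r1) c2
    (pow_orb h.comm r1 r2) c3) (Perm.Disjoint.commute (Perm.disjoint_iff_disjoint_support.2 ?_))
  exact Finset.disjoint_left.2 fun y h1 h2 =>
    (Finset.mem_sdiff.1 (support_stab h.comm h.supp x s s1 h1)).2 (c1 h2)

theorem mem_cj {g b : Perm α} : b ∈ MulAut.conj g • A ↔ g⁻¹ * b * g ∈ A := by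
  rw [mem_pointwise_smul_iff_inv_smul_mem]; simp

theorem card_cj (g : Perm α) (A : Subgroup (Perm α)) :
    Nat.card (MulAut.conj g • A : Subgroup _) = Nat.card A :=
  (Nat.card_congr (equivSMul (MulAut.conj g) A).toEquiv).symm

theorem Ext.conj (h : Ext A S) {g : Perm α} (hg : g.support ⊆ S) : Ext (MulAut.conj g • A) S := by
  refine ⟨isMulCommutative_iff_forall.2 fun a ha b hb => ?_, fun a ha => SymNil.mem_Fx.1 ?_,
    fun a ha => ?_, (card_cj g A).trans h.card⟩
  · have := isMulCommutative_iff_forall.1 h.comm _ (mem_cj.1 ha) _ (mem_cj.1 hb)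
    simp only [mul_assoc, mul_inv_cancel_left, mul_right_inj] at this
    simpa [← mul_assoc] using this
  · have h1 := SymNil.mem_Fx.2 (h.supp _ (mem_cj.1 ha))
    have h2 := SymNil.mem_Fx.2 hg
    simpa [mul_assoc] using mul_mem (mul_mem h2 h1) (inv_mem h2)
  · simpa [mul_assoc] using (alternatingGroup.normal).conj_mem _ (h.alt (mem_cj.1 ha)) g

theorem exists_move {O O' : Finset α} (h : O ⊆ S) (h' : O' ⊆ S) (e : O.card = O'.card) :
    ∃ g : Perm α, g.support ⊆ S ∧ ∀ x ∈ O, g x ∈ O' := by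
  obtain ⟨σ, hσ⟩ := Perm.exists_map_finset_eq (O.subtype (· ∈ S)) (O'.subtype (· ∈ S)) (by
    rw [Finset.card_subtype, Finset.card_subtype, Finset.filter_true_of_mem h,
      Finset.filter_true_of_mem h', e])
  refine ⟨Perm.ofSubtype σ, SymNil.mem_Fx.1 ⟨σ, rfl⟩, fun x hx => ?_⟩
  rw [Perm.ofSubtype_apply_of_mem σ (h hx)]
  exact Finset.mem_subtype.1 (hσ ▸ Finset.mem_map_of_mem _ (Finset.mem_subtype.2 hx))

theorem Ext.exists_conj (S : Finset α) : ∀ A B : Subgroup (Perm α), Ext A S → Ext B S → S.card ≠ 5 →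
    ∃ g : Perm α, g.support ⊆ S ∧ B = MulAut.conj g • A := by
  induction S using Finset.strongInduction with
  | _ S ih =>
  intro A B hA hB h5
  by_cases h3 : 3 ≤ S.card
  swap
  · have : abA S.card = 1 := by
      generalize S.card = n at h3
      interval_cases n <;> rfl
    exact ⟨1, by simp, by rw [card_eq_one.1 (hA.card.trans this), card_eq_one.1 (hB.card.trans this),
      smul_bot]⟩
  obtain ⟨x, hx, e1⟩ := Ext.exists_orb S A hA h3 h5
  obtain ⟨y, hy, e2⟩ := Ext.exists_orb S B hB h3 h5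
  obtain ⟨g, g1, g2⟩ := exists_move (orbF_subset hA.supp hx) (orbF_subset hB.supp hy)
    (e1.trans e2.symm)
  have hA' := hA.conj g1
  have o1 : orbF (MulAut.conj g • A) (g x) = orbF B y := by
    have : orbF (MulAut.conj g • A) (g x) = (orbF A x).image g := by
      ext z
      simp only [Finset.mem_image, mem_orbF, mem_cj]
      exact ⟨fun ⟨a, ha, e⟩ => ⟨_, ⟨_, ha, rfl⟩, by simpa using e⟩,
        fun ⟨_, ⟨a, ha, rfl⟩, e⟩ => ⟨g * a * g⁻¹, by simpa [mul_assoc] using ha, by simpa using e⟩⟩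
    rw [this]
    refine Finset.eq_of_subset_of_card_le (fun z hz => ?_)
      (by rw [Finset.card_image_of_injective _ g.injective, e1, e2])
    obtain ⟨w, hw, rfl⟩ := Finset.mem_image.1 hz
    exact g2 w hw
  have hx' : g x ∈ S := orbF_subset hB.supp hy (g2 x (self_mem_orbF A x))
  suffices ∃ k : Perm α, k.support ⊆ S ∧ B = MulAut.conj k • MulAut.conj g • A by
    obtain ⟨k, k1, k2⟩ := this
    exact ⟨k * g, (Perm.support_mul_le _ _).trans (Finset.union_subset k1 g1), by
      rw [k2, map_mul, mul_smul]⟩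
  generalize MulAut.conj g • A = C at hA' o1
  generalize g x = z at o1 hx'
  have h6 := (hA'.orb h3 h5 hx').2
  have h7 := hB.orb h3 h5 hy
  rw [o1] at h6
  have hs := orbF_subset hB.supp hy
  have hc := Finset.card_sdiff_add_card_eq_card hs
  have h8 : (S \ orbF B y).card ≠ 5 := fun e => by
    have := card_orbF_mul B y
    rw [h7.2.card, hB.card, ← hc, e] at this
    rcases h7.1 with h | ⟨h, -⟩ <;> rw [h] at this <;> simp [abA] at this
  obtain ⟨k, k1, k2⟩ := ih _ (Finset.sdiff_ssubset hs ⟨y, self_mem_orbF B y⟩) _ _ h6 h7.2 h8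
  refine ⟨k, k1.trans Finset.sdiff_subset, eq_of_le_of_card_ge (fun b hb => ?_)
    (by rw [card_cj, hA'.card, hB.card])⟩
  obtain ⟨r, r1, s, s1, r2, rfl⟩ := hB.split (by omega) hy hb
  refine mul_mem (mem_cj.2 ?_) (mem_cj.2 (mem_inf.1 (mem_cj.1 (k2.le s1))).1)
  have : Commute r k := Perm.Disjoint.commute (Perm.disjoint_iff_disjoint_support.2
    (Finset.disjoint_left.2 fun w h1 h2 => (Finset.mem_sdiff.1 (k1 h2)).2 (r2 h1)))
  rw [mul_assoc, this.eq, inv_mul_cancel_left]
  exact hA'.mem_of_orb h3 h5 hx' (o1 ▸ r2) (hB.alt r1) (o1 ▸ pow_orb hB.comm r1 r2)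

theorem Ext.exists_odd (h : Ext A S) (h3 : 3 ≤ S.card) (h5 : S.card ≠ 5) :
    ∃ t : Perm α, Perm.sign t = -1 ∧ MulAut.conj t • A = A := by
  obtain ⟨x, hx⟩ := Finset.card_pos.1 (show 0 < S.card by omega)
  have h1 := (h.orb h3 h5 hx).1
  obtain ⟨y, hy, hyx⟩ := Finset.exists_mem_ne (show 1 < (orbF A x).card by omega) x
  have ht : (swap x y).support ⊆ orbF A x := by
    rw [Perm.support_swap hyx.symm]
    exact Finset.insert_subset (self_mem_orbF A x) (Finset.singleton_subset_iff.2 hy)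
  refine ⟨swap x y, Perm.sign_swap hyx.symm, (eq_of_le_of_card_ge (fun a ha => mem_cj.2 ?_)
    (card_cj _ _).le).symm⟩
  generalize swap x y = t at ht
  obtain ⟨r, r1, s, s1, r2, rfl⟩ := h.split (by omega) hx ha
  have : Commute s t := Perm.Disjoint.commute (Perm.disjoint_iff_disjoint_support.2
    (Finset.disjoint_left.2 fun w h1 h2 =>
      (Finset.mem_sdiff.1 (support_stab h.comm h.supp x s s1 h1)).2 (ht h2)))
  rw [show t⁻¹ * (r * s) * t = t⁻¹ * r * t * s by rw [mul_assoc, mul_assoc, this.eq]; group]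
  refine mul_mem (h.mem_of_orb h3 h5 hx (SymNil.mem_Fx.1 ?_) ?_ ?_) s1.1
  · exact mul_mem (mul_mem (inv_mem (SymNil.mem_Fx.2 ht)) (SymNil.mem_Fx.2 r2)) (SymNil.mem_Fx.2 ht)
  · simpa using (alternatingGroup.normal).conj_mem _ (h.alt r1) t⁻¹
  · have := conj_pow (a := t⁻¹) (b := r) (i := (orbF A x).card)
    rw [pow_orb h.comm r1 r2] at this
    simpa using this

theorem Ext.exists_conj_even (hA : Ext A S) (hB : Ext B S) (h5 : S.card ≠ 5) :
    ∃ g ∈ alternatingGroup α, B = MulAut.conj g • A := by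
  by_cases h3 : 3 ≤ S.card
  swap
  · have : abA S.card = 1 := by
      generalize S.card = n at h3
      interval_cases n <;> rfl
    exact ⟨1, by simp, by rw [card_eq_one.1 (hA.card.trans this), card_eq_one.1 (hB.card.trans this),
      smul_bot]⟩
  obtain ⟨g, -, hg⟩ := Ext.exists_conj S A B hA hB h5
  rcases Int.units_eq_one_or (Perm.sign g) with h | h
  · exact ⟨g, h, hg⟩
  obtain ⟨t, t1, t2⟩ := hA.exists_odd h3 h5
  exact ⟨g * t, by simp [Perm.mem_alternatingGroup, h, t1], by rw [map_mul, mul_smul, t2, hg]⟩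

end Cfsg.Agent.Mix26
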