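import Mathlib
import Cfsg.Prelude.Def_DegreeGraph
import Cfsg.Agent.S4500
import Cfsg.Agent.S0144
import Cfsg.Agent.S0157
import Cfsg.Agent.Char.Extend
import Cfsg.Agent.Char.Kernel
import Cfsg.Agent.Block.Omega
import Cfsg.Agent.Core.Hall

/-!
A group of order `360` with a character degree divisible by `10` and none divisible by `6` is simple.
-/

set_option autoImplicit false

namespace Cfsg.Agent.Mix26

namespace D360

open Subgroup MulAction Cfsg.Agent.Char Cfsg.Agent.Block

theorem f5 : Fact (Nat.Prime 5) := ⟨by norm_num⟩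

attribute [local instance] f5

theorem n8 : ∀ k ≤ 8, k ∣ 8 → k % 5 = 1 % 5 → k = 1 := by decide
theorem n45 : ∀ k ≤ 45, k ∣ 45 → k % 5 = 1 % 5 → k = 1 := by decide
theorem n72 : ∀ k ≤ 72, k ∣ 72 → k % 5 = 1 % 5 → k ≠ 1 → k = 6 ∨ k = 36 := by decide +kernel
theorem n60 : ∀ k ≤ 60, k ∣ 60 → k ≠ 60 → k ∣ 2 ^ 2 * 3 ^ 1 ∨ k ∣ 2 ^ 2 * 5 ^ 1 ∨ k ∣ 30 := by
  decide +kernel
theorem n6 : ∀ k ≤ 6, k ∣ 6 → k % 3 = 1 % 3 → k = 1 := by decide

variable {G : Type*} [Group G] [Finite G]

theorem solvPQ {p q a b : ℕ} (hp : p.Prime) (hq : q.Prime) (h : Nat.card G ∣ p ^ a * q ^ b) :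
    Group.IsSolvable G := by
  obtain ⟨m, n, hm, hn, e⟩ := Nat.dvd_mul.1 h
  obtain ⟨i, -, rfl⟩ := (Nat.dvd_prime_pow hp).1 hm
  obtain ⟨j, -, rfl⟩ := (Nat.dvd_prime_pow hq).1 hn
  exact S0144.result p q i j hp hq e.symm

theorem solv72 (h : Nat.card G ∣ 360) (h5 : ¬ 5 ∣ Nat.card G) : Group.IsSolvable G :=
  solvPQ (a := 3) (b := 2) Nat.prime_two Nat.prime_three
    (((Nat.Prime.coprime_iff_not_dvd (by norm_num)).2 h5).symm.dvd_of_dvd_mul_left (n := 72) h)

theorem solv60 (h : Nat.card G ∣ 60) (h' : Nat.card G ≠ 60) : Group.IsSolvable G := by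
  rcases n60 _ (Nat.le_of_dvd (by norm_num) h) h h' with h2 | h2 | h2
  · exact solvPQ Nat.prime_two Nat.prime_three h2
  · exact solvPQ Nat.prime_two f5.out h2
  · have := IsZGroup.of_squarefree (G := G) (Squarefree.squarefree_of_dvd h2 (by decide +kernel))
    infer_instance

theorem sub5 (hs : Group.IsSolvable G) (h : Nat.card G ∣ 360) : Subsingleton (Sylow 5 G) := by
  obtain ⟨m, n, hm, hn, e⟩ := (Nat.dvd_mul (m := 45) (n := 8)).1 h
  obtain ⟨H, hH⟩ := Core.exists_subgroup_card_of_coprime (G := G) m n e.symm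
    (Nat.Coprime.coprime_dvd_left hm (Nat.Coprime.coprime_dvd_right hn (by norm_num)))
  have hi : H.index = n := by
    have := H.card_mul_index
    rw [hH, ← e] at this
    exact Nat.eq_of_mul_eq_mul_left (Nat.pos_of_dvd_of_pos hm (by norm_num)) this
  obtain ⟨Q⟩ := (inferInstance : Nonempty (Sylow 5 H))
  have h1 : Nat.card (Sylow 5 H) = 1 := by
    have h2 : Nat.card (Sylow 5 H) ∣ 45 :=
      (Q.card_dvd_index.trans (index_dvd_card _)).trans (hH ▸ hm)
    exact n45 _ (Nat.le_of_dvd (by norm_num) h2) h2 (card_sylow_modEq_one 5 H)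
  have : Subsingleton (Sylow 5 H) := (Nat.card_eq_one_iff_unique.1 h1).1
  have hN : (Q : Subgroup H).Normal := Q.normal_of_subsingleton
  have hidx : ¬ 5 ∣ ((Q : Subgroup H).map H.subtype).index := by
    rw [index_map_subtype, f5.out.dvd_mul, hi]
    rintro (h5 | h5)
    · exact Q.not_dvd_index h5
    · exact absurd (h5.trans hn) (by norm_num)
  have hle : H ≤ normalizer (((Q : Subgroup H).map H.subtype : Subgroup G) : Set G) := by
    rw [← normal_subgroupOf_iff_le_normalizer (map_subtype_le _)]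
    rwa [subgroupOf, comap_map_eq_self_of_injective H.subtype_injective]
  have h4 := ((Q.isPGroup'.map H.subtype).toSylow hidx).card_eq_index_normalizer
  have h5 : Nat.card (Sylow 5 G) ∣ 8 := h4 ▸ ((index_dvd_of_le hle).trans (hi ▸ hn))
  have h3 := card_sylow_modEq_one 5 G
  exact (Nat.card_eq_one_iff_unique.1 (n8 _ (Nat.le_of_dvd (by norm_num) h5) h5 h3)).1

theorem zp_eq {p : ℕ} (hp : p.Prime) {R : Subgroup G} (hR : Nat.card R = p) {y : G} (hy : y ∈ R)
    (h1 : y ≠ 1) : zpowers y = R := by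
  have h := card_dvd_of_le (zpowers_le.2 hy)
  rw [hR] at h
  refine eq_of_le_of_card_ge (zpowers_le.2 hy) ?_
  rw [hR, ((Nat.dvd_prime hp).1 h).resolve_left (by rwa [card_eq_one, zpowers_eq_bot])]

theorem relAut {p : ℕ} (hp : p.Prime) {R : Subgroup G} (hR : Nat.card R = p) :
    (centralizer (R : Set G)).relIndex (normalizer (R : Set G)) ∣ p - 1 := by
  have := Fact.mk hp
  have := isCyclic_of_prime_card hR
  rw [relIndex, ← normalizerMonoidHom_ker, index_ker, ← Nat.totient_prime hp, ← hR,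
    ← IsCyclic.card_mulAut]
  exact card_subgroup_dvd_card _

section
variable (hG : Nat.card G = 360) (P : Sylow 5 G)
include hG

theorem cardP : Nat.card P = 5 := by
  rw [P.card_eq_multiplicity, hG]
  decide +kernel

theorem le_norm {K : Subgroup G} (hK : Group.IsSolvable K) (h : (P : Subgroup G) ≤ K) :
    K ≤ normalizer ((P : Subgroup G) : Set G) := by
  have := sub5 hK (hG ▸ card_subgroup_dvd_card K)
  rw [← normal_subgroupOf_iff_le_normalizer h]
  exact (P.subtype h).normal_of_subsingleton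

theorem nsolv (hP : ¬ (P : Subgroup G).Normal) {K : Subgroup G} [K.Normal]
    (h : (P : Subgroup G) ≤ K) : ¬ Group.IsSolvable K := fun hK => by
  have h1 := Sylow.normalizer_sup_eq_top' P h
  rw [← Sylow.coe_coe, sup_eq_left.2 (le_norm hG P hK h)] at h1
  exact hP (normalizer_eq_top_iff.1 h1)

theorem cent {K : Subgroup G} [hK : K.Normal] (h5 : ¬ 5 ∣ Nat.card K) :
    K ≤ centralizer ((P : Subgroup G) : Set G) := by
  have hs : Group.IsSolvable ↥((P : Subgroup G) ⊔ K) := by
    rw [Group.isSolvable_iff_subgroup_quotient (K.subgroupOf ((P : Subgroup G) ⊔ K))]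
    constructor
    · have e := Nat.card_congr (subgroupOfEquivOfLe (le_sup_right : K ≤ (P : Subgroup G) ⊔ K)).toEquiv
      exact solv72 (e ▸ hG ▸ card_subgroup_dvd_card K) (e ▸ h5)
    · refine solvPQ (a := 1) (b := 0) f5.out Nat.prime_two ?_
      rw [← index_eq_card]
      change K.relIndex _ ∣ _
      rw [relIndex_sup_right]
      exact (relIndex_dvd_card _ _).trans (by rw [cardP hG]; norm_num)
  have h1 := le_sup_right.trans (le_norm hG P hs le_sup_left)
  have h2 : (P : Subgroup G) ⊓ K = ⊥ := inf_eq_bot_of_coprime (by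
    rw [cardP hG]; exact f5.out.coprime_iff_not_dvd.2 h5)
  intro k hk y hy
  have h3 : y * k * y⁻¹ * k⁻¹ ∈ (P : Subgroup G) ⊓ K := by
    refine ⟨?_, K.mul_mem (hK.conj_mem k hk y) (K.inv_mem hk)⟩
    rw [mul_assoc, mul_assoc, ← mul_assoc k]
    exact (P : Subgroup G).mul_mem hy ((h1 hk _).1 ((P : Subgroup G).inv_mem hy))
  rw [h2, mem_bot, mul_inv_eq_one, mul_inv_eq_iff_eq_mul] at h3
  exact h3

theorem burn {K : Subgroup G} (h : (P : Subgroup G) ≤ K)
    (hc : normalizer ((P : Subgroup G) : Set G) ⊓ K ≤ centralizer ((P : Subgroup G) : Set G)) :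
    Group.IsSolvable K := by
  have h1 : normalizer ((P.subtype h : Sylow 5 K) : Set K) ≤
      centralizer ((P.subtype h : Sylow 5 K) : Set K) := by
    intro k hk y hy
    rw [← Sylow.coe_coe, Sylow.coe_subtype, ← subgroupOf_normalizer_eq h] at hk
    exact Subtype.ext (hc ⟨hk, k.2⟩ y hy)
  have h2 := MonoidHom.ker_transferSylow_isComplement' _ h1
  have h3 := h2.index_eq_card
  have h4 : Group.IsSolvable (MonoidHom.transferSylow _ h1).ker :=
    solv72 ((card_subgroup_dvd_card _).trans (hG ▸ card_subgroup_dvd_card K))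
      (h3 ▸ (P.subtype h).not_dvd_index)
  have h5 : Group.IsNilpotent (P.subtype h : Subgroup K) := (P.subtype h).isPGroup'.isNilpotent
  exact Group.isSolvable_of_ker_le_range (MonoidHom.transferSylow _ h1).ker.subtype
    (MonoidHom.transferSylow _ h1) (by rw [range_subtype])

theorem stab {Q : Sylow 5 G} (h : Q ≠ P) {y : G} (hy : y ∈ (P : Subgroup G)) (e : y • Q = Q) :
    y = 1 := by
  by_contra h1
  have h2 : y ∈ (P : Subgroup G) ⊓ Q := by
    rw [← P.isPGroup'.inf_normalizer_sylow Q]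
    exact ⟨hy, Sylow.smul_eq_iff_mem_normalizer.1 e⟩
  exact h (Sylow.ext ((zp_eq f5.out (cardP hG Q) h2.2 h1).symm.trans
    (zp_eq f5.out (cardP hG P) hy h1)))

theorem le_cent : (P : Subgroup G) ≤ centralizer ((P : Subgroup G) : Set G) := by
  have := isCyclic_of_prime_card (cardP hG P)
  intro x hx y hy
  exact congrArg Subtype.val (mul_comm' (⟨y, hy⟩ : (P : Subgroup G)) ⟨x, hx⟩)

theorem nums (hP : ¬ (P : Subgroup G).Normal) :
    Nat.card (Sylow 5 G) = 6 ∧ (Nat.card (centralizer ((P : Subgroup G) : Set G)) = 15 ∨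
      Nat.card (centralizer ((P : Subgroup G) : Set G)) = 30) ∨
    Nat.card (normalizer ((P : Subgroup G) : Set G)) = 10 ∧
      Nat.card (centralizer ((P : Subgroup G) : Set G)) = 5 := by
  have h1 := relAut f5.out (cardP hG P)
  have h2 : (centralizer ((P : Subgroup G) : Set G)).relIndex
      (normalizer ((P : Subgroup G) : Set G)) ≠ 1 := fun h =>
    nsolv hG P hP le_top (burn hG P le_top (inf_le_left.trans (relIndex_eq_one.1 h)))
  have h3 := (normalizer ((P : Subgroup G) : Set G)).card_mul_index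
  have h4 := ((centralizer ((P : Subgroup G) : Set G)).subgroupOf
    (normalizer ((P : Subgroup G) : Set G))).card_mul_index
  rw [Nat.card_congr (subgroupOfEquivOfLe (centralizer_le_normalizer _)).toEquiv] at h4
  change _ * Subgroup.relIndex _ _ = _ at h4
  have h5 := card_sylow_modEq_one 5 G
  have h6 := P.card_eq_index_normalizer
  rw [← Sylow.coe_coe] at h6
  have h7 : Nat.card (Sylow 5 G) ≠ 1 := fun h => hP (normalizer_eq_top_iff.1 (index_eq_one.1 (h6 ▸ h)))
  have h8 : Nat.card (Sylow 5 G) ∣ 72 := by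
    have := (P : Subgroup G).card_mul_index
    rw [cardP hG, hG] at this
    exact P.card_dvd_index.trans (by rw [show (P : Subgroup G).index = 72 by omega])
  rw [← h6, hG] at h3
  have h9 := Nat.le_of_dvd (by norm_num) h8
  have h10 := Nat.le_of_dvd (by norm_num) h1
  have h11 := n72 _ h9 h8 h5 h7
  generalize (centralizer ((P : Subgroup G) : Set G)).relIndex _ = r at *
  rcases h11 with h11 | h11 <;> rw [h11] at h3 <;> interval_cases r <;> omega

theorem simple36 (hP : ¬ (P : Subgroup G).Normal)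
    (hN : Nat.card (normalizer ((P : Subgroup G) : Set G)) = 10)
    (hC : Nat.card (centralizer ((P : Subgroup G) : Set G)) = 5) : IsSimpleGroup G := by
  have : Nontrivial G := Finite.one_lt_card_iff_nontrivial.1 (by omega)
  refine ⟨fun K hK => ?_⟩
  by_cases h5 : 5 ∣ Nat.card K
  · right
    have h1 : (P : Subgroup G) ≤ K := by
      obtain ⟨y, hy⟩ := exists_prime_orderOf_dvd_card' 5 h5
      obtain ⟨Q, hQ⟩ := (IsPGroup.of_card (n := 1) (p := 5) (G := zpowers (y : G)) (by
        rw [Nat.card_zpowers, orderOf_coe, hy, pow_one])).exists_le_sylow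
      obtain ⟨g, rfl⟩ := exists_smul_eq G Q P
      have h2 := zp_eq f5.out (cardP hG Q) (hQ (mem_zpowers _)) (fun h => by
        rw [← orderOf_coe, h, orderOf_one] at hy; omega)
      rw [Sylow.coe_subgroup_smul, ← h2]
      rintro _ ⟨x, hx, rfl⟩
      exact hK.conj_mem x (zpowers_le.2 y.2 hx) g
    have h2 := Sylow.normalizer_sup_eq_top' P h1
    rw [← Sylow.coe_coe] at h2
    by_contra h3
    have h4 : ¬ normalizer ((P : Subgroup G) : Set G) ≤ normalizer ((P : Subgroup G) : Set G) ⊓ K :=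
      fun h => h3 (by rw [← h2, sup_eq_right.2 (h.trans inf_le_right)])
    have h6 := card_dvd_of_le (inf_le_left : normalizer ((P : Subgroup G) : Set G) ⊓ K ≤ _)
    have h7 := card_dvd_of_le (le_inf le_normalizer h1)
    have h8 : Nat.card ↥(normalizer ((P : Subgroup G) : Set G) ⊓ K) ≠ 10 := fun h =>
      h4 (eq_of_le_of_card_ge inf_le_left (by rw [h, hN])).ge
    rw [hN] at h6
    rw [cardP hG] at h7
    have h9 := Nat.le_of_dvd (by norm_num) h6
    have h10 := Nat.pos_of_dvd_of_pos h6 (by norm_num)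
    have h11 := eq_of_le_of_card_ge (le_inf le_normalizer h1) (by rw [cardP hG]; omega)
    exact nsolv hG P hP h1 (burn hG P h1 (h11 ▸ le_cent hG P))
  · left
    have h1 := card_dvd_of_le (cent hG P h5)
    rw [hC] at h1
    exact card_eq_one.1 (((Nat.dvd_prime f5.out).1 h1).resolve_right fun h => h5 h.symm.dvd)

theorem orb (h6 : Nat.card (Sylow 5 G) = 6) {Q R : Sylow 5 G} (hQ : Q ≠ P) (hR : R ≠ P) :
    ∃ g ∈ (P : Subgroup G), g • Q = R := by
  have e1 : (orbit (P : Subgroup G) Q).ncard = 5 := by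
    rw [← index_stabilizer, (eq_bot_iff_forall (stabilizer (P : Subgroup G) Q)).2 fun y hy =>
      Subtype.ext (stab hG P hQ y.2 hy), index_bot, cardP hG]
  have e2 : orbit (P : Subgroup G) Q ⊆ {P}ᶜ := by
    rintro _ ⟨g, rfl⟩ e
    apply hQ
    have e' : (g : G) • Q = P := e
    rw [← inv_smul_smul (g : G) Q, e']
    exact Sylow.smul_eq_iff_mem_normalizer.2 (le_normalizer (inv_mem g.2))
  have e3 : ({P}ᶜ : Set (Sylow 5 G)).ncard = 5 := by
    have := Set.ncard_add_ncard_compl ({P} : Set (Sylow 5 G))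
    rw [Set.ncard_singleton, h6] at this
    omega
  have e4 := Set.eq_of_subset_of_ncard_le e2 (by omega)
  obtain ⟨g, hg⟩ : R ∈ orbit (P : Subgroup G) Q := by rw [e4]; exact hR
  exact ⟨g, g.2, hg⟩

theorem deg5 (h6 : Nat.card (Sylow 5 G) = 6) : ∃ ψ : G → ℂ, IsIrrCharacter G ψ ∧ ψ 1 = 5 := by
  have h2t : IsMultiplyPretransitive G (Sylow 5 G) 2 := by
    rw [is_two_pretransitive_iff]
    intro a b c d hab hcd
    obtain ⟨g, hg⟩ := exists_smul_eq G a c
    obtain ⟨k, hk, hk'⟩ := orb hG c h6 (Q := g • b) (R := d)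
      (fun e => hab (smul_left_cancel g (hg.trans e.symm))) hcd.symm
    refine ⟨k * g, ?_, by rw [mul_smul, hk']⟩
    rw [mul_smul, hg]
    exact Sylow.smul_eq_iff_mem_normalizer.2 (le_normalizer hk)
  refine ⟨_, (S0157.result (G := G) (Sylow 5 G) (by omega)).2 h2t, ?_⟩
  simp only [fixedBy_one_eq_univ, Nat.card_coe_set_eq, Set.ncard_univ, h6]
  norm_num

theorem exists_three (h6 : Nat.card (Sylow 5 G) = 6)
    (hC : Nat.card (centralizer ((P : Subgroup G) : Set G)) = 15 ∨
      Nat.card (centralizer ((P : Subgroup G) : Set G)) = 30) :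
    ∃ Z : Subgroup G, Z.Normal ∧ Nat.card Z = 3 ∧ (P : Subgroup G) ≤ centralizer (Z : Set G) := by
  obtain ⟨z, hz⟩ := exists_prime_orderOf_dvd_card' (G := centralizer ((P : Subgroup G) : Set G)) 3
    (by omega)
  set L := (toPermHom G (Sylow 5 G)).ker
  have hL : ∀ {g : G}, g ∈ L ↔ ∀ Q : Sylow 5 G, g • Q = Q := by
    intro g
    simp [L, Equiv.ext_iff]
  have hzP : (z : G) • P = P := Sylow.smul_eq_iff_mem_normalizer.2 (centralizer_le_normalizer _ z.2)
  have hzL : (z : G) ∈ L := by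
    obtain ⟨Q, hQ, hPQ⟩ := (IsPGroup.of_card (n := 1) (p := 3) (G := zpowers (z : G)) (by
      rw [Nat.card_zpowers, orderOf_coe, hz, pow_one])).exists_fixed_point_of_prime_dvd_card_of_fixed_point
      (Sylow 5 G) (by omega) (a := P) (fun g => (zpowers_le (H := stabilizer G P)).2 hzP g.2)
    have hQ' : (z : G) • Q = Q := hQ ⟨z, mem_zpowers _⟩
    refine hL.2 fun R => ?_
    by_cases hR : R = P
    · rw [hR, hzP]
    · obtain ⟨g, hg, rfl⟩ := orb hG P h6 hPQ.symm hR
      rw [← mul_smul, ← z.2 g hg, mul_smul, hQ']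
  have h5 : ¬ 5 ∣ Nat.card L := fun h5 => by
    obtain ⟨y, hy⟩ := exists_prime_orderOf_dvd_card' 5 h5
    obtain ⟨Q, hQ⟩ := (IsPGroup.of_card (n := 1) (p := 5) (G := zpowers (y : G)) (by
      rw [Nat.card_zpowers, orderOf_coe, hy, pow_one])).exists_le_sylow
    have : Nontrivial (Sylow 5 G) := Finite.one_lt_card_iff_nontrivial.1 (by omega)
    obtain ⟨R, hR⟩ := exists_ne Q
    have := stab hG Q hR (hQ (mem_zpowers _)) (hL.1 y.2 R)
    rw [← orderOf_coe, this, orderOf_one] at hy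
    omega
  have hLC := cent hG P h5
  have h1 : Nat.card L ∣ 6 :=
    (f5.out.coprime_iff_not_dvd.2 h5).symm.dvd_of_dvd_mul_left (n := 6)
      ((card_dvd_of_le hLC).trans (by rcases hC with h | h <;> rw [h] <;> norm_num))
  have h3 : 3 ∣ Nat.card L := by
    rw [← hz, ← orderOf_coe]
    exact L.orderOf_dvd_natCard hzL
  obtain ⟨S⟩ := (inferInstance : Nonempty (Sylow 3 L))
  have h2 : Nat.card (Sylow 3 L) ∣ 6 := (S.card_dvd_index.trans (index_dvd_card _)).trans h1
  have : Subsingleton (Sylow 3 L) := (Nat.card_eq_one_iff_unique.1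
    (n6 _ (Nat.le_of_dvd (by norm_num) h2) h2 (card_sylow_modEq_one 3 L))).1
  have := S.characteristic_of_normal S.normal_of_subsingleton
  refine ⟨(S : Subgroup L).map L.subtype, inferInstance, ?_,
    le_centralizer_iff.1 ((map_subtype_le _).trans hLC)⟩
  rw [card_map_of_injective L.subtype_injective, S.card_eq_multiplicity]
  have := Nat.le_of_dvd (by norm_num) h1
  have := Nat.pos_of_dvd_of_pos h1 (by norm_num)
  rcases (show Nat.card L = 3 ∨ Nat.card L = 6 by omega) with h | h <;> rw [h] <;> decide +kernel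

end

theorem exists_lam {m : ℕ} (hG : Nat.card G = 3 ^ 2 * m) (hm : ¬ 3 ∣ m) {z : G} (hz : z ∈ center G)
    (h3 : orderOf z = 3) : ∃ lam : G →* ℂˣ, lam z ≠ 1 := by
  obtain ⟨S, hS⟩ := (IsPGroup.of_card (n := 1) (p := 3) (G := zpowers z) (by
    rw [Nat.card_zpowers, h3, pow_one])).exists_le_sylow
  have hm0 : m ≠ 0 := fun h => hm (h ▸ dvd_zero _)
  have h1 : Nat.card S = 3 ^ 2 := by
    rw [S.card_eq_multiplicity, hG, Nat.factorization_mul (by norm_num) hm0,
      Nat.prime_three.factorization_pow]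
    simp [Nat.factorization_eq_zero_of_not_dvd hm]
  letI := IsPGroup.commGroupOfCardEqPrimeSq h1
  have key : ∀ (k : ℕ) (g₀ : G), g₀⁻¹ * z ^ k * g₀ ∈ (S : Subgroup G) → g₀⁻¹ * z ^ k * g₀ = z ^ k :=
    fun k g _ => by rw [mul_assoc, ← mem_center_iff.1 (pow_mem hz k), inv_mul_cancel_left]
  obtain ⟨φ, hφ⟩ := CommGroup.exists_apply_ne_one_of_hasEnoughRootsOfUnity (S : Subgroup G) ℂ
    (a := ⟨z ^ (S : Subgroup G).index, MonoidHom.transfer_eq_pow_aux z key⟩) (fun h =>
      S.not_dvd_index (h3.symm.dvd.trans (orderOf_dvd_of_pow_eq_one (congrArg Subtype.val h))))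
  exact ⟨MonoidHom.transfer φ, by rwa [MonoidHom.transfer_eq_pow φ z key]⟩

theorem ne_zero_of_center {χ : G → ℂ} (h : IsIrrCharacter G χ) {z : G} (hz : z ∈ center G) :
    χ z ≠ 0 := fun e => by
  have := (mem_charCenter_iff (isIrr_isChar h)).1 (center_le_charCenter h hz)
  rw [e, norm_zero, eq_comm, norm_eq_zero] at this
  exact isIrr_one_ne_zero h this

theorem central_case (hG : Nat.card G = 360) {χ ψ : G → ℂ} (hχ : IsIrrCharacter G χ)
    (hψ : IsIrrCharacter G ψ) (h10 : χ 1 = 10) (h5 : ψ 1 = 5) {z : G} (hz : z ∈ center G)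
    (h3 : orderOf z = 3) : False := by
  classical
  have := Fintype.ofFinite G
  obtain ⟨lam, hl⟩ := exists_lam (m := 40) (by rw [hG]; norm_num) (by norm_num) hz h3
  have ho : orderOf (lam z) = 3 := ((Nat.dvd_prime Nat.prime_three).1
    (h3 ▸ orderOf_map_dvd lam z)).resolve_left (by rwa [orderOf_eq_one_iff])
  let c : Bool → G → ℂ := fun b => if b then χ else ψ
  have hc : ∀ b, IsIrrCharacter G (c b) := by rintro (_ | _) <;> assumption
  let Φ : Fin 3 × Bool → IrrCharacter G := fun a => ⟨_, isIrr_mul_linear (hc a.2) (lam ^ a.1.1)⟩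
  have hd : ∀ a, charDegree (Φ a).1 = if a.2 then 10 else 5 := by
    rintro ⟨i, _ | _⟩ <;> apply charDegree_of_eq <;> simp [Φ, c, h10, h5]
  have hi : Function.Injective Φ := by
    rintro ⟨i, b⟩ ⟨j, b'⟩ e
    obtain rfl : b = b' := by
      have := (hd (i, b)).symm.trans (e ▸ hd (j, b'))
      revert this
      cases b <;> cases b' <;> simp
    have h1 : c b z * ((lam ^ i.1) z : ℂˣ) = c b z * ((lam ^ j.1) z : ℂˣ) :=
      congrFun (congrArg Subtype.val e) z
    have h2 := Units.ext (mul_left_cancel₀ (ne_zero_of_center (hc b) hz) h1)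
    rw [MonoidHom.pow_apply, MonoidHom.pow_apply] at h2
    rw [Fin.ext (pow_injOn_Iio_orderOf (by rw [ho]; exact i.2) (by rw [ho]; exact j.2) h2)]
  have h := sum_irr_one_sq (G := G)
  simp only [← irr_degree_cast] at h
  have h' : ∑ χ : IrrCharacter G, charDegree (χ : G → ℂ) ^ 2 = Nat.card G := by exact_mod_cast h
  have h4 := Finset.sum_le_sum_of_subset (f := fun χ : IrrCharacter G => charDegree (χ : G → ℂ) ^ 2)
    (Finset.subset_univ (Finset.univ.map ⟨Φ, hi⟩))
  rw [h', Finset.sum_map, hG] at h4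
  simp only [Function.Embedding.coeFn_mk, hd] at h4
  revert h4
  decide

theorem deg3 (hG : Nat.card G = 60) (hs : ¬ Group.IsSolvable G) :
    ∃ (θ : G → ℂ) (d : ℕ), IsIrrCharacter G θ ∧ θ 1 = (3 * d : ℕ) := by
  have : Nontrivial G := Finite.one_lt_card_iff_nontrivial.1 (by omega)
  obtain ⟨θ, h1, k, hk⟩ := (S4500.result 5 3 2 1 1 2 f5.out Nat.prime_three Nat.prime_two
    (by norm_num) (by norm_num) (by norm_num) (by norm_num) (G := G) (by rw [hG]; norm_num)).1
  have h2 := irr_degree_cast θ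
  rcases k with _ | k
  · obtain ⟨μ, hμ⟩ := isChar_linear_of_degree_one (irr_isChar θ) (by rw [← h2, hk]; simp)
    have h3 : Group.IsSolvable μ.ker := solv60 (hG ▸ card_subgroup_dvd_card _) fun h => h1 (by
      have h4 : μ.ker = ⊤ := eq_top_of_card_eq _ (h.trans hG.symm)
      rw [hμ]
      funext g
      rw [show μ g = 1 from h4.ge (mem_top g), Units.val_one])
    exact absurd (Group.isSolvable_of_ker_le_range μ.ker.subtype μ (by rw [range_subtype])) hs
  · exact ⟨θ, 3 ^ k, θ.2, by rw [← h2, hk, pow_succ']⟩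

theorem index_case (hG : Nat.card G = 360) {Z : Subgroup G} [hN : Z.Normal] (hZ : Nat.card Z = 3)
    (hi : (centralizer (Z : Set G)).index = 2) (hs : ¬ Group.IsSolvable (centralizer (Z : Set G))) :
    ∃ d ∈ charDegrees G, 6 ∣ d := by
  have := Fintype.ofFinite G
  set H := centralizer (Z : Set G)
  have := isCyclic_of_prime_card hZ
  have hZH : Z ≤ H := fun x hx y hy => congrArg Subtype.val (mul_comm' (⟨y, hy⟩ : Z) ⟨x, hx⟩)
  have hH : Nat.card H = 180 := by
    have := H.card_mul_index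
    rw [hi] at this
    omega
  have hZ' : Nat.card (Z.subgroupOf H) = 3 := (Nat.card_congr (subgroupOfEquivOfLe hZH).toEquiv).trans hZ
  have hQ : Nat.card (H ⧸ Z.subgroupOf H) = 60 := by
    have := (Z.subgroupOf H).card_mul_index
    rw [index_eq_card, hZ'] at this
    omega
  obtain ⟨θ, d, hθ, hd⟩ := deg3 hQ fun h => hs ((Group.isSolvable_iff_subgroup_quotient _).2
    ⟨solvPQ (a := 1) (b := 0) Nat.prime_three Nat.prime_two (by rw [hZ']; norm_num), h⟩)
  obtain ⟨z, hz⟩ := exists_prime_orderOf_dvd_card' 3 hZ.symm.dvd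
  have hz1 : (z : G) ≠ 1 := fun h => by rw [← orderOf_coe, h, orderOf_one] at hz; omega
  obtain ⟨lam, hl⟩ := exists_lam (G := H) (m := 20) (by rw [hH]; norm_num) (by norm_num)
    (z := ⟨z, hZH z.2⟩) (mem_center_iff.2 fun g => Subtype.ext (g.2 z z.2).symm)
    (by rw [← orderOf_coe, ← hz, ← orderOf_coe z])
  have h1 := isIrr_mul_linear (isIrr_comp_surjective _ (QuotientGroup.mk'_surjective _) hθ) lam
  have := Fintype.ofFinite H
  have h2 := (Clifford.isIrr_indFun_iff h1).2 fun g hg => by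
    have h3 := Clifford.mem_inertia'.1 hg ⟨z, hZH z.2⟩
    have hc := hN.conj_mem z z.2 g
    have e1 : ∀ (w : H), (w : G) ∈ Z → QuotientGroup.mk' (Z.subgroupOf H) w = 1 := fun w hw =>
      (QuotientGroup.eq_one_iff w).2 hw
    simp only [e1 ⟨_, hZH hc⟩ hc, e1 ⟨z, hZH z.2⟩ z.2] at h3
    have h4 := Units.ext (mul_left_cancel₀ (isIrr_one_ne_zero hθ) h3)
    have h5 : g * z * g⁻¹ * (z : G)⁻¹ = 1 := by
      by_contra h5
      obtain ⟨k, hk⟩ := (zp_eq Nat.prime_three hZ (mul_mem hc (inv_mem z.2)) h5).ge z.2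
      apply hl
      have h6 : (⟨z, hZH z.2⟩ : H) = (⟨_, hZH hc⟩ * (⟨z, hZH z.2⟩ : H)⁻¹) ^ k := Subtype.ext hk.symm
      rw [h6, map_zpow, map_mul, map_inv, h4, mul_inv_cancel, one_zpow]
    rw [mul_inv_eq_one, mul_inv_eq_iff_eq_mul] at h5
    intro y hy
    obtain ⟨k, rfl⟩ := (zp_eq Nat.prime_three hZ z.2 hz1).ge hy
    exact (show Commute (z : G) g from h5.symm).zpow_left k
  refine ⟨6 * d, ⟨⟨_, h2⟩, charDegree_of_eq ?_⟩, dvd_mul_right _ _⟩
  change indFun H _ 1 = _
  rw [Ind.indFun_one, hi, map_one, map_one, hd]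
  push_cast
  ring

end D360

open D360 Cfsg.Agent.Char Cfsg.Agent.Block Subgroup in
theorem simple360 {G : Type*} [Group G] [Finite G] (h : Nat.card G = 360)
    (h10 : ∃ d ∈ Cfsg.charDegrees G, 10 ∣ d) (h6 : ∀ d ∈ Cfsg.charDegrees G, ¬ 6 ∣ d) :
    IsSimpleGroup G := by
  have := f5
  have := Fintype.ofFinite G
  obtain ⟨_, ⟨χ, rfl⟩, hd⟩ := h10
  obtain ⟨P⟩ := (inferInstance : Nonempty (Sylow 5 G))
  have hP : ¬ (P : Subgroup G).Normal := fun hP => by
    have := isCyclic_of_prime_card (cardP h P)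
    exact P.not_dvd_index ((Dvd.dvd.trans (by norm_num) hd).trans
      (Extend.degree_dvd_index_of_comm _ χ.2 (irr_degree_cast χ).symm))
  rcases nums h P hP with ⟨h1, h2⟩ | ⟨h1, h2⟩
  · exfalso
    obtain ⟨Z, hN, hZ, hPZ⟩ := exists_three h P h1 h2
    have h3 := relAut Nat.prime_three hZ
    rw [normalizer_eq_top, relIndex_top_right] at h3
    rcases (Nat.dvd_prime Nat.prime_two).1 h3 with h4 | h4
    · obtain ⟨ψ, hψ, h5⟩ := deg5 h h1
      obtain ⟨z, hz⟩ := exists_prime_orderOf_dvd_card' 3 hZ.symm.dvd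
      have h7 := sum_irr_one_sq (G := G)
      simp only [← irr_degree_cast] at h7
      have h8 : ∑ χ : IrrCharacter G, charDegree (χ : G → ℂ) ^ 2 = Nat.card G := by
        exact_mod_cast h7
      have h9 := Finset.single_le_sum (f := fun χ : IrrCharacter G => charDegree (χ : G → ℂ) ^ 2)
        (fun _ _ => Nat.zero_le _) (Finset.mem_univ χ)
      have h11 := irr_degree_ne_zero χ
      rw [h8, h] at h9
      have h12 : charDegree (χ : G → ℂ) < 20 := by nlinarith
      refine central_case h χ.2 hψ ?_ h5 (z := z) (mem_center_iff.2 fun g => ?_)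
        ((orderOf_coe z).trans hz)
      · rw [← irr_degree_cast, show charDegree (χ : G → ℂ) = 10 by omega]
        norm_num
      · exact ((index_eq_one.1 h4).ge (mem_top g) z z.2).symm
    · obtain ⟨d, h5, h7⟩ := index_case h hZ h4 (nsolv h P hP hPZ)
      exact h6 d h5 h7
  · exact simple36 h P hP h1 h2

end Cfsg.Agent.Mix26
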