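import Mathlib

set_option autoImplicit false
open Matrix
open scoped MatrixGroups

namespace Cfsg.Agent.Mix26

theorem conj_of_odd {G : Type*} [Group G] {x z : G} (hx : x * x = 1) (hz : z * z = 1)
    (h : Odd (orderOf (x * z))) : IsConj x z := by
  obtain ⟨k, hk⟩ := h
  have h1 : (x * z) ^ (2 * k + 1) = 1 := hk ▸ pow_orderOf_eq_one _
  have hx' : x⁻¹ = x := inv_eq_of_mul_eq_one_right hx
  have hz' : z⁻¹ = z := inv_eq_of_mul_eq_one_right hz
  have h2 : x * (x * z) ^ k * x⁻¹ = ((x * z) ^ k)⁻¹ := by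
    rw [← conj_pow, ← inv_pow, _root_.mul_inv_rev, hx', hz', ← mul_assoc, hx, one_mul]
  refine isConj_iff.2 ⟨(x * z) ^ k, ?_⟩
  have h3 : ((x * z) ^ k)⁻¹ = (x * z) ^ k * (x * z) := by
    rw [inv_eq_iff_mul_eq_one, ← mul_assoc, ← pow_add, ← pow_succ, ← two_mul, h1]
  have h4 : x * ((x * z) ^ k)⁻¹ = (x * z) ^ k * x := by
    rw [← h2, ← mul_assoc, ← mul_assoc, hx, one_mul, hx']
  calc (x * z) ^ k * x * ((x * z) ^ k)⁻¹ = x * ((x * z) ^ k)⁻¹ * ((x * z) ^ k)⁻¹ := by rw [h4]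
    _ = x * (((x * z) ^ k)⁻¹ * ((x * z) ^ k * (x * z))) := by rw [← h3, mul_assoc]
    _ = z := by rw [inv_mul_cancel_left, ← mul_assoc, hx, one_mul]

theorem inv_graph {G : Type*} [Group G] (t : G) (ht : t * t = 1)
    (h1 : ∀ x y, IsConj t x → IsConj t y →
      ∃ z, z * z = 1 ∧ Odd (orderOf (x * z)) ∧ Odd (orderOf (z * y)))
    (h2 : ∃ x y, IsConj t x ∧ IsConj t y ∧ ¬ Odd (orderOf (x * y))) :
    (SimpleGraph.fromRel fun x y : {x : G // IsConj t x} => Odd (orderOf (x.1 * y.1))).Connected ∧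
      (SimpleGraph.fromRel fun x y : {x : G // IsConj t x} => Odd (orderOf (x.1 * y.1))).diam = 2 := by
  set Γ := SimpleGraph.fromRel fun x y : {x : G // IsConj t x} => Odd (orderOf (x.1 * y.1))
  have sq : ∀ x, IsConj t x → x * x = 1 := fun x hx => by
    obtain ⟨c, rfl⟩ := isConj_iff.1 hx
    rw [conj_mul, ht]; simp
  have e : Γ.ediam = 2 := by
    apply le_antisymm
    · rw [SimpleGraph.ediam_le_iff]
      intro u v
      by_contra! hc
      obtain ⟨hn, ha, he⟩ := SimpleGraph.two_lt_edist_iff.mp hc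
      obtain ⟨z, z1, z2, z3⟩ := h1 u v u.2 v.2
      let w : {x : G // IsConj t x} := ⟨z, u.2.trans (conj_of_odd (sq _ u.2) z1 z2)⟩
      by_cases e1 : u = w
      · exact ha ⟨hn, Or.inl (e1 ▸ z3)⟩
      by_cases e2 : v = w
      · exact ha ⟨hn, Or.inl (e2 ▸ z2)⟩
      have : w ∈ Γ.commonNeighbors u v := ⟨⟨e1, Or.inl z2⟩, ⟨e2, Or.inr z3⟩⟩
      simp_all
    · obtain ⟨x, y, hx, hy, h⟩ := h2
      refine le_trans ?_ (SimpleGraph.edist_le_ediam (u := ⟨x, hx⟩) (v := ⟨y, hy⟩))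
      by_contra! hc
      rcases SimpleGraph.edist_le_one_iff_adj_or_eq.1 (Order.le_of_lt_succ hc) with h3 | h3
      · rcases h3.2 with h4 | h4
        · exact h h4
        · apply h
          have : SemiconjBy x (y * x) (x * y) := (mul_assoc x y x).symm
          rwa [← SemiconjBy.orderOf_eq x this]
      · obtain rfl : x = y := congrArg Subtype.val h3
        exact h (by rw [sq x hx]; simp)
  haveI : Nonempty {x : G // IsConj t x} := ⟨⟨t, IsConj.refl t⟩⟩
  exact ⟨SimpleGraph.connected_of_ediam_ne_top (by rw [e]; decide), by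
    rw [SimpleGraph.diam, e]; rfl⟩

variable {F : Type*} [Field F]

/-- projection to `PSL(2, F)` -/
abbrev pr (A : SL(2, F)) : ProjectiveSpecialLinearGroup (Fin 2) F := QuotientGroup.mk A

theorem pr_eq_one {A : SL(2, F)} : pr A = 1 ↔ A 0 1 = 0 ∧ A 1 0 = 0 ∧ A 0 0 = A 1 1 := by
  rw [QuotientGroup.eq_one_iff, Matrix.SpecialLinearGroup.mem_center_iff]
  constructor
  · rintro ⟨r, -, h⟩
    have := fun i j => congrFun (congrFun h i) j
    refine ⟨?_, ?_, ?_⟩
    · simpa using (this 0 1).symm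
    · simpa using (this 1 0).symm
    · have a := this 0 0; have b := this 1 1
      simp at a b; rw [← a, ← b]
  · rintro ⟨h1, h2, h3⟩
    have hd := A.det_coe
    rw [det_fin_two, h1, ← h3] at hd
    refine ⟨A 0 0, by simpa [sq] using hd, ?_⟩
    ext i j; fin_cases i <;> fin_cases j <;> simp [h1, h2, h3]

theorem det2 (A : SL(2, F)) : A 0 0 * A 1 1 - A 0 1 * A 1 0 = 1 := by
  have hd := A.det_coe
  rwa [det_fin_two] at hd

theorem mkSL {a b c d : F} (h : a * d - b * c = 1) :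
    ∃ Z : SL(2, F), Z 0 0 = a ∧ Z 0 1 = b ∧ Z 1 0 = c ∧ Z 1 1 = d :=
  ⟨⟨!![a, b; c, d], by rw [det_fin_two_of, h]⟩, rfl, rfl, rfl, rfl⟩

theorem mul_ent (A B : SL(2, F)) (i j : Fin 2) : (A * B) i j = A i 0 * B 0 j + A i 1 * B 1 j := by
  simp only [Matrix.SpecialLinearGroup.coe_mul, Matrix.mul_apply, Fin.sum_univ_two]

theorem pr_sq {A : SL(2, F)} (h : A 0 0 + A 1 1 = 0) : pr A * pr A = 1 := by
  rw [← QuotientGroup.mk_mul, pr_eq_one]
  simp only [Matrix.SpecialLinearGroup.coe_mul, Matrix.mul_apply, Fin.sum_univ_two]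
  exact ⟨by linear_combination A 0 1 * h, by linear_combination A 1 0 * h,
    by linear_combination (A 0 0 - A 1 1) * h⟩

theorem tr_of_sq {A : SL(2, F)} (h : pr A * pr A = 1) (h1 : pr A ≠ 1) : A 0 0 + A 1 1 = 0 := by
  rw [← QuotientGroup.mk_mul, pr_eq_one] at h
  simp only [Matrix.SpecialLinearGroup.coe_mul, Matrix.mul_apply, Fin.sum_univ_two] at h
  by_contra h2
  refine h1 (pr_eq_one.2 ⟨?_, ?_, ?_⟩) <;> apply mul_right_cancel₀ h2
  · linear_combination h.1
  · linear_combination h.2.1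
  · linear_combination h.2.2

theorem exists_pow_inv [Finite F] {A : SL(2, F)} (h : ¬ Odd (orderOf (pr A))) :
    ∃ k, pr (A ^ k) ≠ 1 ∧ (A ^ k) 0 0 + (A ^ k) 1 1 = 0 := by
  obtain ⟨k, hk⟩ := Nat.not_odd_iff_even.1 h
  have h0 := orderOf_pos (pr A)
  have h1 : pr (A ^ k) ≠ 1 := fun e => by
    have := orderOf_le_of_pow_eq_one (x := pr A) (n := k) (by omega) e
    omega
  refine ⟨k, h1, tr_of_sq ?_ h1⟩
  show pr A ^ k * pr A ^ k = 1
  rw [← pow_add, ← hk, pow_orderOf_eq_one]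

theorem odd_of_eig [Finite F] {A : SL(2, F)} {l : F} (hl : l ≠ 0) (h : A 0 0 + A 1 1 = l + l⁻¹)
    (h1 : ∀ k, (l ^ k) ^ 2 ≠ -1) : Odd (orderOf (pr A)) := by
  by_contra h2
  obtain ⟨k, -, h3⟩ := exists_pow_inv h2
  obtain ⟨v, hv, h4⟩ := exists_mulVec_eq_zero_iff.2 (show (A.1 - l • 1).det = 0 by
    have := det2 A
    have h5 : l * l⁻¹ = 1 := mul_inv_cancel₀ hl
    simp only [det_fin_two, Matrix.sub_apply, Matrix.smul_apply, one_apply_eq, smul_eq_mul, mul_one, ne_eq,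
      zero_ne_one, not_false_eq_true, one_apply_ne, mul_zero, sub_zero, one_ne_zero]
    linear_combination this - l * h - h5)
  rw [sub_mulVec, smul_mulVec, one_mulVec, sub_eq_zero] at h4
  have h5 : ∀ n, (A ^ n).1 *ᵥ v = l ^ n • v := fun n => by
    induction n with
    | zero => simp
    | succ n ih => rw [pow_succ, Matrix.SpecialLinearGroup.coe_mul, ← mulVec_mulVec, h4, mulVec_smul, ih,
        smul_smul, pow_succ']
  have h6 := h5 k
  have hd := det2 (A ^ k)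
  generalize A ^ k = H at h3 h6 hd
  generalize hm : l ^ k = m at h6
  have a := congrFun h6 0
  have b := congrFun h6 1
  simp only [mulVec, dotProduct, Fin.sum_univ_two, Pi.smul_apply, smul_eq_mul] at a b
  have h7 : m ^ 2 + 1 ≠ 0 := fun e => h1 k (by rw [hm]; linear_combination e)
  apply hv
  ext i; fin_cases i <;> apply mul_left_cancel₀ h7
  · simp only [Fin.zero_eta, Pi.zero_apply, mul_zero]
    linear_combination (H 1 1 - m) * a - H 0 1 * b - v 0 * hd + m * v 0 * h3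
  · simp only [Fin.mk_one, Pi.zero_apply, mul_zero]
    linear_combination (H 0 0 - m) * b - H 1 0 * a - v 1 * hd + m * v 1 * h3

theorem odd_of_tr [Finite F] (h2 : (2 : F) = 0) {A : SL(2, F)} (h : A 0 0 + A 1 1 ≠ 0) :
    Odd (orderOf (pr A)) := by
  by_contra h1
  obtain ⟨k, h3, h4⟩ := exists_pow_inv h1
  have hc : A * A ^ k = A ^ k * A := (Commute.self_pow A k).eq
  generalize A ^ k = H at h3 h4 hc
  have e := fun i j => congrFun (congrFun (congrArg Subtype.val hc) i) j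
  have a := e 0 1
  have b := e 1 0
  simp only [Matrix.SpecialLinearGroup.coe_mul, Matrix.mul_apply, Fin.sum_univ_two] at a b
  refine h3 (pr_eq_one.2 ⟨?_, ?_, by linear_combination h4 - H 1 1 * h2⟩) <;>
    apply mul_right_cancel₀ h
  · linear_combination a - A 0 1 * h4 + (H 0 1 * A 1 1 + A 0 1 * H 0 0) * h2
  · linear_combination b - A 1 0 * h4 + (H 1 0 * A 0 0 + A 1 0 * H 1 1) * h2

theorem mk_Z {X Y : SL(2, F)} (hX : X 0 0 + X 1 1 = 0) (hY : Y 0 0 + Y 1 1 = 0) {t s u w : F}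
    (ht : (X * Y) 0 0 + (X * Y) 1 1 = t) (h4 : t ^ 2 - 4 ≠ 0)
    (hw : w ^ 2 = -(s ^ 2 + u ^ 2 + t ^ 2 + s * t * u - 4)) :
    ∃ Z : SL(2, F), Z 0 0 + Z 1 1 = 0 ∧ (X * Z) 0 0 + (X * Z) 1 1 = s ∧
      (Z * Y) 0 0 + (Z * Y) 1 1 = u := by
  have dX := det2 X
  have dY := det2 Y
  simp only [Matrix.SpecialLinearGroup.coe_mul, Matrix.mul_apply, Fin.sum_univ_two] at ht ⊢
  rw [show X 1 1 = -X 0 0 by linear_combination hX] at *
  rw [show Y 1 1 = -Y 0 0 by linear_combination hY] at *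
  generalize X 0 0 = a at *
  generalize X 0 1 = b at *
  generalize X 1 0 = c at *
  generalize Y 0 0 = d at *
  generalize Y 0 1 = e at *
  generalize Y 1 0 = f at *
  obtain ⟨α, hα⟩ : ∃ α, α * (t ^ 2 - 4) = 2 * s + t * u := ⟨_, div_mul_cancel₀ _ h4⟩
  obtain ⟨β, hβ⟩ : ∃ β, β * (t ^ 2 - 4) = 2 * u + t * s := ⟨_, div_mul_cancel₀ _ h4⟩
  obtain ⟨γ, hγ⟩ : ∃ γ, γ * (t ^ 2 - 4) = w := ⟨_, div_mul_cancel₀ _ h4⟩
  have e1 : -2 * α + β * t = s := by
    apply mul_right_cancel₀ h4; linear_combination -2 * hα + t * hβ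
  have e2 : α * t - 2 * β = u := by
    apply mul_right_cancel₀ h4; linear_combination t * hα - 2 * hβ
  have e3 : α ^ 2 + β ^ 2 - α * β * t - γ ^ 2 * (t ^ 2 - 4) = 1 := by
    apply mul_right_cancel₀ h4
    rw [← e1, ← e2, ← hγ] at hw
    linear_combination -hw
  refine ⟨⟨!![α * a + β * d + γ * (b * f - e * c), α * b + β * e + γ * (2 * a * e - 2 * b * d);
    α * c + β * f + γ * (2 * c * d - 2 * a * f), -(α * a + β * d + γ * (b * f - e * c))], ?_⟩,
    ?_, ?_, ?_⟩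
  · rw [det_fin_two_of, ← e3, ← ht]
    linear_combination (α ^ 2 + 4 * γ ^ 2 * (d * -d - e * f)) * dX + (β ^ 2 + 4 * γ ^ 2) * dY
  · simp
  · simp only [of_apply, cons_val', cons_val_zero, cons_val_one, cons_val_fin_one]
    rw [← e1, ← ht]
    linear_combination -2 * α * dX
  · simp only [of_apply, cons_val', cons_val_zero, cons_val_one, cons_val_fin_one]
    rw [← e2, ← ht]
    linear_combination -2 * β * dY

theorem exists_ab [Fintype F] (hF : 4 ≤ Fintype.card F) (h2 : (2 : F) ≠ 0)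
    (h1 : ¬ IsSquare (-1 : F)) {t : F} (ht : ¬ IsSquare (t ^ 2 - 4)) :
    ∃ α β : F, α ≠ 0 ∧ β ≠ 0 ∧ IsSquare (α * β) ∧
      IsSquare (-((α ^ 2 - t * α + 1) * (β ^ 2 - t * β + 1))) := by
  classical
  set χ := quadraticChar F
  have f0 : ∀ x : F, x ^ 2 - t * x + 1 ≠ 0 := fun x e =>
    ht ⟨2 * x - t, by linear_combination -4 * e⟩
  have m1 : χ (-1) = -1 := quadraticChar_neg_one_iff_not_isSquare.2 h1
  have m2 : χ (t ^ 2 - 4) = -1 := quadraticChar_neg_one_iff_not_isSquare.2 ht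
  have di := fun {x : F} (hx : x ≠ 0) => quadraticChar_dichotomy hx
  by_contra! H
  have H' : ∀ α β : F, α ≠ 0 → β ≠ 0 → χ α = χ β →
      χ (α ^ 2 - t * α + 1) = χ (β ^ 2 - t * β + 1) := fun α β a b e => by
    have c := H α β a b ((quadraticChar_one_iff_isSquare (mul_ne_zero a b)).1 (by
      rw [map_mul]; change χ α * χ β = 1; rw [e]; rcases di b with h | h <;> simp [χ, h]))
    rw [← quadraticChar_neg_one_iff_not_isSquare, neg_eq_neg_one_mul, map_mul, map_mul] at c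
    change χ _ * (χ _ * χ _) = _ at c
    rw [m1] at c
    rcases di (f0 α) with h | h <;> rcases di (f0 β) with h' | h' <;> simp_all [χ]
  have e1 : χ (1 ^ 2 - t * 1 + 1) = χ ((-1) ^ 2 - t * (-1) + 1) := by
    have : χ (1 ^ 2 - t * 1 + 1) * χ ((-1) ^ 2 - t * (-1) + 1) = 1 := by
      rw [← map_mul, show (1 ^ 2 - t * 1 + 1) * ((-1) ^ 2 - t * (-1) + 1) = -1 * (t ^ 2 - 4) by ring,
        map_mul, m1, m2]; norm_num
    rcases di (f0 1) with h | h <;> rcases di (f0 (-1)) with h' | h' <;> simp_all [χ]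
  have e2 : ∀ x : F, x ≠ 0 → χ (x ^ 2 - t * x + 1) = χ (1 ^ 2 - t * 1 + 1) := fun x hx => by
    rcases di hx with h | h
    · exact H' _ _ hx one_ne_zero (by rw [map_one]; exact h)
    · rw [e1]; exact H' _ _ hx (by simp) (by rw [m1]; exact h)
  obtain ⟨x, hx, hx'⟩ : ∃ x : F, x ≠ 0 ∧ IsSquare (x ^ 2 - t * x + 1) := by
    by_cases h0 : t = 0
    · obtain ⟨r, hr⟩ : ∃ r : F, r ∉ ({0, 1, -1} : Finset F) := by
        by_contra! h
        have := (Finset.card_le_card (show Finset.univ ⊆ _ from fun x _ => h x)).trans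
          Finset.card_le_three
        rw [Finset.card_univ] at this; omega
      simp only [Finset.mem_insert, Finset.mem_singleton, not_or] at hr
      have := hr.1
      refine ⟨(r - r⁻¹) / 2, fun e => ?_, (r + r⁻¹) / 2, by rw [h0]; field_simp; ring⟩
      field_simp at e
      rcases mul_eq_zero.1 (show (r - 1) * (r + 1) = 0 by linear_combination e) with h | h
      · exact hr.2.1 (by linear_combination h)
      · exact hr.2.2 (by linear_combination h)
    · exact ⟨t, h0, 1, by ring⟩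
  have e3 : ∀ y : F, IsSquare (y ^ 2 - t * y + 1) := fun y => by
    by_cases hy : y = 0
    · exact ⟨1, by rw [hy]; ring⟩
    · refine (quadraticChar_one_iff_isSquare (f0 y)).1 ?_
      change χ _ = 1
      rw [e2 y hy, ← e2 x hx]
      exact (quadraticChar_one_iff_isSquare (f0 x)).2 hx'
  have e4 : ∀ n : ℕ, IsSquare (-(n : F) * (t ^ 2 - 4)) := fun n => by
    induction n with
    | zero => simp
    | succ n ih =>
      obtain ⟨r, hr⟩ := ih
      obtain ⟨s, hs⟩ := e3 ((r + t) / 2)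
      refine ⟨2 * s, ?_⟩
      field_simp at hs
      push_cast
      linear_combination hr + hs
  obtain ⟨p, hp⟩ := CharP.exists F
  have hp' := CharP.char_is_prime F p
  have := e4 (p - 1)
  rw [Nat.cast_sub hp'.one_le, CharP.cast_eq_zero] at this
  exact ht (by simpa using this)

theorem psl2_mid [Fintype F] (hF : 4 ≤ Fintype.card F) {X Y : SL(2, F)} (hX : X 0 0 + X 1 1 = 0)
    (hY : Y 0 0 + Y 1 1 = 0) (hX1 : pr X ≠ 1) (hY1 : pr Y ≠ 1) :
    ∃ z, z * z = 1 ∧ Odd (orderOf (pr X * z)) ∧ Odd (orderOf (z * pr Y)) := by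
  by_cases h2 : (2 : F) = 0
  · have nX : X 0 1 ≠ 0 ∨ X 1 0 ≠ 0 := by
      by_contra! h; exact hX1 (pr_eq_one.2 ⟨h.1, h.2, by linear_combination hX - X 1 1 * h2⟩)
    have nY : Y 0 1 ≠ 0 ∨ Y 1 0 ≠ 0 := by
      by_contra! h; exact hY1 (pr_eq_one.2 ⟨h.1, h.2, by linear_combination hY - Y 1 1 * h2⟩)
    obtain ⟨e, f, g, h1, h3, h4⟩ : ∃ e f g : F, e * e - f * g = 1 ∧ X 0 1 * g + X 1 0 * f ≠ 0 ∧
        Y 0 1 * g + Y 1 0 * f ≠ 0 := by
      by_cases a : X 0 1 ≠ 0 ∧ Y 0 1 ≠ 0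
      · exact ⟨1, 0, 1, by simp, by simpa using a⟩
      by_cases b : X 1 0 ≠ 0 ∧ Y 1 0 ≠ 0
      · exact ⟨1, 1, 0, by simp, by simpa using b⟩
      refine ⟨0, 1, 1, by linear_combination -h2, ?_⟩
      by_cases c : X 0 1 = 0 <;> by_cases d : Y 1 0 = 0 <;> simp_all
    obtain ⟨Z, z1, z2, z3, z4⟩ := mkSL h1
    refine ⟨pr Z, pr_sq (by rw [z1, z4]; linear_combination e * h2), odd_of_tr h2 (A := X * Z) ?_,
      odd_of_tr h2 (A := Z * Y) ?_⟩ <;> simp only [mul_ent, z1, z2, z3, z4]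
    · exact fun e' => h3 (by linear_combination e' - e * hX)
    · exact fun e' => h4 (by linear_combination e' - e * hY)
  have easy : Odd (orderOf (pr (X * Y))) →
      ∃ z, z * z = 1 ∧ Odd (orderOf (pr X * z)) ∧ Odd (orderOf (z * pr Y)) :=
    fun h => ⟨pr X, pr_sq hX, by rw [pr_sq hX]; simp, h⟩
  have u1 : ∀ k : ℕ, ((1 : F) ^ k) ^ 2 ≠ -1 := fun k e => h2 (by
    rw [one_pow] at e; linear_combination e)
  have u2 : ∀ k : ℕ, ((-1 : F) ^ k) ^ 2 ≠ -1 := fun k e => h2 (by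
    rw [← pow_mul, mul_comm, pow_mul, neg_one_sq, one_pow] at e; linear_combination e)
  set t := (X * Y) 0 0 + (X * Y) 1 1 with ht
  by_cases h4 : t ^ 2 - 4 = 0
  · rcases mul_eq_zero.1 (show (t - 2) * (t + 2) = 0 by linear_combination h4) with h | h
    · exact easy (odd_of_eig one_ne_zero (by rw [inv_one]; linear_combination h) u1)
    · exact easy (odd_of_eig (l := -1) (by simp) (by rw [inv_neg, inv_one]; linear_combination h) u2)
  by_cases h1 : IsSquare (-1 : F)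
  · obtain ⟨i, hi⟩ := h1
    obtain ⟨Z, z1, z2, z3⟩ := mk_Z hX hY ht.symm h4 (s := 2) (u := -2) (w := i * (t - 2))
      (by linear_combination -(t - 2) ^ 2 * hi)
    exact ⟨pr Z, pr_sq z1, odd_of_eig (A := X * Z) one_ne_zero (by rw [z2]; norm_num) u1,
      odd_of_eig (A := Z * Y) (l := -1) (by simp) (by rw [z3]; norm_num) u2⟩
  have u3 : ∀ l : F, ∀ k : ℕ, (l ^ k) ^ 2 ≠ -1 := fun l k e => h1 ⟨l ^ k, by rw [← e, sq]⟩
  by_cases h5 : IsSquare (t ^ 2 - 4)
  · obtain ⟨r, hr⟩ := h5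
    have h6 : (t + r) / 2 * ((t - r) / 2) = 1 := by field_simp; linear_combination hr
    refine easy (odd_of_eig (left_ne_zero_of_mul_eq_one h6) ?_ (u3 _))
    rw [← eq_inv_of_mul_eq_one_right h6, ← ht]; field_simp; ring
  obtain ⟨α, β, a0, b0, ⟨l, hl⟩, ⟨r, hr⟩⟩ := exists_ab hF h2 h1 h5
  have l0 : l ≠ 0 := by rintro rfl; simp_all
  obtain rfl : β = l * l / α := by field_simp; linear_combination hl
  obtain ⟨Z, z1, z2, z3⟩ := mk_Z hX hY ht.symm h4 (s := l + l⁻¹) (u := -(α / l) + (-(α / l))⁻¹)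
    (w := r / l) (by field_simp; field_simp at hr; linear_combination -hr)
  exact ⟨pr Z, pr_sq z1, odd_of_eig (A := X * Z) l0 z2 (u3 _),
    odd_of_eig (A := Z * Y) (by simp [a0, l0]) z3 (u3 _)⟩

theorem psl2_even [Fintype F] (hF : 4 ≤ Fintype.card F) :
    ∃ X Y : SL(2, F), X 0 0 + X 1 1 = 0 ∧ Y 0 0 + Y 1 1 = 0 ∧ pr X ≠ 1 ∧ pr Y ≠ 1 ∧
      ¬ Odd (orderOf (pr X * pr Y)) := by
  classical
  obtain ⟨a, b, h, h'⟩ : ∃ a b : F, a ^ 2 + b ^ 2 = -1 ∧ ((2 : F) = 0 → a ≠ 0 ∧ b ≠ 0) := by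
    by_cases h2 : (2 : F) = 0
    · obtain ⟨r, hr⟩ : ∃ r : F, r ∉ ({0, -1} : Finset F) := by
        by_contra! h
        have := (Finset.card_le_card (show Finset.univ ⊆ _ from fun x _ => h x)).trans
          Finset.card_le_two
        rw [Finset.card_univ] at this; omega
      simp only [Finset.mem_insert, Finset.mem_singleton, not_or] at hr
      exact ⟨r, 1 + r, by linear_combination (r ^ 2 + r + 1) * h2,
        fun _ => ⟨hr.1, fun e => hr.2 (by linear_combination e)⟩⟩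
    · obtain ⟨p, hp⟩ := CharP.exists F
      haveI := Fact.mk (CharP.char_is_prime F p)
      obtain ⟨a, b, h⟩ := CharP.sq_add_sq F p (-1)
      exact ⟨a, b, by exact_mod_cast h, fun e => absurd e h2⟩
  obtain ⟨X, x1, x2, x3, x4⟩ := mkSL (show (0 : F) * 0 - (-1) * 1 = 1 by ring)
  obtain ⟨Y, y1, y2, y3, y4⟩ := mkSL (show a * (-a) - b * b = 1 by linear_combination -h)
  have n1 : pr (X * Y) ≠ 1 := fun e => by
    simp only [pr_eq_one, mul_ent, x1, x2, x3, x4, y1, y2, y3, y4] at e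
    have a0 : a = 0 := by linear_combination e.2.1
    by_cases h2 : (2 : F) = 0
    · exact (h' h2).1 a0
    · have : b = 0 := mul_left_cancel₀ h2 (by linear_combination -e.2.2)
      simp [a0, this] at h
  refine ⟨X, Y, by simp [x1, x4], by simp [y1, y4], fun e => by rw [pr_eq_one, x3] at e; simp at e,
    fun e => ?_, ?_⟩
  · simp only [pr_eq_one, y1, y2, y3, y4] at e
    by_cases h2 : (2 : F) = 0
    · exact (h' h2).2 e.1
    · have : a = 0 := mul_left_cancel₀ h2 (by linear_combination e.2.2)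
      simp [e.1, this] at h
  · have : orderOf (pr (X * Y)) = 2 := orderOf_eq_prime (by
      rw [sq]; exact pr_sq (by simp [mul_ent, x1, x2, x3, x4, y1, y2, y3, y4])) n1
    rw [← QuotientGroup.mk_mul, this]; decide

end Cfsg.Agent.Mix26
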