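import Mathlib
import Cfsg.Agent.Classical.AutPSL
import Cfsg.Agent.PGrp.Basic

set_option autoImplicit false
set_option linter.unusedSectionVars false
set_option backward.isDefEq.respectTransparency false
open Subgroup
open scoped MatrixGroups

namespace Cfsg.Agent.Mix26.L34

variable {F : Type*} [Field F]

def u (a b c : F) : SL(3, F) := ⟨!![1, a, c; 0, 1, b; 0, 0, 1], by simp [Matrix.det_fin_three]⟩

theorem u_coe (a b c : F) : (u a b c).1 = !![1, a, c; 0, 1, b; 0, 0, 1] := rfl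

theorem u_mul (a b c a' b' c' : F) : u a b c * u a' b' c' = u (a + a') (b + b') (c + c' + a * b') := by
  ext i j
  fin_cases i <;> fin_cases j <;> simp [u_coe, Matrix.mul_apply, Fin.sum_univ_three] <;> ring

theorem u_zero : u (0 : F) 0 0 = 1 := by
  ext i j; fin_cases i <;> fin_cases j <;> simp [u_coe]

theorem u_inv (a b c : F) : (u a b c)⁻¹ = u (-a) (-b) (a * b - c) :=
  inv_eq_of_mul_eq_one_right (by rw [u_mul, ← u_zero]; congr 1 <;> ring)

abbrev σ : SL(3, F) →* PSL(3, F) := QuotientGroup.mk' _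

theorem σ_one {a b c : F} (h : σ (u a b c) = 1) : a = 0 ∧ b = 0 ∧ c = 0 := by
  obtain ⟨r, -, hr⟩ := Matrix.SpecialLinearGroup.mem_center_iff.1 ((QuotientGroup.eq_one_iff _).1 h)
  have h1 := congrFun (congrFun hr 0) 1
  have h2 := congrFun (congrFun hr 1) 2
  have h3 := congrFun (congrFun hr 0) 2
  simp [u_coe] at h1 h2 h3
  exact ⟨h1.symm, h2.symm, h3.symm⟩

theorem σ_inj {a b c a' b' c' : F} (h : σ (u a b c) = σ (u a' b' c')) : a = a' ∧ b = b' ∧ c = c' := by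
  rw [← inv_mul_eq_one, ← map_inv, ← map_mul, u_inv, u_mul] at h
  obtain ⟨h1, h2, h3⟩ := σ_one h
  obtain rfl : a = a' := by linear_combination -h1
  obtain rfl : b = b' := by linear_combination -h2
  exact ⟨rfl, rfl, by linear_combination -h3⟩

variable (F) in
def UU : Subgroup SL(3, F) where
  carrier := {g | ∃ a b c, u a b c = g}
  one_mem' := ⟨0, 0, 0, u_zero⟩
  mul_mem' := by rintro _ _ ⟨a, b, c, rfl⟩ ⟨a', b', c', rfl⟩; exact ⟨_, _, _, (u_mul ..).symm⟩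
  inv_mem' := by rintro _ ⟨a, b, c, rfl⟩; exact ⟨_, _, _, (u_inv ..).symm⟩

variable (F) in
def AA : Subgroup PSL(3, F) where
  carrier := {g | ∃ a c, σ (u a 0 c) = g}
  one_mem' := ⟨0, 0, by rw [u_zero, map_one]⟩
  mul_mem' := by
    rintro _ _ ⟨a, c, rfl⟩ ⟨a', c', rfl⟩; exact ⟨a + a', c + c', by rw [← map_mul, u_mul]; simp⟩
  inv_mem' := by rintro _ ⟨a, c, rfl⟩; exact ⟨-a, -c, by rw [← map_inv, u_inv]; simp⟩

variable (F) in
def BB : Subgroup PSL(3, F) where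
  carrier := {g | ∃ b c, σ (u 0 b c) = g}
  one_mem' := ⟨0, 0, by rw [u_zero, map_one]⟩
  mul_mem' := by
    rintro _ _ ⟨a, c, rfl⟩ ⟨a', c', rfl⟩; exact ⟨a + a', c + c', by rw [← map_mul, u_mul]; simp⟩
  inv_mem' := by rintro _ ⟨a, c, rfl⟩; exact ⟨-a, -c, by rw [← map_inv, u_inv]; simp⟩

theorem card_AA : Nat.card (AA F) = Nat.card F ^ 2 := by
  rw [pow_two, ← Nat.card_prod]
  refine (Nat.card_congr (Equiv.ofBijective (fun x : F × F => (⟨_, x.1, x.2, rfl⟩ : AA F)) ⟨?_, ?_⟩)).symm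
  · intro x y h
    obtain ⟨h1, -, h2⟩ := σ_inj (congrArg Subtype.val h)
    exact Prod.ext h1 h2
  · rintro ⟨_, a, c, rfl⟩; exact ⟨(a, c), rfl⟩

theorem card_BB : Nat.card (BB F) = Nat.card F ^ 2 := by
  rw [pow_two, ← Nat.card_prod]
  refine (Nat.card_congr (Equiv.ofBijective (fun x : F × F => (⟨_, x.1, x.2, rfl⟩ : BB F)) ⟨?_, ?_⟩)).symm
  · intro x y h
    obtain ⟨-, h1, h2⟩ := σ_inj (congrArg Subtype.val h)
    exact Prod.ext h1 h2
  · rintro ⟨_, a, c, rfl⟩; exact ⟨(a, c), rfl⟩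

theorem card_UU : Nat.card (UU F) = Nat.card F ^ 3 := by
  rw [pow_succ, pow_two, ← Nat.card_prod, ← Nat.card_prod]
  refine (Nat.card_congr (Equiv.ofBijective
    (fun x : (F × F) × F => (⟨_, x.1.1, x.1.2, x.2, rfl⟩ : UU F)) ⟨?_, ?_⟩)).symm
  · intro x y h
    obtain ⟨h0, h1, h2⟩ := σ_inj (congrArg (fun g : UU F => σ g.1) h)
    exact Prod.ext (Prod.ext h0 h1) h2
  · rintro ⟨_, a, b, c, rfl⟩; exact ⟨((a, b), c), rfl⟩

def w : SL(3, F) := ⟨!![0, 0, 1; 0, -1, 0; 1, 0, 0], by simp [Matrix.det_fin_three]⟩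

theorem w_coe : (w : SL(3, F)).1 = !![0, 0, 1; 0, -1, 0; 1, 0, 0] := rfl

theorem w_inv : (w : SL(3, F))⁻¹ = w := inv_eq_of_mul_eq_one_right (by
  ext i j; fin_cases i <;> fin_cases j <;> simp [w_coe, Matrix.mul_apply, Fin.sum_univ_three])

variable (F) in
def τ : MulAut PSL(3, F) := Classical.AutPSL.autQ _ (MulAut.conj w * Classical.AutPSL.graphSL (Fin 3) F)

theorem τ_u (a b c : F) : τ F (σ (u a b c)) = σ (u b a (a * b - c)) := by
  show σ (w * Classical.AutPSL.graphSL (Fin 3) F (u a b c) * w⁻¹) = _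
  congr 1
  rw [w_inv]
  apply Subtype.ext
  rw [Matrix.SpecialLinearGroup.coe_mul, Matrix.SpecialLinearGroup.coe_mul,
    Classical.AutPSL.graphSL_coe, u_inv]
  ext i j
  simp only [Matrix.mul_apply, Fin.sum_univ_three, Matrix.transpose_apply]
  fin_cases i <;> fin_cases j <;> simp [u_coe, w_coe]

theorem τ_B : (BB F).map (τ F).toMonoidHom = AA F := by
  ext g
  constructor
  · rintro ⟨_, ⟨b, c, rfl⟩, rfl⟩
    exact ⟨_, _, (τ_u 0 b c).symm⟩
  · rintro ⟨a, c, rfl⟩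
    exact ⟨_, ⟨a, -c, rfl⟩, (τ_u 0 a (-c)).trans (by simp)⟩

theorem τ_A : (AA F).map (τ F).toMonoidHom = BB F := by
  ext g
  constructor
  · rintro ⟨_, ⟨b, c, rfl⟩, rfl⟩
    exact ⟨_, _, (τ_u b 0 c).symm⟩
  · rintro ⟨a, c, rfl⟩
    exact ⟨_, ⟨a, -c, rfl⟩, (τ_u a 0 (-c)).trans (by simp)⟩

theorem U_eq : (UU F).map σ = AA F ⊔ BB F := by
  refine le_antisymm ?_ (sup_le ?_ ?_)
  · rintro _ ⟨_, ⟨a, b, c, rfl⟩, rfl⟩
    have : u a b c = u 0 b c * u a 0 0 := by rw [u_mul]; simp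
    rw [this, map_mul]
    exact mul_mem (mem_sup_right ⟨_, _, rfl⟩) (mem_sup_left ⟨_, _, rfl⟩)
  · rintro _ ⟨a, c, rfl⟩; exact ⟨_, ⟨_, _, _, rfl⟩, rfl⟩
  · rintro _ ⟨a, c, rfl⟩; exact ⟨_, ⟨_, _, _, rfl⟩, rfl⟩

theorem cen_U {g : PSL(3, F)} (hg : g ∈ AA F ⊔ BB F) (h : ∀ x ∈ AA F ⊔ BB F, x * g = g * x) :
    g ∈ AA F ⊓ BB F := by
  rw [← U_eq] at hg h
  obtain ⟨_, ⟨a, b, c, rfl⟩, rfl⟩ := hg
  have h1 := h _ ⟨_, ⟨1, 0, 0, rfl⟩, rfl⟩
  have h2 := h _ ⟨_, ⟨0, 1, 0, rfl⟩, rfl⟩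
  rw [← map_mul, ← map_mul, u_mul, u_mul] at h1 h2
  obtain rfl : b = 0 := by simpa using (σ_inj h1).2.2
  obtain rfl : a = 0 := by simpa using (σ_inj h2).2.2
  exact ⟨⟨_, _, rfl⟩, ⟨_, _, rfl⟩⟩

variable (F) in
def PP : Subgroup SL(3, F) where
  carrier := {g | g 1 0 = 0 ∧ g 2 0 = 0}
  one_mem' := by simp
  mul_mem' := by
    rintro a b ⟨a1, a2⟩ ⟨b1, b2⟩
    simp [Matrix.mul_apply, Fin.sum_univ_three, a1, a2, b1, b2]
  inv_mem' := by
    rintro a ⟨a1, a2⟩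
    simp [Matrix.adjugate_fin_three, a1, a2]

theorem det_P {g : SL(3, F)} (hg : g ∈ PP F) : g 0 0 * (g 1 1 * g 2 2 - g 1 2 * g 2 1) = 1 := by
  have := g.det_coe
  rw [Matrix.det_fin_three, hg.1, hg.2] at this
  linear_combination this

def dg (D : SL(2, F)) : SL(3, F) := ⟨!![1, 0, 0; 0, D 0 0, D 0 1; 0, D 1 0, D 1 1], by
  have := D.det_coe
  rw [Matrix.det_fin_two] at this
  simp [Matrix.det_fin_three, this]⟩

theorem dg_coe (D : SL(2, F)) : (dg D).1 = !![1, 0, 0; 0, D 0 0, D 0 1; 0, D 1 0, D 1 1] := rfl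

theorem dg_mem (D : SL(2, F)) : dg D ∈ PP F := ⟨rfl, rfl⟩

theorem trans_A {a c : F} (h : ¬ (a = 0 ∧ c = 0)) : ∃ g ∈ PP F, g * u a 0 c = u 1 0 0 * g := by
  by_cases ha : a = 0
  · have hc : c ≠ 0 := fun hc => h ⟨ha, hc⟩
    refine ⟨dg ⟨!![0, c; -c⁻¹, 0], by simp [Matrix.det_fin_two, hc]⟩, dg_mem _, ?_⟩
    ext i j
    fin_cases i <;> fin_cases j <;> simp [u_coe, dg_coe, ha, Matrix.mul_apply, Fin.sum_univ_three]
  · refine ⟨dg ⟨!![a, c; 0, a⁻¹], by simp [Matrix.det_fin_two, ha]⟩, dg_mem _, ?_⟩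
    ext i j
    fin_cases i <;> fin_cases j <;> simp [u_coe, dg_coe, Matrix.mul_apply, Fin.sum_univ_three]

section four
variable [Fintype F] (hF : Fintype.card F = 4)
include hF

theorem two : (2 : F) = 0 := by
  have := FiniteField.cast_card_eq_zero F
  rw [hF] at this
  have h : (2 : F) ^ 2 = 0 := by rw [← this]; norm_num
  exact pow_eq_zero_iff (by omega) |>.1 h

theorem cube {x : F} (hx : x ≠ 0) : x ^ 3 = 1 := by
  have := FiniteField.pow_card_sub_one_eq_one x hx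
  rwa [hF] at this

theorem u_sq (a b c : F) : u a b c ^ 2 = u 0 0 (a * b) := by
  rw [pow_two, u_mul]
  congr 1
  · linear_combination a * two hF
  · linear_combination b * two hF
  · linear_combination c * two hF

def ψ : PP F →* SL(2, F) := MonoidHom.mk'
  (fun g => ⟨g.1 0 0 ^ 2 • !![g.1 1 1, g.1 1 2; g.1 2 1, g.1 2 2], by
    have h1 := det_P g.2
    have h2 := cube hF (left_ne_zero_of_mul_eq_one h1)
    rw [Matrix.det_smul, Matrix.det_fin_two]
    simp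
    linear_combination g.1 0 0 ^ 3 * h1 + h2⟩) fun a b => by
    obtain ⟨a, a1, a2⟩ := a
    obtain ⟨b, b1, b2⟩ := b
    apply Subtype.ext
    rw [Matrix.SpecialLinearGroup.coe_mul]
    ext i j
    fin_cases i <;> fin_cases j <;>
      simp [Matrix.mul_apply, Fin.sum_univ_three, Fin.sum_univ_two, a1, a2, b1, b2] <;> ring

theorem ψ_coe (g : PP F) : (ψ hF g).1 = g.1 0 0 ^ 2 • !![g.1 1 1, g.1 1 2; g.1 2 1, g.1 2 2] := rfl

theorem ψ_surj : Function.Surjective (ψ hF) := fun D => ⟨⟨dg D, dg_mem D⟩, by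
  ext i j
  fin_cases i <;> fin_cases j <;> simp [ψ_coe, dg_coe]⟩

theorem ψ_ker (g : PP F) : ψ hF g ∈ center SL(2, F) ↔ σ g.1 ∈ AA F := by
  have h1 := det_P g.2
  have h0 := left_ne_zero_of_mul_eq_one h1
  have h2 := cube hF h0
  constructor
  · intro h
    obtain ⟨r, hr, e⟩ := Matrix.SpecialLinearGroup.mem_center_iff.1 h
    obtain rfl : r = 1 := by
      have : (r - 1) ^ 2 = 0 := by
        simp only [Fintype.card_fin] at hr
        linear_combination hr + (1 - r) * two hF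
      exact sub_eq_zero.1 (pow_eq_zero_iff (by omega) |>.1 this)
    have e1 := congrFun (congrFun e 0) 0
    have e2 := congrFun (congrFun e 0) 1
    have e3 := congrFun (congrFun e 1) 0
    have e4 := congrFun (congrFun e 1) 1
    simp [ψ_coe, h0] at e1 e2 e3 e4
    have e5 : g.1 1 1 = g.1 0 0 := by linear_combination (-g.1 0 0) * e1 - g.1 1 1 * h2
    have e6 : g.1 2 2 = g.1 0 0 := by linear_combination (-g.1 0 0) * e4 - g.1 2 2 * h2
    let z : SL(3, F) := ⟨Matrix.scalar _ (g.1 0 0), by simp [h2]⟩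
    have hz : z ∈ center SL(3, F) := Matrix.SpecialLinearGroup.mem_center_iff.2 ⟨_, by simpa using h2, rfl⟩
    have hzc : z.1 = Matrix.scalar _ (g.1 0 0) := rfl
    refine ⟨g.1 0 1 / g.1 0 0, g.1 0 2 / g.1 0 0, ?_⟩
    have : g.1 = u (g.1 0 1 / g.1 0 0) 0 (g.1 0 2 / g.1 0 0) * z := by
      ext i j
      fin_cases i <;> fin_cases j <;>
        simp [u_coe, hzc, Matrix.mul_apply, Fin.sum_univ_three, Matrix.diagonal, g.2.1, g.2.2, e2, e3, e5, e6, h0]
    conv_rhs => rw [this, map_mul, show σ z = 1 from (QuotientGroup.eq_one_iff z).2 hz, mul_one]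
  · rintro ⟨a, c, e⟩
    obtain ⟨r, hr, e⟩ := Matrix.SpecialLinearGroup.mem_center_iff.1 (QuotientGroup.eq.1 e)
    have e' : g.1.1 = (u a 0 c).1 * Matrix.scalar _ r := by
      rw [e, ← Matrix.SpecialLinearGroup.coe_mul, mul_inv_cancel_left]
    simp only [Fintype.card_fin] at hr
    have : ψ hF g = 1 := by
      ext i j
      fin_cases i <;> fin_cases j <;> simp [ψ_coe, e', u_coe, Matrix.mul_apply, Fin.sum_univ_three, Matrix.diagonal] <;>
        linear_combination hr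
    rw [this]; exact one_mem _

theorem norm_A : normalizer (AA F : Set PSL(3, F)) = (PP F).map σ := by
  refine le_antisymm (fun n hn => ?_) ?_
  · obtain ⟨g, rfl⟩ := QuotientGroup.mk'_surjective _ n
    refine ⟨g, ?_, rfl⟩
    obtain ⟨a, c, e⟩ := PGrp.conj_mem_of_mem_normalizer hn ⟨1, 0, rfl⟩
    have hz : (u a 0 c)⁻¹ * (g * u 1 0 0 * g⁻¹) ∈ center _ := QuotientGroup.eq.1 e
    set z := (u a 0 c)⁻¹ * (g * u 1 0 0 * g⁻¹) with hz'
    have e1 : g * u 1 0 0 * g⁻¹ = u a 0 c * z := by rw [hz', mul_inv_cancel_left]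
    have e2 : z ^ 2 = 1 := by
      have : (g * u 1 0 0 * g⁻¹) ^ 2 = (u a 0 c * z) ^ 2 := by rw [e1]
      rw [conj_pow, u_sq hF, Commute.mul_pow (mem_center_iff.1 hz _), u_sq hF] at this
      simpa [u_zero] using this.symm
    have e3 : z ^ 3 = 1 := by
      obtain ⟨r, hr, e⟩ := Matrix.SpecialLinearGroup.mem_center_iff.1 hz
      apply Subtype.ext
      rw [Matrix.SpecialLinearGroup.coe_pow, ← e, ← map_pow]
      simp only [Fintype.card_fin] at hr
      simp [hr]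
    rw [pow_succ, e2, one_mul] at e3
    rw [e3, mul_one, mul_inv_eq_iff_eq_mul] at e1
    have e4 := congrArg (fun x : SL(3, F) => x 1 1) e1
    have e5 := congrArg (fun x : SL(3, F) => x 2 1) e1
    simp [u_coe, Matrix.mul_apply, Fin.sum_univ_three] at e4 e5
    exact ⟨e4, e5⟩
  · rintro _ ⟨g, hg, rfl⟩
    refine PGrp.mem_normalizer_of_conj_mem ?_
    rintro _ ⟨a, c, rfl⟩
    have hu : u a 0 c ∈ PP F := ⟨rfl, rfl⟩
    have := (ψ_ker hF (⟨g, hg⟩ * ⟨_, hu⟩ * ⟨g, hg⟩⁻¹)).1 (by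
      rw [map_mul, map_mul, map_inv]
      exact Normal.conj_mem inferInstance _ ((ψ_ker hF ⟨_, hu⟩).2 ⟨a, c, rfl⟩) _)
    simpa using this

theorem e16 {E : Subgroup PSL(3, F)} (hE : E ≤ AA F ⊔ BB F) (h2 : ∀ x ∈ E, x ^ 2 = 1)
    (hc : Nat.card E = 16) : E = AA F ∨ E = BB F := by
  have key : ∀ x ∈ E, x ∈ AA F ∨ x ∈ BB F := fun x hx => by
    have := hE hx
    rw [← U_eq] at this
    obtain ⟨_, ⟨a, b, c, rfl⟩, rfl⟩ := this
    have := h2 _ hx
    rw [← map_pow, u_sq hF] at this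
    rcases mul_eq_zero.1 (σ_one this).2.2 with rfl | rfl
    · exact Or.inr ⟨_, _, rfl⟩
    · exact Or.inl ⟨_, _, rfl⟩
  have c4 : Nat.card F = 4 := by rw [Nat.card_eq_fintype_card, hF]
  by_cases h : E ≤ AA F
  · exact Or.inl (PGrp.eq_of_le_of_card_le h (by rw [card_AA, c4, hc]; norm_num))
  refine Or.inr (PGrp.eq_of_le_of_card_le (fun y hy => ?_) (by rw [card_BB, c4, hc]; norm_num))
  obtain ⟨x, hx, hxA⟩ := SetLike.not_le_iff_exists.1 h
  have hxB := (key x hx).resolve_left hxA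
  rcases key y hy with a | a
  · rcases key _ (mul_mem hx hy) with b | b
    · exact absurd ((mul_mem_cancel_right a).1 b) hxA
    · exact (mul_mem_cancel_left hxB).1 b
  · exact a

theorem syl : ∃ S : Sylow 2 PSL(3, F), (S : Subgroup PSL(3, F)) = AA F ⊔ BB F := by
  haveI : Fact (Nat.Prime 2) := ⟨Nat.prime_two⟩
  have c4 : Nat.card F = 4 := by rw [Nat.card_eq_fintype_card, hF]
  have h := Classical.SLBasic.card_SL (F := F) 3 (by omega)
  rw [c4, Fin.prod_univ_three] at h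
  have h' : Nat.card SL(3, F) = 60480 := by simp at h; omega
  let S : Sylow 2 SL(3, F) := Sylow.ofCard (UU F) (by
    rw [card_UU, c4, h', show 60480 = 2 ^ 6 * 945 by norm_num, Nat.factorization_mul (by omega) (by omega),
      Finsupp.add_apply, Nat.factorization_eq_zero_of_not_dvd (show ¬ 2 ∣ 945 by omega),
      Nat.prime_two.factorization_pow]
    simp)
  exact ⟨S.mapSurjective (QuotientGroup.mk'_surjective _), U_eq⟩

theorem omega : ∃ x : F, x ≠ 0 ∧ x ≠ 1 := by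
  classical
  by_contra hc
  push Not at hc
  have : (Finset.univ : Finset F) ⊆ {0, 1} := fun x _ => by
    by_cases h : x = 0 <;> simp [h, hc x]
  have := (Finset.card_le_card this).trans Finset.card_le_two
  rw [Finset.card_univ, hF] at this
  omega

end four

end Cfsg.Agent.Mix26.L34
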