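import Mathlib
import Cfsg.Agent.Mix26.L34a
import Cfsg.Agent.Mix26.Ru1
import Cfsg.Agent.H2.Gaschutz
import Cfsg.Agent.PLocal.Maschke

set_option autoImplicit false
set_option linter.unusedSectionVars false
set_option backward.isDefEq.respectTransparency false
open Subgroup
open scoped MatrixGroups

namespace Cfsg.Agent.Mix26.L34

variable {F : Type*} [Field F] [Fintype F] (hF : Fintype.card F = 4) {X : Type*} [Group X] [Finite X]
  (hZ : IsElementaryAbelian 2 (center X)) (π : X →* PSL(3, F)) (hs : Function.Surjective π)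
  (hk : π.ker = center X) {H : Subgroup X} (hZH : center X ≤ H) (hH : H.map π = AA F)
include hF hZ hs hk hZH hH

theorem H_eq : H = (AA F).comap π := by rw [← hH, comap_map_eq, hk, sup_eq_left.2 hZH]

theorem elem : IsElementaryAbelian 2 H := by
  have sq : ∀ x y : X, π x = π y → x ^ 2 = y ^ 2 := fun x y e => by
    have h : x⁻¹ * y ∈ center X := by rw [← hk, MonoidHom.mem_ker, map_mul, map_inv, e, inv_mul_cancel]
    have : y = x * (x⁻¹ * y) := by group
    rw [this, Commute.mul_pow (mem_center_iff.1 h x), hZ.2 _ h, mul_one]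
  obtain ⟨a, ha⟩ := hs (σ (u 1 0 0))
  have hz : a ^ 2 ∈ center X := by
    rw [← hk, MonoidHom.mem_ker, map_pow, ha, ← map_pow, u_sq hF]; simp [u_zero]
  have key : ∀ (x : X) (s t : F), π x = σ (u s 0 t) → ¬ (s = 0 ∧ t = 0) → x ^ 2 = a ^ 2 := by
    intro x s t e h
    obtain ⟨g, -, hg⟩ := trans_A h
    obtain ⟨n, hn⟩ := hs (σ g)
    have := sq (n * x * n⁻¹) a (by
      rw [map_mul, map_mul, map_inv, hn, e, ha, ← map_mul, hg, map_mul, mul_inv_cancel_right])
    rw [conj_pow, mul_inv_eq_iff_eq_mul, ← mem_center_iff.1 hz n] at this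
    exact mul_left_cancel this
  obtain ⟨ω, h0, h1⟩ := omega hF
  have h2 : 1 + ω ≠ 0 := fun h => h1 (by linear_combination h - two hF)
  obtain ⟨b, hb⟩ := hs (σ (u ω 0 0))
  obtain ⟨c, hc⟩ := hs (σ (u 0 0 1))
  have hab : π (a * b) = σ (u (1 + ω) 0 0) := by rw [map_mul, ha, hb, ← map_mul, u_mul]; simp
  have habc : π (a * b * c) = σ (u (1 + ω) 0 1) := by rw [map_mul, hab, hc, ← map_mul, u_mul]; simp
  have h3 := ru_three (z := a ^ 2) (a := a) (b := b) (c := c) (mem_center_iff.1 hz)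
    (by rw [← pow_two]; exact hZ.2 _ hz) rfl (key b _ _ hb (by simp [h0])) (key c _ _ hc (by simp))
    (key _ _ _ hab (by simp [h2]))
    (key _ 1 1 (by rw [map_mul, ha, hc, ← map_mul, u_mul]; simp) (by simp))
    (key _ ω 1 (by rw [map_mul, hb, hc, ← map_mul, u_mul]; simp) (by simp))
  rw [key _ _ _ habc (by simp)] at h3
  have all : ∀ x ∈ H, x ^ 2 = 1 := fun x hx => by
    rw [H_eq hF hZ π hs hk hZH hH] at hx
    obtain ⟨s, t, e⟩ := hx
    by_cases h : s = 0 ∧ t = 0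
    · obtain ⟨rfl, rfl⟩ := h
      rw [u_zero, map_one] at e
      exact hZ.2 _ (hk ▸ e.symm)
    · rw [key x s t e.symm h, h3]
  refine ⟨PGrp.isMulCommutative_iff_forall.2 fun x hx y hy => ?_, all⟩
  have := ru_comm_of_sq (N := ⊥) (X := H) all hx hy
  exact commutatorElement_eq_one_iff_mul_comm.1 this

theorem split {K : Subgroup X} (hK : IsElementaryAbelian 2 K) (T : Sylow 2 X) (hT : H ⊔ K = T)
    (hT' : (T : Subgroup X).map π = AA F ⊔ BB F) :
    ∃ C : Subgroup X, C ≤ normalizer (H : Set X) ∧ C ⊓ H = ⊥ ∧ H ⊔ C = normalizer (H : Set X) ∧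
      Nonempty (C ≃* PSL(2, F)) := by
  haveI : Fact (Nat.Prime 2) := ⟨Nat.prime_two⟩
  have he := elem hF hZ π hs hk hZH hH
  have hN : normalizer (H : Set X) = ((PP F).map σ).comap π := by
    rw [← norm_A hF, comap_normalizer_eq_of_surjective _ hs, ← H_eq hF hZ π hs hk hZH hH]
  set N := normalizer (H : Set X) with hN'
  have hTN : (T : Subgroup X) ≤ N := by
    rw [hN, ← map_le_iff_le_comap, hT', ← U_eq]
    refine map_mono ?_
    rintro _ ⟨a, b, c, rfl⟩
    exact ⟨rfl, rfl⟩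
  have hHT : H ≤ T := hT ▸ le_sup_left
  have hKT : K ≤ T := hT ▸ le_sup_right
  obtain ⟨K0, k1, k2, k3⟩ := PLocal.exists_complement_of_elementary hK (inf_le_right : H ⊓ K ≤ K)
  haveI : (H.subgroupOf N).Normal := normal_in_normalizer
  obtain ⟨C, hC⟩ := H2.gaschutz_exists (H.subgroupOf N) ((T : Subgroup X).subgroupOf N)
    (PGrp.isMulCommutative_iff_forall.2 fun a ha b hb =>
      Subtype.ext (PGrp.isMulCommutative_iff_forall.1 he.1 _ ha _ hb))
    (fun x hx => hHT hx) (by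
      obtain ⟨n, hn⟩ := PGrp.exists_card_eq_pow (p := 2) (T.isPGroup'.to_le hHT) ⊤
      rw [card_top] at hn
      rw [Nat.card_congr (subgroupOfEquivOfLe le_normalizer).toEquiv, hn]
      exact Nat.Coprime.pow_left _ ((Nat.Prime.coprime_iff_not_dvd Nat.prime_two).2
        (T.subtype hTN).not_dvd_index))
    (K0.subgroupOf N) (by
      rw [disjoint_iff, eq_bot_iff]
      intro x hx
      have : (x : X) ∈ H ⊓ K ⊓ K0 := ⟨⟨hx.1, k1 hx.2⟩, hx.2⟩
      rw [k2] at this
      exact Subtype.ext this) (by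
      rw [← subgroupOf_sup le_normalizer (k1.trans (hKT.trans hTN)), ← hT, ← k3, ← sup_assoc,
        sup_eq_left.2 (inf_le_left : H ⊓ K ≤ H)])
  refine ⟨C.map N.subtype, map_subtype_le C, ?_, ?_, ?_⟩
  · rw [eq_bot_iff]
    rintro _ ⟨⟨x, hx, rfl⟩, hx'⟩
    have : x ∈ H.subgroupOf N ⊓ C := ⟨hx', hx⟩
    rw [hC.disjoint.eq_bot, mem_bot] at this
    simp [this]
  · have := congrArg (map N.subtype) hC.sup_eq_top
    rwa [Subgroup.map_sup, subgroupOf_map_subtype, inf_eq_left.2 le_normalizer, ← MonoidHom.range_eq_map,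
      range_subtype] at this
  let ψ' : PP F →* PSL(2, F) := (QuotientGroup.mk' _).comp (ψ hF)
  have k4 : ∀ g, ψ' g = 1 ↔ σ g.1 ∈ AA F := fun g => (QuotientGroup.eq_one_iff _).trans (ψ_ker hF g)
  let φ0 : (PP F).map σ →* PSL(2, F) := MonoidHom.liftOfSurjective (σ.subgroupMap (PP F))
    (MonoidHom.subgroupMap_surjective _ _) ⟨ψ', fun g hg => (k4 g).2 (by
      rw [show σ g.1 = 1 from congrArg Subtype.val hg]; exact one_mem _)⟩
  have k5 : ∀ g, φ0 (σ.subgroupMap (PP F) g) = ψ' g := fun g =>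
    MonoidHom.liftOfRightInverse_comp_apply _ _ _ _ g
  let φ : N →* PSL(2, F) := φ0.comp ((π.comp N.subtype).codRestrict _ fun n => hN.le n.2)
  have k6 : ∀ (n : N) (g : PP F), σ g.1 = π n → φ n = ψ' g := fun n g e => by
    rw [← k5]; exact congrArg φ0 (Subtype.ext e.symm)
  have k7 : ∀ n : N, φ n = 1 ↔ n ∈ H.subgroupOf N := fun n => by
    obtain ⟨g, hg, e⟩ := hN.le n.2
    rw [k6 n ⟨g, hg⟩ e, k4, mem_subgroupOf, H_eq hF hZ π hs hk hZH hH, mem_comap, ← e]
  refine ⟨(C.equivMapOfInjective _ N.subtype_injective).symm.trans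
    (MulEquiv.ofBijective (φ.comp C.subtype) ⟨(injective_iff_map_eq_one _).2 fun x hx => ?_, fun y => ?_⟩)⟩
  · have : (x : N) ∈ H.subgroupOf N ⊓ C := ⟨(k7 _).1 hx, x.2⟩
    rw [hC.disjoint.eq_bot, mem_bot] at this
    exact Subtype.ext this
  · obtain ⟨y, rfl⟩ := QuotientGroup.mk'_surjective _ y
    obtain ⟨g, rfl⟩ := ψ_surj hF y
    obtain ⟨n, hn⟩ := hs (σ g.1)
    obtain ⟨⟨h, c⟩, e⟩ := hC.2 ⟨n, hN.ge ⟨g, g.2, hn.symm⟩⟩
    refine ⟨c, ?_⟩
    have := k6 ⟨n, hN.ge ⟨g, g.2, hn.symm⟩⟩ g hn.symm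
    rw [← e, map_mul, (k7 _).2 h.2, one_mul] at this
    exact this

theorem main {K : Subgroup X} (hZK : center X ≤ K) (hK : K.map π = BB F) (T : Sylow 2 X)
    (hT' : (T : Subgroup X).map π = AA F ⊔ BB F) :
    IsElementaryAbelian 2 H ∧ IsElementaryAbelian 2 K ∧
      H ⊓ K = (center ↥(H ⊔ K)).map (H ⊔ K).subtype ∧
      (∃ C : Subgroup X, C ≤ normalizer (H : Set X) ∧ C ⊓ H = ⊥ ∧ H ⊔ C = normalizer (H : Set X) ∧
        Nonempty (C ≃* PSL(2, F))) ∧
      (∃ C : Subgroup X, C ≤ normalizer (K : Set X) ∧ C ⊓ K = ⊥ ∧ K ⊔ C = normalizer (K : Set X) ∧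
        Nonempty (C ≃* PSL(2, F))) := by
  haveI : Fact (Nat.Prime 2) := ⟨Nat.prime_two⟩
  let π' : X →* PSL(3, F) := (τ F).toMonoidHom.comp π
  have hs' : Function.Surjective π' := (τ F).surjective.comp hs
  have hk' : π'.ker = center X := by
    rw [← hk]; ext x; exact map_eq_one_iff (τ F) (τ F).injective
  have hK' : K.map π' = AA F := by rw [← map_map, hK, τ_B]
  have e1 := elem hF hZ π hs hk hZH hH
  have e2 := elem hF hZ π' hs' hk' hZK hK'
  have hZT : center X ≤ T := by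
    have : IsPGroup 2 (center X) := fun g => ⟨1, Subtype.ext (hZ.2 _ g.2)⟩
    exact IsPGroup.le_sylow_of_normal this T
  have hT : H ⊔ K = T := by
    rw [← sup_eq_left.2 (hZH.trans le_sup_left : center X ≤ H ⊔ K), ← sup_eq_left.2 hZT, ← hk,
      ← comap_map_eq, ← comap_map_eq, Subgroup.map_sup, hH, hK, hT']
  refine ⟨e1, e2, le_antisymm (fun x hx => ?_) ?_, split hF hZ π hs hk hZH hH e2 T hT hT',
    split hF hZ π' hs' hk' hZK hK' e1 T (by rw [sup_comm, hT])
      (by rw [← map_map, hT', Subgroup.map_sup, τ_A, τ_B, sup_comm])⟩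
  · refine ⟨⟨x, mem_sup_left hx.1⟩, mem_center_iff.2 fun y => Subtype.ext ?_, rfl⟩
    have : H ⊔ K ≤ centralizer {x} := sup_le
      (fun y hy => mem_centralizer_singleton_iff.2 (PGrp.isMulCommutative_iff_forall.1 e1.1 _ hy _ hx.1))
      (fun y hy => mem_centralizer_singleton_iff.2 (PGrp.isMulCommutative_iff_forall.1 e2.1 _ hy _ hx.2))
    exact mem_centralizer_singleton_iff.1 (this y.2)
  · rintro _ ⟨x, hx, rfl⟩
    have h1 : (H ⊔ K).map π = AA F ⊔ BB F := by rw [Subgroup.map_sup, hH, hK]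
    have := cen_U (g := π x) (h1 ▸ ⟨x, x.2, rfl⟩) fun y hy => by
      rw [← h1] at hy
      obtain ⟨y, hy, rfl⟩ := hy
      rw [← map_mul, ← map_mul]
      exact congrArg (fun z : ↥(H ⊔ K) => π z) (mem_center_iff.1 hx ⟨y, hy⟩)
    rw [← hH, ← hK] at this
    have a : (x : X) ∈ (H.map π).comap π := this.1
    have b : (x : X) ∈ (K.map π).comap π := this.2
    rw [comap_map_eq, hk, sup_eq_left.2 hZH] at a
    rw [comap_map_eq, hk, sup_eq_left.2 hZK] at b
    exact ⟨a, b⟩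

end Cfsg.Agent.Mix26.L34
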