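import Mathlib
import Cfsg.Agent.PGrp.Alperin
import Cfsg.Agent.PGrp.Frattini
import Cfsg.Agent.BG.RepGlue

set_option autoImplicit false
set_option linter.unusedSectionVars false
open Subgroup Finset
open scoped commutatorElement

namespace Cfsg.Agent.Mix26

section Wt
variable {F : Type*} [CommRing F] {m : ℕ}

def wt (i j : Fin m) : ℤ := 2 ^ (j : ℕ) - 2 ^ (i : ℕ)

theorem wt_add (i j k : Fin m) : wt i j + wt j k = wt i k := by unfold wt; ring

theorem wt_pos {i j : Fin m} : 0 < wt i j ↔ i < j := by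
  unfold wt
  rw [sub_pos, pow_lt_pow_iff_right₀ (by norm_num)]; rfl

theorem wt_inj {i j i' j' : Fin m} (h : 0 < wt i j) (e : wt i j = wt i' j') : i = i' ∧ j = j' := by
  have h' : 0 < wt i' j' := e ▸ h
  rw [wt_pos] at h h'
  have key : ∀ {i j i' j' : Fin m}, i' < j' → j < j' → wt i j ≠ wt i' j' := by
    intro i j i' j' h1 h2 e
    unfold wt at e
    have a : (2 : ℤ) ^ ((j : ℕ) + 1) ≤ 2 ^ (j' : ℕ) := pow_le_pow_right₀ (by norm_num) h2
    have b : (2 : ℤ) ^ ((i' : ℕ) + 1) ≤ 2 ^ (j' : ℕ) := pow_le_pow_right₀ (by norm_num) h1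
    have c : (0 : ℤ) < 2 ^ (i : ℕ) := by positivity
    rw [pow_succ] at a b
    omega
  have hj : j = j' := by
    rcases lt_trichotomy j j' with h1 | h1 | h1
    · exact absurd e (key h' h1)
    · exact h1
    · exact absurd e.symm (key h h1)
  subst hj
  refine ⟨?_, rfl⟩
  unfold wt at e
  have : (2 : ℤ) ^ (i : ℕ) = 2 ^ (i' : ℕ) := by omega
  exact Fin.ext (pow_right_injective₀ (by norm_num) (by norm_num) this)

theorem wt_lt (i j : Fin m) : wt i j < 2 ^ m := by
  unfold wt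
  have a : (2 : ℤ) ^ (j : ℕ) < 2 ^ m := pow_lt_pow_right₀ (by norm_num) j.2
  have c : (0 : ℤ) < 2 ^ (i : ℕ) := by positivity
  omega

def Wt (w : ℤ) (M : Matrix (Fin m) (Fin m) F) : Prop := ∀ i j, wt i j < w → M i j = 0

theorem Wt.mono {w w' : ℤ} {M : Matrix (Fin m) (Fin m) F} (h : Wt w M) (hw : w' ≤ w) : Wt w' M :=
  fun i j a => h i j (by omega)

theorem Wt.add {w : ℤ} {M N : Matrix (Fin m) (Fin m) F} (h : Wt w M) (h' : Wt w N) : Wt w (M + N) :=
  fun i j a => by rw [Matrix.add_apply, h i j a, h' i j a, add_zero]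

theorem Wt.sub {w : ℤ} {M N : Matrix (Fin m) (Fin m) F} (h : Wt w M) (h' : Wt w N) : Wt w (M - N) :=
  fun i j a => by rw [Matrix.sub_apply, h i j a, h' i j a, sub_zero]

theorem Wt.mul {w w' : ℤ} {M N : Matrix (Fin m) (Fin m) F} (h : Wt w M) (h' : Wt w' N) :
    Wt (w + w') (M * N) := fun i k a => by
  rw [Matrix.mul_apply]
  refine sum_eq_zero fun j _ => ?_
  have := wt_add i j k
  by_cases h1 : wt i j < w
  · rw [h i j h1, zero_mul]
  · rw [h' j k (by omega), mul_zero]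

theorem Wt.mul_apply {M N : Matrix (Fin m) (Fin m) F} {i j k : Fin m} (hij : 0 < wt i j)
    (h : Wt (wt i j) M) (h' : Wt (wt j k) N) : (M * N) i k = M i j * N j k := by
  rw [Matrix.mul_apply]
  refine sum_eq_single j (fun l _ hl => ?_) (by simp)
  have := wt_add i l k
  have := wt_add i j k
  by_cases h1 : wt i l < wt i j
  · rw [h i l h1, zero_mul]
  by_cases h2 : wt l k < wt j k
  · rw [h' l k h2, mul_zero]
  exact absurd (wt_inj hij (show wt i j = wt i l by omega)).2.symm hl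

theorem Wt.mul_apply' {M N : Matrix (Fin m) (Fin m) F} {i j k : Fin m} (hij : 0 < wt i j)
    (hjk : 0 < wt j k) (h : Wt (wt i j) M) (h' : Wt (wt j k) N) : (N * M) i k = 0 := by
  rw [Matrix.mul_apply]
  refine sum_eq_zero fun l _ => ?_
  have := wt_add i l k
  have := wt_add i j k
  by_cases h1 : wt i l < wt j k
  · rw [h' i l h1, zero_mul]
  by_cases h2 : wt l k < wt i j
  · rw [h l k h2, mul_zero]
  exact absurd (wt_inj hjk (show wt j k = wt i l by omega)).1 (wt_pos.1 hij).ne'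

end Wt

section Gen
variable {P : Type*} [Group P] {p : ℕ} [hp : Fact p.Prime] {m : ℕ}
  (ρ : P →* Matrix (Fin m) (Fin m) (ZMod p)) (h1 : ∀ g, Wt 1 (ρ g - 1))

theorem pat_mul (g k : P) : ρ (g * k) - 1 = (ρ g - 1) * (ρ k - 1) + (ρ g - 1) + (ρ k - 1) := by
  rw [map_mul]; noncomm_ring

include h1

def patU (w : ℤ) : Subgroup P where
  carrier := {g | Wt w (ρ g - 1)}
  one_mem' := fun i j _ => by simp
  mul_mem' := fun {a b} ha hb => by
    show Wt w _
    rw [pat_mul]
    exact ((((h1 a).mul hb).mono (by omega)).add ha).add hb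
  inv_mem' := fun {a} ha => by
    show Wt w _
    have : ρ a⁻¹ - 1 = 0 - ((ρ a⁻¹ - 1) * (ρ a - 1) + (ρ a - 1)) := by
      have := pat_mul ρ a⁻¹ a
      rw [inv_mul_cancel, map_one, sub_self] at this
      rw [this]; abel
    rw [this]
    exact Wt.sub (fun _ _ _ => rfl) ((((h1 a⁻¹).mul ha).mono (by omega)).add ha)

theorem pat_ent {i j : Fin m} {g k : P} (hk : Wt (wt i j) (ρ k - 1)) :
    (ρ (g * k) - 1) i j = (ρ g - 1) i j + (ρ k - 1) i j := by
  rw [pat_mul, Matrix.add_apply, Matrix.add_apply, (h1 g).mul hk i j (by omega), zero_add]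

theorem pat_pow {i j : Fin m} {k : P} (hk : Wt (wt i j) (ρ k - 1)) (n : ℕ) :
    (ρ (k ^ n) - 1) i j = n * (ρ k - 1) i j := by
  induction n with
  | zero => simp
  | succ n ih => rw [pow_succ, pat_ent ρ h1 hk, ih]; push_cast; ring

def Ld (H : Subgroup P) (i j : Fin m) : Prop := ∃ g ∈ H, Wt (wt i j) (ρ g - 1) ∧ (ρ g - 1) i j ≠ 0

theorem Ld.pos {H : Subgroup P} {i j : Fin m} (h : Ld ρ H i j) : 0 < wt i j := by
  obtain ⟨g, -, -, h⟩ := h
  by_contra hc
  exact h (h1 g i j (by omega))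

theorem Ld.comp {H : Subgroup P} {i j k : Fin m} (h : Ld ρ H i j) (h' : Ld ρ H j k) : Ld ρ H i k := by
  have p1 := h.pos ρ h1
  have p2 := h'.pos ρ h1
  obtain ⟨g, hg, g1, g2⟩ := h
  obtain ⟨u, hu, u1, u2⟩ := h'
  have e : ρ ⁅g, u⁆ - 1 = ((ρ g - 1) * (ρ u - 1) - (ρ u - 1) * (ρ g - 1)) +
      ((ρ g - 1) * (ρ u - 1) - (ρ u - 1) * (ρ g - 1)) * (ρ (g⁻¹ * u⁻¹) - 1) := by
    have a : ρ ⁅g, u⁆ = ρ g * ρ u * ρ (g⁻¹ * u⁻¹) := by
      rw [← map_mul, ← map_mul, commutatorElement_def, mul_assoc (g * u)]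
    have b : ρ u * ρ g * ρ (g⁻¹ * u⁻¹) = 1 := by
      rw [← map_mul, ← map_mul, ← map_one ρ]; congr 1; group
    calc ρ ⁅g, u⁆ - 1 = ρ g * ρ u * ρ (g⁻¹ * u⁻¹) - ρ u * ρ g * ρ (g⁻¹ * u⁻¹) := by rw [a, b]
      _ = _ := by noncomm_ring
  have w : Wt (wt i k) ((ρ g - 1) * (ρ u - 1) - (ρ u - 1) * (ρ g - 1)) := by
    rw [← wt_add i j k]
    exact (g1.mul u1).sub (add_comm (wt i j) _ ▸ u1.mul g1)
  refine ⟨⁅g, u⁆, mul_mem (mul_mem (mul_mem hg hu) (inv_mem hg)) (inv_mem hu), ?_, ?_⟩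
  · rw [e]; exact w.add ((w.mul (h1 _)).mono (by omega))
  · rw [e, Matrix.add_apply, w.mul (h1 _) i k (by omega), add_zero, Matrix.sub_apply,
      Wt.mul_apply p1 g1 u1, Wt.mul_apply' p1 p2 g1 u1, sub_zero]
    exact mul_ne_zero g2 u2

theorem pat_gen (H : Subgroup P) : ∃ S : Finset P, (S : Set P) ⊆ H ∧ S.card ≤ m ^ 2 / 4 ∧
    H ≤ closure (S : Set P) ⊔ (H ⊓ ρ.ker) := by
  classical
  let I : Fin m → Fin m → Prop := fun i k => Ld ρ H i k ∧ ¬ ∃ j, Ld ρ H i j ∧ Ld ρ H j k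
  have hI : ∀ x : {x : Fin m × Fin m // I x.1 x.2}, ∃ g ∈ H, Wt (wt x.1.1 x.1.2) (ρ g - 1) ∧
      (ρ g - 1) x.1.1 x.1.2 ≠ 0 := fun x => x.2.1
  choose f f1 f2 using hI
  refine ⟨univ.image f, fun g hg => ?_, card_image_le.trans ?_, ?_⟩
  · obtain ⟨x, -, rfl⟩ := mem_image.1 hg
    exact f1 x
  · have lt : ∀ {i j}, I i j → i < j := fun h => wt_pos.1 (h.1.pos ρ h1)
    let Γ : SimpleGraph (Fin m) :=
      { Adj := fun i j => I i j ∨ I j i
        symm := ⟨fun _ _ h => h.symm⟩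
        loopless := ⟨fun i h => by rcases h with h | h <;> exact (lt h).false⟩ }
    have hΓ : Γ.CliqueFree 3 := by
      intro s hs
      obtain ⟨a, b, c, hab, hac, hbc, -⟩ := SimpleGraph.is3Clique_iff.1 hs
      rcases hab with x | x <;> rcases hac with y | y <;> rcases hbc with z | z
      · exact y.2 ⟨_, x.1, z.1⟩
      · exact x.2 ⟨_, y.1, z.1⟩
      · exact absurd ((lt x).trans ((lt z).trans (lt y))) (lt_irrefl _)
      · exact z.2 ⟨_, y.1, x.1⟩
      · exact z.2 ⟨_, x.1, y.1⟩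
      · exact absurd ((lt x).trans ((lt y).trans (lt z))) (lt_irrefl _)
      · exact x.2 ⟨_, z.1, y.1⟩
      · exact y.2 ⟨_, z.1, x.1⟩
    have h2 := hΓ.card_edgeFinset_le (r := 2)
    simp only [Fintype.card_fin] at h2
    have h3 : (m % 2).choose 2 = 0 := Nat.choose_eq_zero_of_lt (Nat.mod_lt _ (by omega))
    refine le_trans ?_ (h2.trans (by omega))
    refine card_le_card_of_injOn (fun x => s(x.1.1, x.1.2)) (fun x _ => ?_) fun x _ y _ e => ?_
    · simp only [SimpleGraph.coe_edgeFinset, SimpleGraph.mem_edgeSet]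
      exact Or.inl x.2
    · rcases Sym2.eq_iff.1 e with e | e
      · exact Subtype.ext (Prod.ext e.1 e.2)
      · have a := lt x.2
        have b := lt y.2
        rw [e.1, e.2] at a
        exact absurd (a.trans b) (lt_irrefl _)
  set K := closure ((univ.image f : Finset P) : Set P) ⊔ (H ⊓ ρ.ker) with hK
  have KH : K ≤ H := sup_le ((closure_le _).2 fun g hg => by
    obtain ⟨x, -, rfl⟩ := mem_image.1 hg
    exact f1 x) inf_le_left
  have A : ∀ n : ℕ, ∀ i k, wt i k < n → Ld ρ H i k → Ld ρ K i k := by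
    intro n
    induction n with
    | zero => intro i k h h'; have := h'.pos ρ h1; omega
    | succ n ih =>
      intro i k h h'
      by_cases hd : ∃ j, Ld ρ H i j ∧ Ld ρ H j k
      · obtain ⟨j, a, b⟩ := hd
        have := a.pos ρ h1
        have := b.pos ρ h1
        have := wt_add i j k
        exact (ih i j (by push_cast at h; omega) a).comp ρ h1 (ih j k (by push_cast at h; omega) b)
      · exact ⟨f ⟨(i, k), h', hd⟩, mem_sup_left (subset_closure (mem_image_of_mem _ (mem_univ _))),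
          f2 ⟨(i, k), h', hd⟩⟩
  have B : ∀ n : ℕ, ∀ g ∈ H, Wt (2 ^ m - n) (ρ g - 1) → g ∈ K := by
    intro n
    induction n with
    | zero =>
      intro g hg h
      refine mem_sup_right ⟨hg, sub_eq_zero.1 ?_⟩
      ext i j
      exact h i j (by simpa using wt_lt i j)
    | succ n ih =>
      intro g hg h
      by_cases hc : Wt (2 ^ m - n) (ρ g - 1)
      · exact ih g hg hc
      unfold Wt at hc
      push Not at hc
      obtain ⟨i, j, a, b⟩ := hc
      have e : wt i j = 2 ^ m - ((n + 1 : ℕ) : ℤ) := by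
        by_contra hh
        exact b (h i j (by push_cast at hh ⊢; omega))
      rw [← e] at h
      have l : Ld ρ H i j := ⟨g, hg, h, b⟩
      obtain ⟨k, hk, k1, k2⟩ := A (2 ^ m) i j (by simpa using wt_lt i j) l
      let c : ZMod p := - (ρ g - 1) i j / (ρ k - 1) i j
      have k3 : Wt (wt i j) (ρ (k ^ c.val) - 1) := (patU ρ h1 _).pow_mem k1 _
      refine (K.mul_mem_cancel_right (pow_mem hk c.val)).1 (ih _ (mul_mem hg (KH (pow_mem hk _))) ?_)
      intro i' j' a'
      by_cases hh : wt i' j' < wt i j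
      · exact (patU ρ h1 _).mul_mem h k3 i' j' hh
      obtain ⟨rfl, rfl⟩ := wt_inj (l.pos ρ h1) (show wt i j = wt i' j' by push_cast at e; omega)
      rw [pat_ent ρ h1 k3, pat_pow ρ h1 k1, ZMod.natCast_zmod_val, div_mul_cancel₀ _ k2, add_neg_cancel]
  exact fun g hg => B (2 ^ m) g hg ((h1 g).mono (by simp))

end Gen

section Tri
variable {P : Type*} [Group P] [Finite P] {p : ℕ} [hp : Fact p.Prime]

theorem pat_seq (hP : IsPGroup p P) : ∀ (m : ℕ) (A : Subgroup P), A.Normal → Nat.card A = p ^ m →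
    ∃ a : Fin m → P, closure (Set.range a) = A ∧ ∀ (g : P) j, ⁅g, a j⁆ ∈ closure (a '' {i | i < j}) := by
  intro m
  induction m with
  | zero =>
    intro A _ h
    exact ⟨Fin.elim0, by simp [card_eq_one.1 (by simpa using h)], fun g j => j.elim0⟩
  | succ m ih =>
    intro A _ h
    obtain ⟨K, hK, hKA, hc⟩ := PGrp.exists_normal_le_card_eq hP A m
      (by rw [h]; exact Nat.pow_le_pow_right hp.out.pos (by omega))
    have hr : K.relIndex A = p := by
      have := PGrp.card_eq_card_mul_relIndex hKA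
      rw [h, hc, pow_succ] at this
      exact (Nat.eq_of_mul_eq_mul_left (pow_pos hp.out.pos _) this).symm
    obtain ⟨x, hx, hxK, -, hxc⟩ := PGrp.exists_central_mod_normal hP A K fun hh => by
      rw [relIndex_eq_one.2 hh] at hr; exact hp.out.one_lt.ne hr
    obtain ⟨a, ha, ha'⟩ := ih K hK hc
    refine ⟨Fin.snoc a x, ?_, fun g j => ?_⟩
    · rw [Fin.range_snoc, Set.insert_eq, Subgroup.closure_union, ha, ← zpowers_eq_closure, sup_comm]
      exact PGrp.sup_zpowers_eq_of_relIndex_prime hp.out hr hKA hx hxK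
    · refine Fin.lastCases ?_ (fun j => ?_) j
      · rw [Fin.snoc_last]
        refine closure_mono ?_ (ha ▸ PGrp.commutator_symm_mem (hxc g))
        rintro _ ⟨i, rfl⟩
        exact ⟨i.castSucc, Fin.castSucc_lt_last i, by simp⟩
      · rw [Fin.snoc_castSucc]
        refine closure_mono ?_ (ha' g j)
        rintro _ ⟨i, hi, rfl⟩
        exact ⟨i.castSucc, Fin.castSucc_lt_castSucc_iff.2 hi, by simp⟩

theorem pat_rep (hP : IsPGroup p P) (A : Subgroup P) [hn : A.Normal] (hA : IsElementaryAbelian p A) :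
    ∃ (m : ℕ) (ρ : P →* Matrix (Fin m) (Fin m) (ZMod p)), Nat.card A = p ^ m ∧
      (∀ g, Wt 1 (ρ g - 1)) ∧ ρ.ker ≤ centralizer (A : Set P) := by
  obtain ⟨m, e, φ, hc, hφ⟩ := BG.RepGlue.exists_matrix_rep hA (MonoidHom.id P)
    fun g => by rw [normalizer_eq_top]; trivial
  obtain ⟨a, ha, ha'⟩ := pat_seq hP m A hn hc
  have aA : ∀ i, a i ∈ A := fun i => ha ▸ subset_closure ⟨i, rfl⟩
  let b : Fin m → (Fin m → ZMod p) := fun i => (e ⟨a i, aA i⟩).toAdd
  have sp : ∀ (s : Set (Fin m)) (x : A), (x : P) ∈ closure (a '' s) →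
      (e x).toAdd ∈ Submodule.span (ZMod p) (b '' s) := by
    intro s x hx
    have : closure (a '' s) ≤ (((Submodule.span (ZMod p) (b '' s)).toAddSubgroup.toSubgroup).comap
        e.toMonoidHom).map A.subtype := by
      rw [closure_le]
      rintro _ ⟨i, hi, rfl⟩
      exact ⟨⟨a i, aA i⟩, Submodule.subset_span ⟨i, hi, rfl⟩, rfl⟩
    obtain ⟨y, hy, e⟩ := this hx
    obtain rfl : y = x := Subtype.ext e
    exact hy
  let B : Module.Basis (Fin m) (ZMod p) (Fin m → ZMod p) := basisOfTopLeSpanOfCardEqFinrank b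
    (fun v _ => by
      have := sp Set.univ (e.symm (Multiplicative.ofAdd v)) (by rw [Set.image_univ, ha]; exact Subtype.prop _)
      simpa using this) (by simp)
  have hB : ∀ i, B i = b i := fun i => by simp [B]
  let ψ : Matrix (Fin m) (Fin m) (ZMod p) ≃ₐ[ZMod p] Matrix (Fin m) (Fin m) (ZMod p) :=
    Matrix.toLinAlgEquiv'.trans (LinearMap.toMatrixAlgEquiv B)
  refine ⟨m, ψ.toMonoidHom.comp φ, hc, fun g i j hij => ?_, fun g hg v hv => ?_⟩
  · have h1 : ¬ i < j := fun hh => by have := wt_pos.2 hh; omega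
    have h0 : ⁅g, a j⁆ ∈ A := mul_mem (hn.conj_mem _ (aA j) g) (inv_mem (aA j))
    have h2 := hφ g ⟨a j, aA j⟩ (⟨⁅g, a j⁆, h0⟩ * ⟨a j, aA j⟩)
      (PGrp.conj_eq_commutator_mul g (a j)).symm
    have h3 := sp _ ⟨⁅g, a j⁆, h0⟩ (ha' g j)
    have h4 : (ψ.toMonoidHom.comp φ) g i j = B.repr (Matrix.mulVec (φ g) (B j)) i := by
      simp [ψ, LinearMap.toMatrixAlgEquiv_apply, Matrix.toLinAlgEquiv'_apply]
    rw [show b = B from (funext hB).symm, B.mem_span_image] at h3
    have h5 : B.repr (e ⟨⁅g, a j⁆, h0⟩).toAdd i = 0 := by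
      by_contra hh
      exact h1 (h3 (Finsupp.mem_support_iff.2 hh))
    rw [Matrix.sub_apply, h4, hB, h2, map_mul, toAdd_mul, map_add, Finsupp.add_apply, h5, zero_add]
    change B.repr (b j) i - _ = 0
    rw [← hB, B.repr_self, Finsupp.single_apply, Matrix.one_apply]
    simp [eq_comm]
  · have h1 : φ g = 1 := ψ.injective (by rw [map_one]; exact hg)
    have := hφ g ⟨v, hv⟩ ⟨_, hn.conj_mem v hv g⟩ rfl
    rw [h1, Matrix.one_mulVec] at this
    have := congrArg Subtype.val (e.injective (Multiplicative.toAdd.injective this))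
    simp only at this
    rw [eq_mul_inv_iff_mul_eq] at this
    exact this

end Tri

end Cfsg.Agent.Mix26
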