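import Mathlib
import Cfsg.Agent.Mix26.Pat

set_option autoImplicit false
set_option linter.unusedSectionVars false
open Subgroup
open scoped commutatorElement

namespace Cfsg.Agent.Mix26

universe u
variable {p : ℕ} [hp : Fact p.Prime]

theorem pc_comm {G : Type u} [Group G] [Finite G] (hp2 : p ≠ 2) (hG : IsPGroup p G)
    (hc : ∀ y : G, y ^ p = 1 → y ∈ center G) {x : G} (hx : x ^ p ∈ center G) (g : G) :
    ⁅g, x⁆ ^ p = 1 := by
  let K : Set G := {g | ⁅g, x⁆ ^ p = 1}
  haveI := hG.isNilpotent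
  have key : ∀ n, ∀ g ∈ Subgroup.upperCentralSeries G n, ⁅g, x⁆ ^ p = 1 := by
    intro n
    induction n with
    | zero => intro g hg; rw [Subgroup.upperCentralSeries_zero, mem_bot] at hg; simp [hg]
    | succ n ih =>
      intro g hg
      have h1 := ih _ (Subgroup.mem_upperCentralSeries_succ_iff.1 hg x)
      have h2 := hc _ h1
      have h3 : ⁅x, ⁅g, x⁆⁆ ∈ center G := by rw [← commutatorElement_inv]; exact inv_mem h2
      have h4 : ⁅x, ⁅g, x⁆⁆ ^ p = 1 := by rw [← commutatorElement_inv, inv_pow, h1, inv_one]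
      have h5 := PGrp.mul_pow_of_commute_of_odd (hp.out.odd_of_ne_two hp2) (x := ⁅g, x⁆) (y := x)
        (mem_center_iff.1 h3 _) (mem_center_iff.1 h3 _) h4
      rw [← PGrp.conj_eq_commutator_mul, conj_pow, mem_center_iff.1 hx g, mul_inv_cancel_right] at h5
      exact right_eq_mul.1 h5
  obtain ⟨n, hn⟩ := Group.IsNilpotent.nilpotent G
  exact key n g (hn ▸ mem_top g)

theorem pc_index (hp2 : p ≠ 2) : ∀ (n : ℕ) (G : Type u) [Group G] [Finite G], Nat.card G = n →
    IsPGroup p G → ∀ A : Subgroup G, A ≤ center G → (∀ y : G, y ∈ A ↔ y ^ p = 1) →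
    (frattini G).index ≤ Nat.card A := by
  intro n
  induction n using Nat.strong_induction_on with
  | _ n ih =>
  intro G _ _ hn hG A hA hA'
  haveI := PGrp.normal_of_le_center hA
  by_cases h0 : A = ⊥
  · have : (⊤ : Subgroup G) = ⊥ := by
      by_contra hh
      obtain ⟨z, -, -, hz⟩ := PGrp.exists_mem_center_orderOf_eq hG ⊤ hh
      have := (hA' z).2 (hz ▸ pow_orderOf_eq_one z)
      rw [h0, mem_bot] at this
      rw [this, orderOf_one] at hz
      exact hp.out.one_lt.ne hz
    rw [show frattini G = ⊤ from top_le_iff.1 (this ▸ bot_le), index_top]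
    exact Nat.card_pos
  have hc : ∀ y : G, y ^ p = 1 → y ∈ center G := fun y hy => hA ((hA' y).2 hy)
  have cm : ∀ x, x ^ p ∈ A → ∀ g, ⁅g, x⁆ ^ p = 1 := fun x hx g => pc_comm hp2 hG hc (hA hx) g
  have pm : ∀ x y, x ^ p ∈ A → (x * y) ^ p = x ^ p * y ^ p := fun x y hx =>
    PGrp.mul_pow_of_commute_of_odd (hp.out.odd_of_ne_two hp2)
      (mem_center_iff.1 (hc _ (cm x hx y)) _) (mem_center_iff.1 (hc _ (cm x hx y)) _) (cm x hx y)
  let O : Subgroup G :=
    { carrier := {x | x ^ p ∈ A}
      one_mem' := by simp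
      mul_mem' := fun {a b} ha hb => by
        show (a * b) ^ p ∈ A
        rw [pm a b ha]; exact mul_mem ha hb
      inv_mem' := fun {a} ha => by
        show a⁻¹ ^ p ∈ A
        rw [inv_pow]; exact inv_mem ha }
  let π := QuotientGroup.mk' A
  have h1 := ih (Nat.card (G ⧸ A)) (by
      rw [← hn, ← A.card_mul_index]
      exact lt_mul_of_one_lt_left (Nat.pos_of_ne_zero A.index_ne_zero_of_finite) (A.one_lt_card_iff_ne_bot.2 h0))
    (G ⧸ A) rfl (hG.to_quotient A) (O.map π) (by
      rintro _ ⟨x, hx, rfl⟩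
      refine mem_center_iff.2 fun g => ?_
      obtain ⟨g, rfl⟩ := QuotientGroup.mk'_surjective A g
      rw [← commutatorElement_eq_one_iff_mul_comm, ← map_commutatorElement]
      exact (QuotientGroup.eq_one_iff _).2 ((hA' _).2 (cm x hx g))) (fun y => by
      obtain ⟨y, rfl⟩ := QuotientGroup.mk'_surjective A y
      rw [← map_pow]
      constructor
      · rintro ⟨x, hx, e⟩
        rw [map_pow, ← e, ← map_pow]
        exact (QuotientGroup.eq_one_iff _).2 hx
      · intro h
        exact ⟨y, (QuotientGroup.eq_one_iff (N := A) (y ^ p)).1 h, rfl⟩)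
  rw [← PGrp.map_frattini_of_surjective hG π (QuotientGroup.mk'_surjective A), index_map,
    QuotientGroup.ker_mk', MonoidHom.range_eq_top.2 (QuotientGroup.mk'_surjective A), index_top, mul_one,
    ← relIndex_ker, QuotientGroup.ker_mk'] at h1
  let θ : O →* G := MonoidHom.mk' (fun x => (x : G) ^ p) fun a b => pm a b a.2
  have h2 : θ.ker = A.subgroupOf O := by
    ext x; rw [MonoidHom.mem_ker, mem_subgroupOf, hA']; rfl
  have h3 : θ.range ≤ frattini G ⊓ A := by
    rintro _ ⟨x, rfl⟩; exact ⟨PGrp.pow_mem_frattini hG _, x.2⟩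
  have h4 := card_le_of_le h3
  rw [← index_ker, h2] at h4
  rw [← relIndex_mul_index (show frattini G ≤ frattini G ⊔ A from le_sup_left), relIndex_sup_left,
    ← PGrp.card_inf_mul_relIndex (frattini G) A, mul_comm]
  exact Nat.mul_le_mul_right _ (h1.trans h4)

theorem pc_main {P : Type u} [Group P] [Finite P] (hp2 : p ≠ 2) (hP : IsPGroup p P) (k : ℕ)
    (hab : ∀ A : Subgroup P, A.Normal → IsMulCommutative A →
      ∃ S : Finset P, S.card ≤ k ∧ Subgroup.closure (S : Set P) = A) (H : Subgroup P) :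
    ∃ S : Finset P, S.card ≤ k * (k + 4) / 4 ∧ Subgroup.closure (S : Set P) = H := by
  classical
  obtain ⟨A, -, hn, hA, hmax⟩ := PGrp.exists_maximal_normal_elementary hp2 hP ⊥
    PGrp.isElementaryAbelian_bot
  obtain ⟨m, ρ, hm, h1, hk⟩ := pat_rep hP A hA
  have hAc := PGrp.isMulCommutative_iff_forall.1 hA.1
  have hmk : m ≤ k := by
    obtain ⟨S, hS, e⟩ := hab A hn hA.1
    have sA : ∀ x ∈ S, x ∈ A := fun x hx => e ▸ subset_closure hx
    have := PGrp.card_sup_closure_le (N := ⊥) hp.out.ne_zero S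
      (fun x _ => by rw [normalizer_eq_top]; trivial)
      (fun x hx y hy => mem_bot.2 (commutatorElement_eq_one_iff_mul_comm.2 (hAc x (sA x hx) y (sA y hy))))
      (fun x hx => mem_bot.2 (hA.2 x (sA x hx)))
    rw [bot_sup_eq, e, hm, card_bot, one_mul] at this
    exact ((Nat.pow_le_pow_iff_right hp.out.one_lt).1 this).trans hS
  obtain ⟨S, hS1, hS2, hS3⟩ := pat_gen ρ h1 H
  set K := H ⊓ ρ.ker with hK
  have hKp : IsPGroup p K := hP.to_subgroup K
  have h2 := pc_index hp2 _ K rfl hKp (A.subgroupOf K)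
    (fun x hx => mem_center_iff.2 fun g => Subtype.ext (hk g.2.2 x hx).symm)
    (fun y => ⟨fun h => Subtype.ext (hA.2 _ h), fun h => hmax _ (hk y.2.2) (congrArg Subtype.val h)⟩)
  obtain ⟨d, hd⟩ := hKp.index (frattini K)
  obtain ⟨T, -, hT1, hT2⟩ := PGrp.exists_subset_card_closure_eq_top hKp hd Set.univ closure_univ
  have h3 : d ≤ m := by
    rw [← Nat.pow_le_pow_iff_right hp.out.one_lt, ← hd, ← hm]
    refine h2.trans ?_
    rw [← card_map_of_injective K.subtype_injective, subgroupOf_map_subtype]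
    exact card_le_of_le inf_le_left
  refine ⟨S ∪ T.image K.subtype, (Finset.card_union_le _ _).trans ?_, ?_⟩
  · have := Finset.card_image_le (s := T) (f := K.subtype)
    have h4 : m ^ 2 / 4 ≤ k ^ 2 / 4 := Nat.div_le_div_right (Nat.pow_le_pow_left hmk 2)
    have h5 : k * (k + 4) = k ^ 2 + 4 * k := by ring
    omega
  · rw [Finset.coe_union, Subgroup.closure_union, Finset.coe_image, ← MonoidHom.map_closure, hT2,
      ← MonoidHom.range_eq_map, range_subtype]
    exact le_antisymm (sup_le ((closure_le _).2 hS1) inf_le_left) hS3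

end Cfsg.Agent.Mix26
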