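import Mathlib
import Cfsg.Agent.Classical.Borel2

/-! Irreducible quadratic modules for `SL₂(F)` are natural. -/

set_option autoImplicit false
set_option backward.isDefEq.respectTransparency false
open scoped MatrixGroups Matrix

namespace Cfsg.Agent.Mix26
open Cfsg.Agent.Classical.SL2Basic Cfsg.Agent.Classical.Borel2

variable {F : Type*} [Field F]

/-- The monomial element `n(a)`. -/
def nnSL (a : F) : SL(2, F) := upper a * lower (-a⁻¹) * upper a

theorem nnSL_eq {a : F} (ha : a ≠ 0) : nnSL a = mkSL 0 a (-a⁻¹) 0 (by simp [ha]) := by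
  apply sl2_ext <;> simp [nnSL, upper, lower, Matrix.mul_apply, Fin.sum_univ_two, ha]

theorem nnSL_eq' {a : F} (ha : a ≠ 0) : nnSL a = lower (-a⁻¹) * upper a * lower (-a⁻¹) := by
  rw [nnSL_eq ha]
  apply sl2_ext <;> simp [upper, lower, Matrix.mul_apply, Fin.sum_univ_two, ha]

theorem lower_mul_nnSL {a : F} (ha : a ≠ 0) (b : F) :
    lower b * nnSL a = nnSL a * upper (-(a ^ 2 * b)) := by
  rw [nnSL_eq ha]
  apply sl2_ext <;> simp [upper, lower, Matrix.mul_apply, Fin.sum_univ_two, ha]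
  field_simp

theorem upper_mul_nnSL {a : F} (ha : a ≠ 0) (b : F) :
    upper b * nnSL a = nnSL a * lower (-(a⁻¹ ^ 2 * b)) := by
  rw [nnSL_eq ha]
  apply sl2_ext <;> simp [upper, lower, Matrix.mul_apply, Fin.sum_univ_two, ha]
  field_simp

theorem nnSL_mul_two {a c : F} (ha : a ≠ 0) (hc : c ≠ 0) :
    nnSL a * nnSL (-c⁻¹) = nnSL (a * c) * nnSL (-1⁻¹) := by
  rw [nnSL_eq ha, nnSL_eq (a := -c⁻¹) (by simp [hc]), nnSL_eq (mul_ne_zero ha hc),
    nnSL_eq (a := -1⁻¹) (by simp)]
  apply sl2_ext <;> simp [Matrix.mul_apply, Fin.sum_univ_two, ha, hc]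
  field_simp

theorem nnSL_mul_three {a c : F} (ha : a ≠ 0) (hc : c ≠ 0) :
    nnSL (-c⁻¹) * (nnSL a * nnSL (-1⁻¹)) = nnSL (-(c * a)⁻¹) := by
  rw [nnSL_eq ha, nnSL_eq (a := -c⁻¹) (by simp [hc]), nnSL_eq (a := -(c * a)⁻¹) (by simp [ha, hc]),
    nnSL_eq (a := -1⁻¹) (by simp)]
  apply sl2_ext <;> simp [Matrix.mul_apply, Fin.sum_univ_two, ha, hc]
  field_simp

variable {M : Type*} [AddCommGroup M] [DistribMulAction SL(2, F) M]

variable (F M) in
/-- Fixed points of the upper unitriangular group. -/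
def fixU : AddSubgroup M where
  carrier := {m | ∀ b : F, upper b • m = m}
  add_mem' := fun {a b} ha hb c => by rw [smul_add, ha c, hb c]
  zero_mem' := fun c => smul_zero _
  neg_mem' := fun {a} ha c => by rw [smul_neg, ha c]

variable (F M) in
/-- Fixed points of the lower unitriangular group. -/
def fixL : AddSubgroup M where
  carrier := {m | ∀ b : F, lower b • m = m}
  add_mem' := fun {a b} ha hb c => by rw [smul_add, ha c, hb c]
  zero_mem' := fun c => smul_zero _
  neg_mem' := fun {a} ha c => by rw [smul_neg, ha c]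

variable (F M) in
/-- Irreducible and nontrivial. -/
structure IrrSL : Prop where
  irr : ∀ N : AddSubgroup M, (∀ g : SL(2, F), ∀ m ∈ N, g • m ∈ N) → N = ⊥ ∨ N = ⊤
  nt : ∃ (g : SL(2, F)) (m : M), g • m ≠ m

theorem nn_fixU {a : F} (ha : a ≠ 0) {m : M} (hm : m ∈ fixU F M) : nnSL a • m ∈ fixL F M :=
  fun b => by rw [← mul_smul, lower_mul_nnSL ha, mul_smul, hm]

theorem nn_fixL {a : F} (ha : a ≠ 0) {m : M} (hm : m ∈ fixL F M) : nnSL a • m ∈ fixU F M :=
  fun b => by rw [← mul_smul, upper_mul_nnSL ha, mul_smul, hm]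

theorem IrrSL.eq_zero (h : IrrSL F M) {m : M} (h1 : m ∈ fixU F M) (h2 : m ∈ fixL F M) : m = 0 := by
  let Z : AddSubgroup M :=
    { carrier := {m | ∀ g : SL(2, F), g • m = m}
      add_mem' := fun {a b} ha hb c => by rw [smul_add, ha c, hb c]
      zero_mem' := fun c => smul_zero _
      neg_mem' := fun {a} ha c => by rw [smul_neg, ha c] }
  have hm : m ∈ Z := fun g => by
    have := eq_top_of_upper_lower (MulAction.stabilizer SL(2, F) m) h1 h2
    exact (this.ge (Subgroup.mem_top g) : g ∈ MulAction.stabilizer SL(2, F) m)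
  rcases h.irr Z (fun g m hm => by rw [hm g]; exact hm) with e | e
  · rwa [e] at hm
  · obtain ⟨g, x, hx⟩ := h.nt
    exact absurd ((e.ge (AddSubgroup.mem_top x) : x ∈ Z) g) hx

theorem IrrSL.fixU_ne_top (h : IrrSL F M) : fixU F M ≠ ⊤ := by
  intro e
  obtain ⟨g, x, hx⟩ := h.nt
  have h1 : x ∈ fixL F M := by
    have := nn_fixU (one_ne_zero (α := F)) (m := (nnSL (1 : F))⁻¹ • x) (e.ge (AddSubgroup.mem_top _))
    rwa [smul_inv_smul] at this
  rw [h.eq_zero (e.ge (AddSubgroup.mem_top x)) h1, smul_zero] at hx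
  exact hx rfl

theorem quadL_of_quadU (hq : ∀ (b : F) (m : M), upper b • m - m ∈ fixU F M) (b : F) (m : M) :
    lower b • m - m ∈ fixL F M := by
  have := nn_fixU (one_ne_zero (α := F)) (hq (-(1 ^ 2 * b)) ((nnSL (1 : F))⁻¹ • m))
  rwa [smul_sub, ← mul_smul, ← lower_mul_nnSL one_ne_zero, mul_smul, smul_inv_smul] at this

theorem IrrSL.lower_sub (h : IrrSL F M) (hq : ∀ (b : F) (m : M), upper b • m - m ∈ fixU F M)
    {c : F} (hc : c ≠ 0) {w : M} (hw : w ∈ fixU F M) : lower c • w - w = nnSL (-c⁻¹) • w := by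
  have ha : -c⁻¹ ≠ 0 := by simp [hc]
  have h1 : nnSL (-c⁻¹) • w = upper (-c⁻¹) • lower c • w := by
    rw [nnSL, mul_smul, mul_smul, hw]; simp
  have h2 := quadL_of_quadU hq c w
  refine sub_eq_zero.1 (h.eq_zero ?_ (sub_mem h2 (nn_fixU ha hw)))
  have : lower c • w - w - nnSL (-c⁻¹) • w = -(upper (-c⁻¹) • lower c • w - lower c • w) - w := by
    rw [h1]; abel
  rw [this]
  exact sub_mem (neg_mem (hq _ _)) hw

theorem IrrSL.upper_sub (h : IrrSL F M) (hq : ∀ (b : F) (m : M), upper b • m - m ∈ fixU F M)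
    {a : F} (ha : a ≠ 0) {w : M} (hw : w ∈ fixL F M) : upper a • w - w = nnSL a • w := by
  have h1 : nnSL a • w = lower (-a⁻¹) • upper a • w := by
    rw [nnSL_eq' ha, mul_smul, mul_smul, hw]
  refine sub_eq_zero.1 (h.eq_zero (sub_mem (hq a w) (nn_fixL ha hw)) ?_)
  have : upper a • w - w - nnSL a • w = -(lower (-a⁻¹) • upper a • w - upper a • w) - w := by
    rw [h1]; abel
  rw [this]
  exact sub_mem (neg_mem (quadL_of_quadU hq _ _)) hw

theorem IrrSL.natural (h : IrrSL F M) (hq : ∀ (b : F) (m : M), upper b • m - m ∈ fixU F M) :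
    ∃ Ψ : (Fin 2 → F) ≃+ M, ∀ (g : SL(2, F)) (x : Fin 2 → F),
      Ψ ((g : Matrix (Fin 2) (Fin 2) F) *ᵥ x) = g • Ψ x := by
  obtain ⟨v, hv, hv0⟩ : ∃ v ∈ fixU F M, v ≠ 0 := by
    by_contra! hc
    apply h.fixU_ne_top
    rw [eq_top_iff]
    intro m _ b
    exact sub_eq_zero.1 (hc _ (hq b m))
  have hqL := quadL_of_quadU hq
  let y' : F →+ M := AddMonoidHom.mk' (fun c => lower c • v - v) fun c d => by
    have := hqL d v c
    rw [smul_sub] at this
    rw [lower_add, mul_smul, sub_eq_iff_eq_add.1 this]; abel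
  let y : F →+ M := AddMonoidHom.mk' (fun a => upper a • y' 1 - y' 1) fun c d => by
    have := hq d (y' 1) c
    rw [smul_sub] at this
    rw [upper_add, mul_smul, sub_eq_iff_eq_add.1 this]; abel
  have hy' : ∀ c, y' c ∈ fixL F M := fun c => hqL c v
  have hy : ∀ a, y a ∈ fixU F M := fun a => hq a _
  have e' : ∀ c, c ≠ 0 → y' c = nnSL (-c⁻¹) • v := fun c hc => h.lower_sub hq hc hv
  have e : ∀ a, a ≠ 0 → y a = (nnSL a * nnSL (-1⁻¹)) • v := fun a ha => by
    rw [mul_smul, ← e' 1 one_ne_zero]; exact h.upper_sub hq ha (hy' 1)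
  have k1 : ∀ a c, upper a • y' c = y' c + y (a * c) := by
    intro a c
    by_cases ha : a = 0
    · simp [ha, upper_zero]
    by_cases hc : c = 0
    · simp [hc]
    rw [← sub_eq_iff_eq_add', h.upper_sub hq ha (hy' c), e' c hc, e _ (mul_ne_zero ha hc),
      ← mul_smul, nnSL_mul_two ha hc]
  have k2 : ∀ c a, lower c • y a = y a + y' (c * a) := by
    intro c a
    by_cases hc : c = 0
    · simp [hc, lower_zero]
    by_cases ha : a = 0
    · simp [ha]
    rw [← sub_eq_iff_eq_add', h.lower_sub hq hc (hy a), e a ha, e' _ (mul_ne_zero hc ha),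
      ← mul_smul, nnSL_mul_three ha hc]
  let Ψ : (Fin 2 → F) →+ M := AddMonoidHom.mk' (fun x => y (x 0) + y' (x 1)) fun x z => by
    simp only [Pi.add_apply, map_add]; abel
  have hΨ : ∀ x, Ψ x = y (x 0) + y' (x 1) := fun _ => rfl
  let E : Subgroup SL(2, F) :=
    { carrier := {g | ∀ x, Ψ ((g : Matrix (Fin 2) (Fin 2) F) *ᵥ x) = g • Ψ x}
      mul_mem' := fun {a b} ha hb x => by
        rw [Matrix.SpecialLinearGroup.coe_mul, ← Matrix.mulVec_mulVec, ha, hb, mul_smul]
      one_mem' := fun x => by simp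
      inv_mem' := fun {a} ha x => by
        rw [eq_inv_smul_iff, ← ha, Matrix.mulVec_mulVec, ← Matrix.SpecialLinearGroup.coe_mul]
        simp }
  have hE : E = ⊤ := by
    refine eq_top_of_upper_lower E (fun c x => ?_) (fun c x => ?_)
    · rw [hΨ, hΨ, smul_add, hy _ c, k1]
      simp [upper, Matrix.mulVec, dotProduct, Fin.sum_univ_two]
      abel
    · rw [hΨ, hΨ, smul_add, hy' _ c, k2]
      simp [lower, Matrix.mulVec, dotProduct, Fin.sum_univ_two]
      abel
  have hall : ∀ (g : SL(2, F)) x, Ψ ((g : Matrix (Fin 2) (Fin 2) F) *ᵥ x) = g • Ψ x :=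
    fun g => (hE.ge (Subgroup.mem_top g) : g ∈ E)
  have i' : ∀ c, y' c = 0 → c = 0 := fun c hc => by
    by_contra h0
    rw [e' c h0, smul_eq_zero_iff_eq] at hc
    exact hv0 hc
  have i : ∀ c, y c = 0 → c = 0 := fun c hc => by
    by_contra h0
    rw [e c h0, smul_eq_zero_iff_eq] at hc
    exact hv0 hc
  refine ⟨AddEquiv.ofBijective Ψ ⟨?_, ?_⟩, hall⟩
  · rw [injective_iff_map_eq_zero]
    intro x hx
    rw [hΨ] at hx
    have h1 : y (x 0) = 0 := h.eq_zero (hy _) (by
      rw [eq_neg_of_add_eq_zero_left hx]; exact neg_mem (hy' _))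
    rw [h1, zero_add] at hx
    ext j
    fin_cases j
    · exact i _ h1
    · exact i' _ hx
  · rw [← AddMonoidHom.range_eq_top]
    refine (h.irr Ψ.range ?_).resolve_left fun hb => ?_
    · rintro g _ ⟨x, rfl⟩
      exact ⟨_, hall g x⟩
    · have : Ψ ![0, 1] = 0 := AddSubgroup.mem_bot.1 (hb.le ⟨_, rfl⟩)
      rw [hΨ] at this
      simpa using i' 1 (by simpa using this)

theorem eq_bot_of_le_iSup_map {ι : Type*} (D : ι → AddMonoid.End M)
    (hc : ∀ a b, D a * D b = D b * D a) (hn : ∀ a, ∃ k, D a ^ k = 0) (s : Finset ι)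
    (N : AddSubgroup M) (hinv : ∀ a, N.map (D a : M →+ M) ≤ N)
    (h : N ≤ ⨆ a ∈ s, N.map (D a : M →+ M)) : N = ⊥ := by
  classical
  induction s using Finset.induction_on with
  | empty => simpa using h
  | insert a s _ ih =>
    apply ih
    rw [Finset.iSup_insert] at h
    have hS : (⨆ b ∈ s, N.map (D b : M →+ M)).map (D a : M →+ M) ≤
        ⨆ b ∈ s, N.map (D b : M →+ M) := by
      rw [AddSubgroup.map_le_iff_le_comap]
      refine iSup₂_le fun b hb => ?_
      rintro _ ⟨x, hx, rfl⟩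
      refine le_iSup₂_of_le (f := fun b (_ : b ∈ s) => N.map (D b : M →+ M)) b hb le_rfl
        ⟨D a x, hinv a ⟨x, hx, rfl⟩, ?_⟩
      exact DFunLike.congr_fun (hc b a) x
    have key : ∀ k : ℕ, N ≤ N.map ((D a ^ k : AddMonoid.End M) : M →+ M) ⊔
        ⨆ b ∈ s, N.map (D b : M →+ M) := by
      intro k
      induction k with
      | zero => exact le_sup_of_le_left fun x hx => ⟨x, hx, rfl⟩
      | succ k ihk =>
        refine h.trans (sup_le ((AddSubgroup.map_mono ihk).trans ?_) le_sup_right)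
        rw [AddSubgroup.map_sup]
        refine sup_le_sup ?_ hS
        rintro _ ⟨_, ⟨x, hx, rfl⟩, rfl⟩
        exact ⟨x, hx, by rw [pow_succ']; rfl⟩
    obtain ⟨k, hk⟩ := hn a
    refine (key k).trans (sup_le ?_ le_rfl)
    rintro _ ⟨x, -, rfl⟩
    rw [hk]
    exact zero_mem _

theorem IrrSL.quad_of_card [Finite F] [Finite M] {p : ℕ} [Fact p.Prime] [CharP F p]
    (hp : ∀ m : M, p • m = 0) (h : IrrSL F M) (hc : Nat.card M ≤ Nat.card (fixU F M) ^ 2)
    (b : F) (m : M) : upper b • m - m ∈ fixU F M := by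
  classical
  let ρ := DistribMulAction.toAddMonoidEnd SL(2, F) M
  let D : F → AddMonoid.End M := fun b => ρ (upper b) - 1
  have hD : ∀ b m, D b m = upper b • m - m := fun _ _ => rfl
  let N : AddSubgroup M := ⨆ b, (D b : M →+ M).range
  have hN : ∀ b m, upper b • m - m ∈ N := fun b m =>
    le_iSup (fun b => (D b : M →+ M).range) b ⟨m, rfl⟩
  -- `M = W ⊕ W'`
  have hsum : fixU F M ⊔ fixL F M = ⊤ := by
    have hd : fixU F M ⊓ fixL F M = ⊥ := eq_bot_iff.2 fun x hx => h.eq_zero hx.1 hx.2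
    have h1 : Nat.card (fixU F M) ≤ Nat.card (fixL F M) :=
      Nat.card_le_card_of_injective
        (fun x => (⟨nnSL (1 : F) • x.1, nn_fixU one_ne_zero x.2⟩ : fixL F M))
        fun x y hxy => Subtype.ext (MulAction.injective (nnSL (1 : F)) (congrArg Subtype.val hxy))
    let f : fixU F M × fixL F M → M := fun x => x.1.1 + x.2.1
    have hf : Function.Injective f := by
      rintro ⟨x, y⟩ ⟨x', y'⟩ e
      change x.1 + y.1 = x'.1 + y'.1 at e
      have h2 : x.1 - x'.1 = y'.1 - y.1 := by rw [sub_eq_sub_iff_add_eq_add, e, add_comm]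
      have h3 : x.1 - x'.1 = 0 := h.eq_zero (sub_mem x.2 x'.2) (h2 ▸ sub_mem y'.2 y.2)
      rw [h3] at h2
      exact Prod.ext (Subtype.ext (sub_eq_zero.1 h3)) (Subtype.ext (sub_eq_zero.1 h2.symm).symm)
    have hb : Function.Bijective f := by
      refine hf.bijective_of_nat_card_le ?_
      rw [Nat.card_prod]
      exact hc.trans (by rw [sq]; exact Nat.mul_le_mul_left _ h1)
    rw [eq_top_iff]
    intro x _
    obtain ⟨⟨a, b⟩, rfl⟩ := hb.2 x
    exact AddSubgroup.add_mem_sup a.2 b.2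
  -- `W + [M, U]` is proper
  have hne : fixU F M ⊔ N ≠ ⊤ := by
    intro e
    obtain ⟨g0, x0, hx0⟩ := h.nt
    have : Nontrivial (AddMonoid.End M) := ⟨⟨ρ g0, 1, fun e => hx0 (DFunLike.congr_fun e x0)⟩⟩
    have hp' : (p : AddMonoid.End M) = 0 := by
      ext v
      rw [AddMonoid.End.natCast_apply]
      exact hp v
    have : CharP (AddMonoid.End M) p := (CharP.charP_iff_prime_eq_zero Fact.out).2 hp'
    have := Fintype.ofFinite F
    have h0 : N = ⊥ := by
      refine eq_bot_of_le_iSup_map D (fun a b => ?_) (fun a => ⟨p, ?_⟩) Finset.univ N ?_ ?_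
      · have : Commute (ρ (upper a)) (ρ (upper b)) := by
          refine Commute.map ?_ ρ
          rw [Commute, SemiconjBy, ← upper_add, ← upper_add, add_comm]
        exact (this.sub_left (Commute.one_left _)).sub_right (Commute.one_right _)
      · rw [sub_pow_char_of_commute p (Commute.one_right _), ← map_pow, upper_pow_char, map_one,
          one_pow, sub_self]
      · rintro a _ ⟨x, -, rfl⟩
        exact hN a x
      · refine iSup_le fun a => ?_
        rintro _ ⟨x, rfl⟩
        obtain ⟨w, hw, n, hn, rfl⟩ := AddSubgroup.mem_sup.1 (e.ge (AddSubgroup.mem_top x))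
        refine le_iSup₂_of_le (f := fun b (_ : b ∈ (Finset.univ : Finset F)) =>
          N.map (D b : M →+ M)) a (Finset.mem_univ a) le_rfl ⟨n, hn, ?_⟩
        change D a n = D a (w + n)
        rw [hD, hD, smul_add, hw a]; abel
    rw [h0, sup_bot_eq] at e
    exact h.fixU_ne_top e
  -- Borel invariance
  have hB : ∀ g : SL(2, F), g 1 0 = 0 → ∀ x ∈ fixU F M ⊔ N, g • x ∈ fixU F M ⊔ N := by
    intro g hg x hx
    have : fixU F M ⊔ N ≤ (fixU F M ⊔ N).comap (ρ g : M →+ M) := by
      refine sup_le (fun w hw => AddSubgroup.mem_sup_left fun c => ?_) (iSup_le fun a => ?_)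
      · have h1 : g⁻¹ 1 0 = 0 := by rw [inv_apply10, hg, neg_zero]
        have := conj_upper h1 c
        rw [inv_inv, mul_assoc, inv_mul_eq_iff_eq_mul] at this
        change upper c • g • w = g • w
        rw [← mul_smul, this, mul_smul, hw]
      · rintro _ ⟨y, rfl⟩
        refine AddSubgroup.mem_sup_right ?_
        change g • (upper a • y - y) ∈ N
        have := conj_upper hg a
        rw [mul_inv_eq_iff_eq_mul] at this
        rw [smul_sub, ← mul_smul, this, mul_smul]
        exact hN _ _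
    exact this hx
  let Z : AddSubgroup M :=
    { carrier := {m | ∀ g : SL(2, F), g • m ∈ fixU F M ⊔ N}
      add_mem' := fun {a b} ha hb c => by rw [smul_add]; exact add_mem (ha c) (hb c)
      zero_mem' := fun c => by rw [smul_zero]; exact zero_mem _
      neg_mem' := fun {a} ha c => by rw [smul_neg]; exact neg_mem (ha c) }
  have hZ : Z = ⊥ := by
    refine (h.irr Z fun g m hm g' => by rw [← mul_smul]; exact hm _).resolve_right fun e => hne ?_
    rw [eq_top_iff]
    intro x _
    have := (e.ge (AddSubgroup.mem_top x) : x ∈ Z) 1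
    rwa [one_smul] at this
  have hX : ∀ x ∈ fixU F M ⊔ N, x ∈ fixL F M → x = 0 := by
    intro x hx hx'
    refine AddSubgroup.mem_bot.1 (hZ.le fun g => ?_)
    by_cases hg : g 1 1 = 0
    · refine AddSubgroup.mem_sup_left fun c => ?_
      have hd := det_eq g
      rw [hg, mul_zero, zero_sub] at hd
      have : upper c * g = g * lower (-(c * g 1 0 ^ 2)) := by
        apply sl2_ext <;> simp [upper, lower, Matrix.mul_apply, Fin.sum_univ_two, hg]
        linear_combination (-(c * g 1 0)) * hd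
      rw [← mul_smul, this, mul_smul, hx']
    · have := hB (g * lower (-(g 1 0 / g 1 1))) (by
        simp [lower, Matrix.mul_apply, Fin.sum_univ_two]
        field_simp
        ring) x hx
      rwa [mul_smul, hx'] at this
  obtain ⟨w, hw, w', hw', e⟩ := AddSubgroup.mem_sup.1
    (hsum.ge (AddSubgroup.mem_top (upper b • m - m)))
  have h1 : w' = 0 := hX w' (by
    rw [eq_sub_of_add_eq' e]
    exact sub_mem (AddSubgroup.mem_sup_right (hN b m)) (AddSubgroup.mem_sup_left hw)) hw'
  rw [← e, h1, add_zero]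
  exact hw

end Cfsg.Agent.Mix26
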