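import Mathlib
import Cfsg.Agent.Mix26.Qd2
import Cfsg.Agent.PLocal.Stable
import Cfsg.Agent.Push.PSL
import Cfsg.Prelude.Def_BaumannBlocks

/-! Transfer of the `SL₂(F)`-module lemmas to conjugation actions. -/

set_option autoImplicit false
set_option backward.isDefEq.respectTransparency false
open Cfsg Subgroup
open scoped MatrixGroups Matrix commutatorElement Pointwise

namespace Cfsg.Agent.Mix26
open Cfsg.Agent.Classical.SL2Basic Cfsg.Agent.Classical.Borel2 Cfsg.Agent.PLocal

theorem exists_equiv_sylow {G : Type*} [Group G] {p : ℕ} [Fact p.Prime] {F : Type*} [Field F]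
    [Finite F] [CharP F p] (e : G ≃* SL(2, F)) (S : Sylow p G) :
    ∃ e' : SL(2, F) ≃* G, ∀ x : G, x ∈ S ↔ ∃ b, e' (upper b) = x := by
  haveI : Finite G := Finite.of_equiv _ e.symm.toEquiv
  obtain ⟨c, hc⟩ := MulAction.exists_smul_eq SL(2, F) (sylSL F p)
    (S.mapSurjective (f := e.toMonoidHom) e.surjective)
  refine ⟨(MulAut.conj c).trans e.symm, fun x => ?_⟩
  have h1 : x ∈ S ↔ e x ∈ S.mapSurjective (f := e.toMonoidHom) e.surjective :=
    (mem_map_iff_mem (f := e.toMonoidHom) e.injective).symm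
  rw [h1, ← hc]
  change e x ∈ ((c • sylSL F p : Sylow p SL(2, F)) : Subgroup SL(2, F)) ↔ _
  rw [Sylow.coe_subgroup_smul, coe_sylSL, mem_smul_pointwise_iff_exists]
  constructor
  · rintro ⟨y, hy, h⟩
    obtain ⟨b, rfl⟩ := mem_USL.1 hy
    exact ⟨b, by rw [MulEquiv.trans_apply, MulEquiv.symm_apply_eq]; exact h⟩
  · rintro ⟨b, h⟩
    rw [MulEquiv.trans_apply, MulEquiv.symm_apply_eq] at h
    exact ⟨_, mem_USL.2 ⟨b, rfl⟩, h⟩

open scoped IsMulCommutative in
/-- The conjugation action on an abelian subgroup along a homomorphism. -/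
@[reducible] noncomputable def conjAct {X Γ : Type*} [Group X] [Group Γ] {H V : Subgroup X}
    [IsMulCommutative V] (hHV : H ≤ normalizer (V : Set X)) (ι : Γ →* H) :
    DistribMulAction Γ (Additive V) :=
  DistribMulAction.compHom (Additive V) ((conjEnd V).comp ((inclusion hHV).comp ι))

open scoped IsMulCommutative in
theorem natural_of_hyp {X : Type*} [Group X] [Finite X] {p : ℕ} [Fact p.Prime] (G V : Subgroup X)
    (hV : Cfsg.IsElementaryAbelian p V) (hGV : G ≤ Subgroup.normalizer (V : Set X)) (F : Type*)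
    [Field F] [Finite F] [CharP F p] (e : SL(2, F) ≃* G)
    (hirr : ∀ U : Subgroup X, U ≤ V → G ≤ Subgroup.normalizer (U : Set X) → U = ⊥ ∨ U = V)
    (hnt : ⁅V, G⁆ ≠ ⊥) (A : Subgroup X) (hA : ∀ x, x ∈ A ↔ ∃ b, (e (upper b) : X) = x)
    (hyp : ⁅⁅V, A⁆, A⁆ = ⊥ ∨
      Nat.card V ≤ Nat.card ↥(V ⊓ Subgroup.centralizer (A : Set X)) ^ 2) :
    Cfsg.ActsAsSL2OnSection F ⊤ G V ⊥ := by
  haveI := hV.1
  letI := conjAct hGV e.toMonoidHom
  have hs : ∀ (g : SL(2, F)) (v : Additive V), ((Additive.toMul (g • v) : V) : X) =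
      (e g : X) * (Additive.toMul v : V) * (e g : X)⁻¹ := fun _ _ => rfl
  have hfix : ∀ v : Additive V, v ∈ fixU F (Additive V) ↔
      ((Additive.toMul v : V) : X) ∈ Subgroup.centralizer (A : Set X) := by
    intro v
    constructor
    · intro h a ha
      obtain ⟨b, rfl⟩ := (hA a).1 ha
      have := hs (upper b) v
      rw [h b] at this
      exact mul_inv_eq_iff_eq_mul.1 this.symm
    · intro h b
      apply Additive.toMul.injective
      apply Subtype.ext
      rw [hs, h _ ((hA _).2 ⟨b, rfl⟩), mul_inv_cancel_right]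
  have hI : IrrSL F (Additive V) := by
    constructor
    · intro N hN
      let U : Subgroup X := (AddSubgroup.toSubgroup' N).map V.subtype
      have hU : ∀ g : G, ∀ u ∈ U, (g : X) * u * (g : X)⁻¹ ∈ U := by
        rintro g _ ⟨v, hv, rfl⟩
        obtain ⟨g, rfl⟩ := e.surjective g
        exact ⟨_, hN g (Additive.ofMul v) hv, hs g _⟩
      rcases hirr U (map_subtype_le _) (fun g hg x => ⟨hU ⟨g, hg⟩ x, fun h => by
        have := hU ⟨g, hg⟩⁻¹ _ h
        simpa [mul_assoc] using this⟩) with h | h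
      · left
        rw [Subgroup.map_eq_bot_iff_of_injective _ (subtype_injective _)] at h
        rw [eq_bot_iff]
        intro x hx
        exact (h.le (hx : Additive.toMul x ∈ AddSubgroup.toSubgroup' N) :)
      · right
        rw [eq_top_iff]
        intro x _
        obtain ⟨y, hy, h'⟩ := h.ge (Additive.toMul x).2
        have : y = Additive.toMul x := Subtype.ext h'
        subst this
        exact hy
    · by_contra! hc
      apply hnt
      rw [Subgroup.commutator_comm, commutator_eq_bot_iff_le_centralizer]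
      intro g hg v hv
      obtain ⟨g', h⟩ := e.surjective ⟨g, hg⟩
      have := hs g' (Additive.ofMul ⟨v, hv⟩)
      rw [hc, h] at this
      exact (mul_inv_eq_iff_eq_mul.1 this.symm).symm
  have hq : ∀ (b : F) (m : Additive V), upper b • m - m ∈ fixU F (Additive V) := by
    rcases hyp with h | h
    · intro b m
      rw [hfix]
      refine commutator_eq_bot_iff_le_centralizer.1 h ?_
      rw [Subgroup.commutator_comm V, toMul_sub, div_eq_mul_inv, coe_mul, hs, coe_inv]
      exact commutator_mem_commutator ((hA _).2 ⟨b, rfl⟩) (Additive.toMul m).2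
    · refine hI.quad_of_card (p := p) (fun m => ?_) ?_
      · apply Additive.toMul.injective
        apply Subtype.ext
        simpa using hV.2 _ (Additive.toMul m).2
      · refine h.trans (Nat.pow_le_pow_left ?_ 2)
        refine Nat.card_le_card_of_injective (fun x => (⟨Additive.ofMul ⟨x.1, x.2.1⟩,
          (hfix _).2 x.2.2⟩ : fixU F (Additive V))) fun x y hxy => Subtype.ext ?_
        exact congrArg (fun z : fixU F (Additive V) => ((Additive.toMul z.1 : V) : X)) hxy
  obtain ⟨Ψ, hΨ⟩ := hI.natural hq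
  refine ⟨hGV, bot_le, e.symm.toMonoidHom,
    AddMonoidHom.toMultiplicativeRight Ψ.symm.toAddMonoidHom, ?_, ?_, ?_, ?_⟩
  · exact MonoidHom.range_eq_top.2 e.symm.surjective
  · intro x
    exact ⟨Additive.toMul (Ψ x.toAdd), by simp⟩
  · intro u
    simp
  · intro g u
    obtain ⟨g, rfl⟩ := e.surjective g
    refine ⟨Additive.toMul (g • Additive.ofMul u), hs _ _, ?_⟩
    apply Ψ.injective
    change Ψ (Ψ.symm (g • Additive.ofMul u)) =
      Ψ (((e.symm (e g) : SL(2, F)) : Matrix (Fin 2) (Fin 2) F) *ᵥ Ψ.symm (Additive.ofMul u))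
    rw [hΨ, e.symm_apply_apply, Ψ.apply_symm_apply, Ψ.apply_symm_apply]

end Cfsg.Agent.Mix26
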