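import Mathlib
import Cfsg.Agent.Mix26.Ru1

set_option autoImplicit false
set_option linter.unusedSectionVars false
open Subgroup
open scoped commutatorElement

namespace Cfsg.Agent.Mix26

variable {T : Type*} [Group T] [Finite T]

local notation "Z" => Subgroup.upperCentralSeries T

structure RuH (W : Subgroup T) : Prop where
  hT : IsPGroup 2 T
  ha : 2 ^ 14 ≤ Nat.card T
  hb : Nat.card (Z 4) = 16
  hW : W = centralizer ((Z 3 : Subgroup T) : Set T)
  hc : Nat.card (frattini W) ≤ 8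
  hd : ∀ U : Subgroup W, U.index ≤ 16 → frattini W ≤ U

theorem ru_zs {i : ℕ} {x : T} : x ∈ Z (i + 1) ↔ ∀ y, ⁅x, y⁆ ∈ Z i :=
  Subgroup.mem_upperCentralSeries_succ_iff

theorem ru_z1 {x : T} (h : x ∈ Z 1) (g : T) : g * x = x * g := by
  rw [Subgroup.upperCentralSeries_one] at h
  exact mem_center_iff.1 h g

namespace RuH
variable {W : Subgroup T} (h : RuH W)
include h

theorem c1 : Nat.card (Z 1) = 2 := (ru_zc h.hT h.ha h.hb).2.1
theorem c2 : Nat.card (Z 2) = 4 := (ru_zc h.hT h.ha h.hb).2.2.1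
theorem c3 : Nat.card (Z 3) = 8 := (ru_zc h.hT h.ha h.hb).2.2.2
theorem zr {i : ℕ} (hi : i ≤ 3) : (Z i).relIndex (Z (i + 1)) = 2 := ru_zr h.hT h.ha h.hb hi
theorem step (N : Subgroup T) [N.Normal] (i : ℕ) (hi : i ≤ 3) (hN : ¬ N ≤ Z i) : Z (i + 1) ≤ N :=
  ru_step h.hT h.ha h.hb N i hi hN

theorem normal : W.Normal := by rw [h.hW]; infer_instance

theorem comm {w z : T} (hw : w ∈ W) (hz : z ∈ Z 3) : z * w = w * z := by
  rw [h.hW] at hw; exact hw z hz

theorem ex {i : ℕ} (hi : i ≤ 3) : ∃ z ∈ Z (i + 1), z ∉ Z i := by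
  by_contra hc
  push Not at hc
  have := h.zr hi
  rw [relIndex_eq_one.2 hc] at this
  omega

theorem sup_eq {i : ℕ} (hi : i ≤ 3) {z : T} (h1 : z ∈ Z (i + 1)) (h2 : z ∉ Z i) :
    Z i ⊔ zpowers z = Z (i + 1) :=
  PGrp.sup_zpowers_eq_of_relIndex_prime Nat.prime_two (h.zr hi) (ru_zle (by omega)) h1 h2

theorem W_eq {z2 z3 : T} (a2 : z2 ∈ Z 2) (b2 : z2 ∉ Z 1) (a3 : z3 ∈ Z 3) (b3 : z3 ∉ Z 2) :
    W = centralizer {z2} ⊓ centralizer {z3} := by
  rw [h.hW, ← h.sup_eq (i := 2) (by omega) a3 b3, ← h.sup_eq (i := 1) (by omega) a2 b2,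
    PGrp.centralizer_sup_zpowers, PGrp.centralizer_sup_zpowers, Subgroup.upperCentralSeries_one,
    centralizer_center_eq_top']
  · simp
where centralizer_center_eq_top' : centralizer ((center T : Subgroup T) : Set T) = ⊤ :=
  centralizer_eq_top_iff_subset.2 le_rfl

theorem idx2 {z2 : T} (a2 : z2 ∈ Z 2) : (centralizer {z2} : Subgroup T).index ≤ 2 :=
  h.c1 ▸ PGrp.index_centralizer_singleton_le fun g => PGrp.commutator_symm_mem (ru_zs.1 a2 g)

theorem idx3 {z3 : T} (a3 : z3 ∈ Z 3) (H : Subgroup T) :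
    (centralizer {z3} : Subgroup T).relIndex H ≤ 4 :=
  h.c2 ▸ PGrp.relIndex_centralizer_singleton_le fun g _ => PGrp.commutator_symm_mem (ru_zs.1 a3 g)

theorem idx_le : W.index ≤ 8 := by
  obtain ⟨z2, a2, b2⟩ := h.ex (i := 1) (by omega)
  obtain ⟨z3, a3, b3⟩ := h.ex (i := 2) (by omega)
  have h1 := h.idx2 a2
  have h2 := h.idx3 a3 ⊤
  rw [relIndex_top_right] at h2
  rw [h.W_eq a2 b2 a3 b3]
  exact index_inf_le.trans (Nat.mul_le_mul h1 h2)

theorem card_ge : 2 ^ 11 ≤ Nat.card W := by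
  have h1 := W.card_mul_index
  have h2 := Nat.mul_le_mul_left (Nat.card W) h.idx_le
  have := h.ha
  omega

theorem z4_le : Z 4 ≤ W := by
  haveI := h.normal
  refine h.step W 3 le_rfl fun hc => ?_
  have := card_le_of_le hc
  have := h.card_ge
  have := h.c3
  omega

theorem z3_le : Z 3 ≤ W := (ru_zle (by omega)).trans h.z4_le

theorem pW : IsPGroup 2 W := h.hT.to_subgroup W

theorem phi_le : (frattini W).map W.subtype ≤ Z 3 := by
  haveI := h.normal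
  by_contra hc
  have := card_le_of_le (h.step _ 3 le_rfl hc)
  rw [card_map_of_injective W.subtype_injective, h.hb] at this
  have := h.hc
  omega

theorem sq {x : T} (hx : x ∈ W) : x ^ 2 ∈ Z 3 :=
  haveI : Fact (Nat.Prime 2) := ⟨Nat.prime_two⟩
  h.phi_le (PGrp.pow_mem_map_frattini h.pW hx)

theorem cm {x y : T} (hx : x ∈ W) (hy : y ∈ W) : ⁅x, y⁆ ∈ Z 3 :=
  ru_comm_of_sq (fun _ => h.sq) hx hy

theorem free : Nat.card W ≤ 8 * 2 ^ W.index ∧ (Nat.card W = 8 * 2 ^ W.index →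
      ∃ w ∈ W, ∀ K : Subgroup T, K.Normal → Z 3 ≤ K → w ∈ K → W ≤ K) := by
  haveI := h.normal
  have := ru_free h.hT (C := W) h.z3_le (fun _ => h.sq) (fun _ a _ b => h.cm a b) (h.zr le_rfl)
    fun v hv => ru_zs.2 hv
  rwa [h.c3] at this

theorem idx : W.index = 8 := by
  have h1 := W.card_mul_index
  have h2 := h.idx_le
  have h3 := h.free.1
  have h4 := h.card_ge
  by_contra hc
  have : 2 ^ W.index ≤ 2 ^ 7 := Nat.pow_le_pow_right (by omega) (by omega)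
  omega

theorem cW : Nat.card W = 2 ^ 11 := by
  have h3 := h.free.1
  have h4 := h.card_ge
  rw [h.idx] at h3
  omega

theorem cT : Nat.card T = 2 ^ 14 := by
  rw [← W.card_mul_index, h.cW, h.idx]; norm_num

theorem gen : ∃ w ∈ W, ∀ K : Subgroup T, K.Normal → Z 3 ≤ K → w ∈ K → W ≤ K :=
  h.free.2 (by rw [h.cW, h.idx]; norm_num)

theorem phi_eq : (frattini W).map W.subtype = Z 3 := by
  haveI := h.normal
  haveI : Fact (Nat.Prime 2) := ⟨Nat.prime_two⟩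
  refine le_antisymm h.phi_le (h.step _ 2 (by omega) fun hc => ?_)
  have hs : ∀ x ∈ W, x ^ 2 ∈ Z 2 := fun x hx => hc (PGrp.pow_mem_map_frattini h.pW hx)
  have := (ru_free h.hT (C := W) ((ru_zle (by omega)).trans h.z3_le) hs
    (fun _ a _ b => ru_comm_of_sq hs a b) (h.zr (by omega)) fun v hv => ru_zs.2 hv).1
  rw [h.c2, h.cW, h.idx] at this
  omega

theorem z3_le_of {U : Subgroup T} (hU : U ≤ W) (hc : 2 ^ 7 ≤ Nat.card U) : Z 3 ≤ U := by
  have h1 := PGrp.card_eq_card_mul_relIndex hU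
  rw [h.cW] at h1
  have h2 : U.relIndex W ≤ 16 := by
    by_contra hh
    have := Nat.mul_le_mul hc (show 17 ≤ U.relIndex W by omega)
    omega
  rw [← h.phi_eq]
  exact (map_mono (h.hd (U.subgroupOf W) h2)).trans (by rw [subgroupOf_map_subtype]; exact inf_le_left)

theorem big {X : Subgroup T} (h1 : X ≤ W) (h2 : Z 3 ≤ X) (h3 : ∀ x ∈ X, x ^ 2 ∈ Z 2) :
    Nat.card X < 2 ^ 8 := by
  obtain ⟨z3, a3, b3⟩ := h.ex (i := 2) (by omega)
  obtain ⟨U, u1, u2, u3, u4⟩ := ru_avoid ((ru_zle (by omega)).trans h2) h3 (h2 a3) b3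
  by_contra hc
  have := PGrp.card_eq_card_mul_relIndex u2
  rw [u4] at this
  exact u3 (h.z3_le_of (u2.trans h1) (by omega) a3)

theorem cml {x y z : T} (hx : x ∈ W) (hy : y ∈ W) (hz : z ∈ W) : ⁅x * y, z⁆ = ⁅y, z⁆ * ⁅x, z⁆ :=
  PGrp.commutator_mul_left_of_commute (h.comm hx (h.cm hy hz)).symm

theorem cmr {x y z : T} (hx : x ∈ W) (hy : y ∈ W) (hz : z ∈ W) : ⁅z, x * y⁆ = ⁅z, x⁆ * ⁅z, y⁆ :=
  PGrp.commutator_mul_right_of_commute (h.comm hx (h.cm hz hy)).symm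

theorem sqm {x y : T} (hx : x ∈ W) (hy : y ∈ W) : (x * y) ^ 2 = x ^ 2 * y ^ 2 * ⁅y, x⁆ := by
  rw [PGrp.mul_pow_of_commute (h.comm hx (h.cm hy hx)).symm (h.comm hy (h.cm hy hx)).symm]; simp

/-- singular radical -/
def M : Subgroup T where
  carrier := {y | y ∈ W ∧ y ^ 2 ∈ Z 2 ∧ ∀ x ∈ W, ⁅x, y⁆ ∈ Z 2}
  one_mem' := ⟨one_mem _, by simp, by simp⟩
  mul_mem' := by
    rintro a b ⟨a1, a2, a3⟩ ⟨b1, b2, b3⟩
    refine ⟨mul_mem a1 b1, ?_, fun x hx => ?_⟩
    · rw [h.sqm a1 b1]; exact mul_mem (mul_mem a2 b2) (a3 b b1)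
    · rw [h.cmr a1 b1 hx]; exact mul_mem (a3 x hx) (b3 x hx)
  inv_mem' := by
    rintro a ⟨a1, a2, a3⟩
    refine ⟨inv_mem a1, by rw [inv_pow]; exact inv_mem a2, fun x hx => ?_⟩
    have := h.cmr a1 (inv_mem a1) hx
    rw [mul_inv_cancel, commutatorElement_one_right] at this
    rw [eq_inv_of_mul_eq_one_right this.symm]
    exact inv_mem (a3 x hx)

theorem M_le : h.M ≤ W := fun _ a => a.1

theorem z3_le_M : Z 3 ≤ h.M := fun z hz => by
  refine ⟨h.z3_le hz, ?_, fun x hx => ?_⟩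
  · rw [pow_two]; exact (ru_two (h.zr (i := 2) (by omega)) hz hz).2 Iff.rfl
  · rw [commutatorElement_eq_one_iff_mul_comm.2 (h.comm hx hz).symm]; exact one_mem _

theorem nrm {U : Subgroup T} (h1 : Z 3 ≤ U) (h2 : U ≤ W) {x : T} (hx : x ∈ W) :
    x ∈ normalizer (U : Set T) := ru_norm (fun _ => h.sq) h1 h2 hx

theorem M_lt : Nat.card h.M < 2 ^ 8 := h.big h.M_le h.z3_le_M fun _ a => a.2.1

theorem M_small : Nat.card h.M < 2 ^ 7 := by
  by_contra hc
  have hlt := h.M_lt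
  have A : ∀ x ∈ W, x ∉ h.M → x ^ 2 ∉ Z 2 := by
    intro x hx hxM hx2
    have h1 := PGrp.card_sup_zpowers Nat.prime_two (h.nrm h.z3_le_M h.M_le hx)
      (h.z3_le_M (h.sq hx)) hxM
    have := h.big (X := h.M ⊔ zpowers x) (sup_le h.M_le (zpowers_le.2 hx))
      (h.z3_le_M.trans le_sup_left) fun y hy => by
        obtain ⟨m, hm, k, rfl⟩ := (PGrp.mem_sup_zpowers_nat (h.nrm h.z3_le_M h.M_le hx)).1 hy
        rw [h.sqm hm.1 (pow_mem hx k), ← pow_mul, mul_comm k 2, pow_mul]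
        exact mul_mem (mul_mem hm.2.1 (pow_mem hx2 _)) (hm.2.2 _ (pow_mem hx k))
    omega
  have B : ∀ U : Subgroup T, h.M ≤ U → U ≤ W → Nat.card U < 2 ^ 11 →
      ∃ a ∈ W, a ∉ U ∧ Nat.card (U ⊔ zpowers a : Subgroup T) = Nat.card U * 2 := by
    intro U h1 h2 h3
    have : ¬ W ≤ U := fun hh => by have := card_le_of_le hh; rw [h.cW] at this; omega
    obtain ⟨a, ha, haU⟩ := SetLike.not_le_iff_exists.1 this
    exact ⟨a, ha, haU, PGrp.card_sup_zpowers Nat.prime_two (h.nrm (h.z3_le_M.trans h1) h2 ha)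
      (h1 (h.z3_le_M (h.sq ha))) haU⟩
  obtain ⟨a, ha, haM, ca⟩ := B h.M le_rfl h.M_le (by omega)
  have l1 : h.M ⊔ zpowers a ≤ W := sup_le h.M_le (zpowers_le.2 ha)
  obtain ⟨b, hb, hbM, cb⟩ := B _ le_sup_left l1 (by omega)
  obtain ⟨c, hc, hcM, -⟩ := B (h.M ⊔ zpowers a ⊔ zpowers b) (le_sup_left.trans le_sup_left)
    (sup_le l1 (zpowers_le.2 hb)) (by omega)
  have ma : a ∈ h.M ⊔ zpowers a := mem_sup_right (mem_zpowers a)
  have ma' : a ∈ h.M ⊔ zpowers a ⊔ zpowers b := mem_sup_left ma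
  have mb : b ∈ h.M ⊔ zpowers a ⊔ zpowers b := mem_sup_right (mem_zpowers b)
  have l2 : h.M ≤ h.M ⊔ zpowers a ⊔ zpowers b := le_sup_left.trans le_sup_left
  obtain ⟨z3, a3, b3⟩ := h.ex (i := 2) (by omega)
  let π := QuotientGroup.mk' (Z 2)
  have C : ∀ x ∈ W, x ∉ h.M → π x ^ 2 = π z3 := fun x hx hxM => by
    rw [← map_pow]
    refine QuotientGroup.eq.2 ((ru_two (h.zr (i := 2) (by omega)) (inv_mem (h.sq hx)) a3).2 ?_)
    simp only [inv_mem_iff, A x hx hxM, b3]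
  have := ru_three (z := π z3) (a := π a) (b := π b) (c := π c) (fun g => by
      obtain ⟨g, rfl⟩ := QuotientGroup.mk'_surjective (Z 2) g
      rw [← commutatorElement_eq_one_iff_mul_comm, ← map_commutatorElement]
      exact (QuotientGroup.eq_one_iff _).2 (PGrp.commutator_symm_mem (ru_zs.1 a3 g)))
    (by rw [← map_mul]
        exact (QuotientGroup.eq_one_iff _).2 ((ru_two (h.zr (i := 2) (by omega)) a3 a3).2 Iff.rfl))
    (C a ha haM) (C b hb fun hh => hbM (mem_sup_left hh)) (C c hc fun hh => hcM (l2 hh))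
    (by rw [← map_mul]
        exact C _ (mul_mem ha hb) fun hh => hbM ((mul_mem_cancel_left ma).1 (mem_sup_left hh)))
    (by rw [← map_mul]
        exact C _ (mul_mem ha hc) fun hh => hcM ((mul_mem_cancel_left ma').1 (l2 hh)))
    (by rw [← map_mul]
        exact C _ (mul_mem hb hc) fun hh => hcM ((mul_mem_cancel_left mb).1 (l2 hh)))
  rw [← map_mul, ← map_mul, ← map_pow] at this
  exact A _ (mul_mem (mul_mem ha hb) hc)
    (fun hh => hcM ((mul_mem_cancel_left (mul_mem ma' mb)).1 (l2 hh))) ((QuotientGroup.eq_one_iff _).1 this)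

theorem der_eq : ⁅W, W⁆ = Z 3 := by
  haveI := h.normal
  refine le_antisymm (commutator_le.2 fun _ a _ b => h.cm a b) (h.step _ 2 (by omega) fun hc => ?_)
  have A : ∀ x ∈ W, x ^ 2 ∈ Z 2 → x ∈ h.M := fun x hx h2 =>
    ⟨hx, h2, fun y hy => hc (commutator_mem_commutator hy hx)⟩
  have : h.M.relIndex W ∣ 2 := by
    rw [relIndex, index_dvd_two_iff]
    by_cases hh : W ≤ h.M
    · exact ⟨1, fun b => Or.inr (hh b.2)⟩
    obtain ⟨a, ha, haM⟩ := SetLike.not_le_iff_exists.1 hh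
    refine ⟨⟨a, ha⟩, fun b => or_iff_not_imp_right.2 fun hb => A _ (mul_mem b.2 ha) ?_⟩
    show ((b : T) * a) ^ 2 ∈ Z 2
    rw [h.sqm b.2 ha]
    refine mul_mem ((ru_two (h.zr (i := 2) (by omega)) (h.sq b.2) (h.sq ha)).2 ?_)
      (hc (commutator_mem_commutator ha b.2))
    exact iff_of_false (fun hh => hb (A _ b.2 hh)) fun hh => haM (A _ ha hh)
  have h1 := Nat.le_of_dvd (by omega) this
  have h2 := PGrp.card_eq_card_mul_relIndex h.M_le
  have h3 := Nat.mul_le_mul_left (Nat.card h.M) h1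
  have := h.M_lt
  have := h.cW
  omega

theorem z3_sq {z : T} (hz : z ∈ Z 3) : z ^ 2 = 1 := by
  rw [← h.der_eq] at hz
  refine PGrp.pow_eq_one_of_mem_commutator (PGrp.class_two_of_commute fun x hx y hy g hg => ?_)
    (fun x hx y hy => (h.comm hy (h.sq hx)).symm) hz
  exact (h.comm hg (h.cm hx hy)).symm

end RuH

end Cfsg.Agent.Mix26
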