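import Mathlib
import Cfsg.Agent.Mix26.Ru2
import Cfsg.Agent.H23.T64

set_option autoImplicit false
set_option linter.unusedSectionVars false
open Subgroup
open scoped commutatorElement

namespace Cfsg.Agent.Mix26

variable {T : Type*} [Group T] [Finite T]

local notation "Z" => Subgroup.upperCentralSeries T

structure RuD (W : Subgroup T) (z1 z2 z3 c t s : T) : Prop extends RuH W where
  a1 : z1 ∈ Z 1
  b1 : z1 ∉ Z 0
  a2 : z2 ∈ Z 2
  b2 : z2 ∉ Z 1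
  a3 : z3 ∈ Z 3
  b3 : z3 ∉ Z 2
  c2' : c * z2 * c⁻¹ = z2
  c3' : c * z3 * c⁻¹ = z1 * z3
  t2 : t * z2 * t⁻¹ = z2
  t3 : t * z3 * t⁻¹ = z2 * z3
  s2 : s * z2 * s⁻¹ = z1 * z2
  s3 : s * z3 * s⁻¹ = z3

theorem ru_fix {g x : T} : g ∈ centralizer {x} ↔ g * x * g⁻¹ = x := by
  rw [mem_centralizer_singleton_iff, mul_inv_eq_iff_eq_mul]

namespace RuH
variable {W : Subgroup T} (h : RuH W)
include h

theorem cen2 {z2 : T} (a2 : z2 ∈ Z 2) (b2 : z2 ∉ Z 1) {e : T} (he : e ∈ centralizer {z2}) {k : T}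
    (hk : k ∈ Z 2) : e * k = k * e := by
  have : e ∈ centralizer ((Z 2 : Subgroup T) : Set T) := by
    rw [← h.sup_eq (i := 1) (by omega) a2 b2, PGrp.centralizer_sup_zpowers]
    exact ⟨fun z hz => (ru_z1 hz e).symm, he⟩
  exact (this k hk).symm

theorem z1_eq {z1 k : T} (a1 : z1 ∈ Z 1) (b1 : z1 ∉ Z 0) (hk : k ∈ Z 1) : k = 1 ∨ k = z1 := by
  rw [or_iff_not_imp_left]
  intro h1
  have := (ru_two (h.zr (i := 0) (by omega)) (inv_mem hk) a1).2 (by simpa [h1] using b1)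
  simpa [inv_mul_eq_one] using this

theorem exD : ∃ z1 z2 z3 c t s, RuD W z1 z2 z3 c t s := by
  obtain ⟨z1, a1, b1⟩ := h.ex (i := 0) (by omega)
  obtain ⟨z2, a2, b2⟩ := h.ex (i := 1) (by omega)
  obtain ⟨z3, a3, b3⟩ := h.ex (i := 2) (by omega)
  have hW := h.W_eq a2 b2 a3 b3
  set E : Subgroup T := centralizer {z2} with hE
  have h1 := h.idx2 a2
  have h2 := h.idx3 a3 E
  have h3 := relIndex_mul_index (show W ≤ E from hW ▸ inf_le_left)
  have h4 : W.relIndex E = (centralizer {z3} : Subgroup T).relIndex E := by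
    rw [hW, inf_comm, inf_relIndex_right]
  rw [h.idx, h4] at h3
  rw [← hE] at h1
  have h5 : (centralizer {z3} : Subgroup T).relIndex E = 4 := by
    by_contra hc
    have := Nat.mul_le_mul (show (centralizer {z3} : Subgroup T).relIndex E ≤ 3 by omega) h1
    omega
  have h6 : E.index = 2 := by rw [h5] at h3; omega
  have m3 : ∀ g, ⁅g, z3⁆ ∈ Z 2 := fun g => PGrp.commutator_symm_mem (ru_zs.1 a3 g)
  let ψ : E →* T := MonoidHom.mk' (fun e => ⁅(e : T), z3⁆) fun a b => by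
    rw [coe_mul, PGrp.commutator_mul_left_of_commute (h.cen2 a2 b2 a.2 (m3 b))]
    exact (h.comm (h.z3_le (ru_zle (by omega) (m3 a))) (ru_zle (by omega) (m3 b)))
  have hk : ψ.ker = (centralizer {z3}).subgroupOf E := by
    ext e
    rw [MonoidHom.mem_ker, mem_subgroupOf, mem_centralizer_singleton_iff]
    exact commutatorElement_eq_one_iff_mul_comm
  have hr : ψ.range = Z 2 := by
    refine PGrp.eq_of_le_of_card_le (by rintro _ ⟨e, rfl⟩; exact m3 e) ?_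
    rw [← index_ker, hk, h.c2]; exact h5.ge
  have sur : ∀ k ∈ Z 2, ∃ e ∈ E, e * z3 * e⁻¹ = k * z3 := fun k hk => by
    rw [← hr] at hk
    obtain ⟨e, rfl⟩ := hk
    exact ⟨e, e.2, PGrp.conj_eq_commutator_mul _ _⟩
  obtain ⟨c, hc, hc3⟩ := sur z1 (ru_zle (by omega) a1)
  obtain ⟨t, ht, ht3⟩ := sur z2 a2
  obtain ⟨g, hg⟩ : ∃ g, g ∉ E := by
    by_contra hh
    push Not at hh
    rw [(eq_top_iff' E).2 hh, index_top] at h6
    omega
  obtain ⟨e, he, he3⟩ := sur _ (m3 g)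
  refine ⟨z1, z2, z3, c, t, e⁻¹ * g, h, a1, b1, a2, b2, a3, b3, ru_fix.1 hc, hc3, ru_fix.1 ht, ht3, ?_, ?_⟩
  · rw [PGrp.conj_eq_commutator_mul]
    rcases h.z1_eq a1 b1 (PGrp.commutator_symm_mem (ru_zs.1 a2 (e⁻¹ * g))) with hh | hh
    · exact absurd ((E.mul_mem_cancel_left (inv_mem he)).1
        (mem_centralizer_singleton_iff.2 (commutatorElement_eq_one_iff_mul_comm.1 hh))) hg
    · rw [hh]
  · rw [← PGrp.conj_eq_commutator_mul] at he3
    calc e⁻¹ * g * z3 * (e⁻¹ * g)⁻¹ = e⁻¹ * (g * z3 * g⁻¹) * e := by group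
      _ = z3 := by rw [← he3]; group

end RuH

theorem ru_cj (g x y : T) : g * (x * y) * g⁻¹ = (g * x * g⁻¹) * (g * y * g⁻¹) := by group
theorem ru_cj' (g k x : T) : (g * k) * x * (g * k)⁻¹ = g * (k * x * k⁻¹) * g⁻¹ := by group

namespace RuD
variable {W : Subgroup T} {z1 z2 z3 c t s : T} (h : RuD W z1 z2 z3 c t s)
include h

theorem f1 (g : T) : g * z1 * g⁻¹ = z1 := by rw [ru_z1 h.a1]; group
theorem q1 : z1 * z1 = 1 := by rw [← pow_two]; exact h.z3_sq (ru_zle (by omega) h.a1)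
theorem q2 : z2 * z2 = 1 := by rw [← pow_two]; exact h.z3_sq (ru_zle (by omega) h.a2)
theorem n1 : z1 ≠ 1 := by simpa using h.b1

theorem memW {g : T} : g ∈ W ↔ g * z2 * g⁻¹ = z2 ∧ g * z3 * g⁻¹ = z3 := by
  rw [h.W_eq h.a2 h.b2 h.a3 h.b3, mem_inf, ru_fix, ru_fix]

theorem cong {a b : T} (h2 : a * z2 * a⁻¹ = b * z2 * b⁻¹) (h3 : a * z3 * a⁻¹ = b * z3 * b⁻¹) :
    a⁻¹ * b ∈ W := by
  rw [h.memW, ru_cj', ru_cj', ← h2, ← h3]; constructor <;> group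

theorem z2_cases {k : T} (hk : k ∈ Z 2) : k = 1 ∨ k = z1 ∨ k = z2 ∨ k = z1 * z2 := by
  by_cases h1 : k ∈ Z 1
  · rcases h.z1_eq h.a1 h.b1 h1 with h2 | h2 <;> simp [h2]
  · have := (ru_two (h.zr (i := 1) (by omega)) hk h.a2).2 (iff_of_false h1 h.b2)
    have e : k = k * z2 * z2 := by rw [mul_assoc, h.q2, mul_one]
    rcases h.z1_eq h.a1 h.b1 this with h2 | h2 <;> rw [h2] at e <;> simp [e]

theorem E_normal : (centralizer {z2} : Subgroup T).Normal :=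
  haveI : Fact (Nat.Prime 2) := ⟨Nat.prime_two⟩
  PGrp.normal_of_index_le_prime h.hT (h.idx2 h.a2)

theorem E_sq {e : T} (he : e ∈ centralizer {z2}) : e ^ 2 ∈ W := by
  have m3 : ⁅e, z3⁆ ∈ Z 2 := PGrp.commutator_symm_mem (ru_zs.1 h.a3 e)
  rw [h.memW]
  refine ⟨ru_fix.1 (pow_mem he 2), ?_⟩
  rw [pow_two, ru_cj', PGrp.conj_eq_commutator_mul e z3, ru_cj, PGrp.conj_eq_commutator_mul e z3,
    h.cen2 h.a2 h.b2 he m3, mul_inv_cancel_right, ← mul_assoc, ← pow_two,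
    h.z3_sq (ru_zle (by omega) m3), one_mul]

theorem E_fix {e k : T} (he : e ∈ centralizer {z2}) (heW : e ∉ W) (hk : k ∈ Z 3)
    (hf : e * k * e⁻¹ = k) : k ∈ Z 2 := by
  by_contra hc
  apply heW
  rw [h.W_eq h.a2 h.b2 hk hc]
  exact ⟨he, ru_fix.2 hf⟩

theorem E_cases {e : T} (he : e ∈ centralizer {z2}) :
    e ∈ W ∨ c⁻¹ * e ∈ W ∨ t⁻¹ * e ∈ W ∨ (c * t)⁻¹ * e ∈ W := by
  have e2 := ru_fix.1 he
  have e3 := PGrp.conj_eq_commutator_mul e z3
  rcases h.z2_cases (PGrp.commutator_symm_mem (ru_zs.1 h.a3 e)) with h1 | h1 | h1 | h1 <;> rw [h1] at e3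
  · exact Or.inl (h.memW.2 ⟨e2, by rw [e3, one_mul]⟩)
  · exact Or.inr (Or.inl (h.cong (by rw [e2, h.c2']) (by rw [e3, h.c3'])))
  · exact Or.inr (Or.inr (Or.inl (h.cong (by rw [e2, h.t2]) (by rw [e3, h.t3]))))
  · refine Or.inr (Or.inr (Or.inr (h.cong (by rw [e2, ru_cj', h.t2, h.c2']) ?_)))
    rw [e3, ru_cj', h.t3, ru_cj, h.c2', h.c3', ← mul_assoc, ru_z1 h.a1]

theorem s_nE : s ∉ centralizer {z2} := fun hh => h.n1 (by simpa [h.s2] using ru_fix.1 hh)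

theorem s_cases (g : T) : g ∈ centralizer {z2} ∨ s⁻¹ * g ∈ centralizer {z2} := by
  have e2 := PGrp.conj_eq_commutator_mul g z2
  rcases h.z1_eq h.a1 h.b1 (PGrp.commutator_symm_mem (ru_zs.1 h.a2 g)) with h1 | h1 <;> rw [h1] at e2
  · exact Or.inl (ru_fix.2 (by rw [e2, one_mul]))
  · refine Or.inr (ru_fix.2 ?_)
    rw [ru_cj', e2, ← h.s2]; group

theorem cE : c ∈ centralizer {z2} := ru_fix.2 h.c2'
theorem tE : t ∈ centralizer {z2} := ru_fix.2 h.t2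
theorem c_nW : c ∉ W := fun hh => h.n1 (by simpa [h.c3'] using (h.memW.1 hh).2)
theorem t_nW : t ∉ W := fun hh => h.b2 (by
  have : z2 = 1 := by simpa [h.t3] using (h.memW.1 hh).2
  rw [this]; exact one_mem _)

theorem s_sq : s ^ 2 ∈ W := by
  rw [h.memW, pow_two, ru_cj', ru_cj', h.s2, h.s3, h.s3, ru_cj, h.f1, h.s2, ← mul_assoc, h.q1, one_mul]
  exact ⟨rfl, rfl⟩

theorem c_cen (g : T) : c⁻¹ * (g * c * g⁻¹) ∈ W := by
  refine h.cong (by rw [h.c2', ru_fix.1 (h.E_normal.conj_mem _ h.cE g)]) ?_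
  have m3 : ⁅g⁻¹, z3⁆ ∈ Z 2 := PGrp.commutator_symm_mem (ru_zs.1 h.a3 _)
  have e := PGrp.conj_eq_commutator_mul g⁻¹ z3
  have e' : c * (g⁻¹ * z3 * g⁻¹⁻¹) * c⁻¹ = z1 * (g⁻¹ * z3 * g⁻¹⁻¹) := by
    rw [e, ru_cj, h.cen2 h.a2 h.b2 h.cE m3, mul_inv_cancel_right, h.c3', ← mul_assoc, ru_z1 h.a1,
      mul_assoc]
  rw [ru_cj' (g * c), ru_cj' g, e', ru_cj, h.f1, h.c3']
  group

theorem r_sq : c⁻¹ * (s * t) ^ 2 ∈ W := by
  have e2 : s * t * z2 * (s * t)⁻¹ = z1 * z2 := by rw [ru_cj', h.t2, h.s2]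
  have e3 : s * t * z3 * (s * t)⁻¹ = z1 * z2 * z3 := by rw [ru_cj', h.t3, ru_cj, h.s2, h.s3]
  refine h.cong ?_ ?_
  · rw [pow_two, ru_cj', e2, ru_cj, e2, h.f1, h.c2', ← mul_assoc, h.q1, one_mul]
  · rw [pow_two, ru_cj', e3, ru_cj, ru_cj, e2, e3, h.f1, h.c3', ← mul_assoc z1, h.q1, one_mul,
      ← mul_assoc, ← mul_assoc, ru_z1 h.a1, mul_assoc z1, h.q2, mul_one]

theorem dih : ∃ _ : W.Normal, Nonempty (T ⧸ W ≃* DihedralGroup 4) := by
  haveI := h.normal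
  refine ⟨this, ?_⟩
  let π := QuotientGroup.mk' W
  have k : ∀ g, π g = 1 ↔ g ∈ W := fun g => QuotientGroup.eq_one_iff g
  refine (H23.T64.eight h.idx fun hc => ?_).resolve_right ?_
  · have h1 := (k _).2 h.r_sq
    have h2 := (k _).2 h.s_sq
    have h3 := (k _).2 (h.E_sq h.tE)
    have h4 : Commute (π s) (π t) := hc.is_comm.comm _ _
    rw [map_mul, map_pow, map_mul, h4.mul_pow, ← map_pow, ← map_pow, h2, h3, mul_one, mul_one, k] at h1
    exact h.c_nW (inv_mem_iff.1 h1)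
  · rintro ⟨e⟩
    have key : ∀ a b : QuaternionGroup 2, a ^ 2 = 1 → b ^ 2 = 1 → a ≠ 1 → b ≠ 1 → a = b := by decide
    have := key (e (π s)) (e (π t)) (by rw [← map_pow, ← map_pow, (k _).2 h.s_sq, map_one])
      (by rw [← map_pow, ← map_pow, (k _).2 (h.E_sq h.tE), map_one])
      (fun hh => h.s_nE ((h.W_eq h.a2 h.b2 h.a3 h.b3).le ((k _).1 ((map_eq_one_iff e e.injective).1 hh))).1)
      (fun hh => h.t_nW ((k _).1 ((map_eq_one_iff e e.injective).1 hh)))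
    have := QuotientGroup.eq.1 (e.injective this)
    exact h.s_nE (inv_mem_iff.1 ((Subgroup.mul_mem_cancel_right _ h.tE).1
      ((h.W_eq h.a2 h.b2 h.a3 h.b3).le this).1))

end RuD

end Cfsg.Agent.Mix26
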