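import Mathlib
import Cfsg.Agent.Mix26.Ru3

set_option autoImplicit false
set_option linter.unusedSectionVars false
open Subgroup
open scoped commutatorElement

namespace Cfsg.Agent.Mix26

variable {T : Type*} [Group T] [Finite T]

local notation "Z" => Subgroup.upperCentralSeries T

noncomputable def ruF (x y : T) : ZMod 2 := by
  classical exact if ⁅x, y⁆ ∈ Z 2 then 0 else 1

theorem ruF_eq {x y : T} : ruF x y = 0 ↔ ⁅x, y⁆ ∈ Z 2 := by
  unfold ruF; split_ifs with h <;> simp [h]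

theorem ruF_s (x y : T) : ruF x y = ruF y x := by
  unfold ruF; rw [← commutatorElement_inv x y, inv_mem_iff]

theorem ruF_c (g x y : T) : ruF (g * x * g⁻¹) (g * y * g⁻¹) = ruF x y := by
  unfold ruF
  rw [← conjugate_commutatorElement]
  congr 1
  exact propext ⟨fun h => by simpa [mul_assoc] using Normal.conj_mem' inferInstance _ h g,
    fun h => Normal.conj_mem inferInstance _ h g⟩

def ruFix (y : T) : Subgroup T :=
  (centralizer {QuotientGroup.mk' (Z 3) y}).comap (QuotientGroup.mk' (Z 3))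

theorem ruFix_iff {g y : T} : g ∈ ruFix y ↔ ⁅g, y⁆ ∈ Z 3 := by
  rw [ruFix, mem_comap, mem_centralizer_singleton_iff, ← commutatorElement_eq_one_iff_mul_comm,
    ← map_commutatorElement]
  exact QuotientGroup.eq_one_iff _

theorem ru_norm_step {W A : Subgroup T} [hW : W.Normal] [hA : A.Normal] (hWA : W ≤ A) {y g : T} (hy : y ∈ W)
    (h1 : A ≤ ruFix y) (hg : g ^ 2 ∈ A) : A ⊔ zpowers g ≤ ruFix (y * (g * y * g⁻¹)) := by
  set π := QuotientGroup.mk' (Z 3)
  have k : ∀ a ∈ A, π a * π y = π y * π a := fun a ha => mem_centralizer_singleton_iff.1 (h1 ha)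
  refine sup_le (fun a ha => ?_) (zpowers_le.2 ?_)
  · refine mem_centralizer_singleton_iff.2 ?_
    have h2 := k a ha
    have h3 := k _ (hA.conj_mem' a ha g)
    simp only [map_mul, map_inv] at h3 ⊢
    calc π a * (π y * (π g * π y * (π g)⁻¹)) = π y * π g * ((π g)⁻¹ * π a * π g * π y) * (π g)⁻¹ := by
          rw [← mul_assoc, h2]; group
      _ = π y * (π g * π y * (π g)⁻¹) * π a := by rw [h3]; group
  · refine mem_centralizer_singleton_iff.2 ?_
    have h2 := k _ hg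
    have h3 := k _ (hWA (hW.conj_mem y hy g))
    simp only [map_mul, map_inv, pow_two] at h2 h3 ⊢
    calc π g * (π y * (π g * π y * (π g)⁻¹))
        = (π g * π y * (π g)⁻¹) * (π g * π g * π y) * (π g)⁻¹ := by group
      _ = (π g * π y * (π g)⁻¹ * π y) * π g := by rw [h2]; group
      _ = _ := by rw [h3]

namespace RuH
variable {W : Subgroup T} (h : RuH W)
include h

theorem fadd {a b : T} (ha : a ∈ Z 3) (hb : b ∈ Z 3) {x y u v x' y' : T} (e1 : ⁅x, y⁆ = a * b)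
    (e2 : ⁅u, v⁆ = a) (e3 : ⁅x', y'⁆ = b) : ruF x y = ruF u v + ruF x' y' := by
  have := ru_two (h.zr (i := 2) (by omega)) ha hb
  unfold ruF
  rw [e1, e2, e3]
  by_cases p : a ∈ Z 2 <;> by_cases q : b ∈ Z 2 <;> simp_all
  rfl

theorem fr {x y z : T} (hx : x ∈ W) (hy : y ∈ W) (hz : z ∈ W) : ruF z (x * y) = ruF z x + ruF z y :=
  h.fadd (h.cm hz hx) (h.cm hz hy) (h.cmr hx hy hz) rfl rfl

theorem fl {x y z : T} (hx : x ∈ W) (hy : y ∈ W) (hz : z ∈ W) : ruF (x * y) z = ruF x z + ruF y z := by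
  rw [ruF_s, h.fr hx hy hz, ruF_s z, ruF_s z]

theorem f0 {x z : T} (hx : x ∈ W) (hz : z ∈ Z 3) : ruF x z = 0 := ruF_eq.2 ((h.z3_le_M hz).2.2 x hx)

theorem fW {x y a b : T} (hx : x ∈ W) (hy : y ∈ W) (hab : a⁻¹ * b ∈ W) :
    ruF x (a * y * a⁻¹) = ruF x (b * y * b⁻¹) := by
  have e : b * y * b⁻¹ = (a * ⁅a⁻¹ * b, y⁆ * a⁻¹) * (a * y * a⁻¹) := by
    simp only [commutatorElement_def]; group
  have m : a * ⁅a⁻¹ * b, y⁆ * a⁻¹ ∈ Z 3 := Normal.conj_mem inferInstance _ (h.cm hab hy) a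
  rw [e, h.fr (h.z3_le m) (h.normal.conj_mem _ hy a) hx, h.f0 hx m, zero_add]

end RuH

namespace RuD
variable {W : Subgroup T} {z1 z2 z3 c t s : T} (h : RuD W z1 z2 z3 c t s)
include h

theorem fE {x e : T} (hx : x ∈ W) (he : e ∈ centralizer {z2}) : ruF x (e * x * e⁻¹) = 0 := by
  have hx' := h.normal.conj_mem _ hx e
  by_cases heW : e ∈ W
  · rw [← h.fW (a := 1) hx hx (by simpa using heW), ruF_eq]; simp
  rw [ruF_eq]
  refine h.E_fix he heW (h.cm hx hx') ?_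
  have e1 : e * (e * x * e⁻¹) * e⁻¹ = ⁅e ^ 2, x⁆ * x := by
    simp only [commutatorElement_def, pow_two]; group
  have m := h.cm (h.E_sq he) hx
  rw [conjugate_commutatorElement, e1, h.cmr (h.z3_le m) hx hx',
    commutatorElement_eq_one_iff_mul_comm.2 (h.comm hx' m).symm, one_mul, ← commutatorElement_inv,
    inv_eq_iff_mul_eq_one, ← pow_two]
  exact h.z3_sq (h.cm hx hx')

theorem c_comm (g : T) : ⁅c, g⁆ ∈ W := by
  have := inv_mem (h.normal.conj_mem _ (h.c_cen g) c)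
  convert this using 1
  simp only [commutatorElement_def]; group

theorem W_le_E : W ≤ centralizer {z2} := fun _ hg => ((h.W_eq h.a2 h.b2 h.a3 h.b3).le hg).1

theorem norm_mem {x : T} (hx : x ∈ W) :
    let y1 := x * (c * x * c⁻¹)
    let y2 := y1 * (t * y1 * t⁻¹)
    y2 * (s * y2 * s⁻¹) ∈ Z 4 := by
  intro y1 y2
  haveI := h.normal
  haveI := h.E_normal
  haveI : (W ⊔ zpowers c).Normal := PGrp.normal_sup_zpowers h.c_comm
  have m1 : y1 ∈ W := mul_mem hx (h.normal.conj_mem _ hx c)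
  have m2 : y2 ∈ W := mul_mem m1 (h.normal.conj_mem _ m1 t)
  have h1 := ru_norm_step le_rfl hx (fun g hg => ruFix_iff.2 (h.cm hg hx)) (h.E_sq h.cE)
  have h2 := ru_norm_step le_sup_left m1 h1 (mem_sup_left (h.E_sq h.tE))
  have h3 : centralizer {z2} ≤ W ⊔ zpowers c ⊔ zpowers t := fun e he => by
    have mc : c ∈ W ⊔ zpowers c ⊔ zpowers t := mem_sup_left (mem_sup_right (mem_zpowers c))
    have mt : t ∈ W ⊔ zpowers c ⊔ zpowers t := mem_sup_right (mem_zpowers t)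
    have l : W ≤ W ⊔ zpowers c ⊔ zpowers t := le_sup_left.trans le_sup_left
    rcases h.E_cases he with a | a | a | a
    · exact l a
    · exact (mul_mem_cancel_left (inv_mem mc)).1 (l a)
    · exact (mul_mem_cancel_left (inv_mem mt)).1 (l a)
    · exact (mul_mem_cancel_left (inv_mem (mul_mem mc mt))).1 (l a)
  have h4 := ru_norm_step h.W_le_E m2 (h3.trans h2) (h.W_le_E h.s_sq)
  refine ru_zs.2 fun g => PGrp.commutator_symm_mem (ruFix_iff.1 (h4 ?_))
  rcases h.s_cases g with a | a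
  · exact mem_sup_left a
  · exact (mul_mem_cancel_left (inv_mem (mem_sup_right (mem_zpowers s)))).1 (mem_sup_left a)

theorem phi_orbit (hz : ∀ n ∈ Z 4, ∀ w ∈ W, w * n = n * w) {x : T} (hx : x ∈ W) (g : T) :
    ruF x (g * x * g⁻¹) + ruF x (c * (g * x * g⁻¹) * c⁻¹) = 0 := by
  haveI := h.normal
  let π := QuotientGroup.mk' W
  let κ : T → ZMod 2 := fun g => ruF x (g * x * g⁻¹)
  have κc : ∀ a b, π a = π b → κ a = κ b := fun a b e => h.fW hx hx (QuotientGroup.eq.1 e)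
  have κi : ∀ a, κ a⁻¹ = κ a := fun a => by
    simp only [κ]
    rw [← ruF_c a, ruF_s]
    congr 1; group
  have κE : ∀ e ∈ centralizer {z2}, κ e = 0 := fun e he => h.fE hx he
  have k1 : ∀ g, g ∈ W → π g = 1 := fun g => (QuotientGroup.eq_one_iff g).2
  have cc : ∀ g, π g * π c = π c * π g := fun g => by
    rw [eq_comm, ← commutatorElement_eq_one_iff_mul_comm, ← map_commutatorElement]
    exact k1 _ (h.c_comm g)
  have c2 : π c * π c = 1 := by rw [← map_mul, ← pow_two]; exact k1 _ (h.E_sq h.cE)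
  have r2 : π s * π t * (π s * π t) = π c := by
    have := k1 _ h.r_sq
    rw [map_mul, map_inv, inv_mul_eq_one, pow_two, map_mul, map_mul] at this
    exact this.symm
  rw [← ru_cj']
  show κ g + κ (c * g) = 0
  have P : ∀ a b, π a = π b ∨ π a = π c * π b → κ b + κ (c * b) = 0 → κ a + κ (c * a) = 0 := by
    rintro a b (e | e) hb
    · rw [κc a b e, κc (c * a) (c * b) (by rw [map_mul, map_mul, e]), hb]
    · rw [κc a (c * b) (by rw [e, map_mul]), κc (c * a) b (by rw [map_mul, e, ← mul_assoc, c2, one_mul]),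
        add_comm, hb]
  have hr : κ (s * t) + κ (c * (s * t)) = 0 := by
    rw [κc (c * (s * t)) (s * t)⁻¹, κi, CharTwo.add_self_eq_zero]
    rw [map_inv, eq_inv_iff_mul_eq_one, map_mul, map_mul, mul_assoc, r2, c2]
  have hs : κ s + κ (c * s) = 0 := by
    have h1 := h.norm_mem hx
    have h2 : ruF x _ = 0 := ruF_eq.2 (by
      rw [commutatorElement_eq_one_iff_mul_comm.2 (hz _ h1 x hx)]; exact one_mem _)
    have n := h.normal
    have m0 := fun g => n.conj_mem _ hx g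
    have m1 : x * (c * x * c⁻¹) ∈ W := mul_mem hx (m0 c)
    rw [h.fr (mul_mem m1 (n.conj_mem _ m1 t)) (n.conj_mem _ (mul_mem m1 (n.conj_mem _ m1 t)) s) hx,
      h.fr m1 (n.conj_mem _ m1 t) hx, h.fr hx (m0 c) hx, ru_cj t, ← ru_cj' t,
      h.fr (m0 t) (m0 _) hx, ru_cj s, ru_cj s x, ru_cj s (t * x * t⁻¹), ← ru_cj' s, ← ru_cj' s, ← ru_cj' s,
      h.fr (mul_mem (m0 s) (m0 _)) (mul_mem (m0 _) (m0 _)) hx, h.fr (m0 s) (m0 _) hx,
      h.fr (m0 _) (m0 _) hx] at h2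
    have e0 : ruF x x = 0 := ruF_eq.2 (by simp)
    change ruF x x + κ c + (κ t + κ (t * c)) + (κ s + κ (s * c) + (κ (s * t) + κ (s * (t * c)))) = 0 at h2
    rw [e0, κE c h.cE, κE t h.tE, κE _ (mul_mem h.tE h.cE),
      κc (s * c) (c * s) (by rw [map_mul, map_mul, cc]),
      κc (s * (t * c)) (c * (s * t)) (by rw [← mul_assoc, map_mul, cc, ← map_mul]), hr] at h2
    simpa using h2
  rcases h.s_cases g with a | a
  · rw [κE g a, κE _ (mul_mem h.cE a), add_zero]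
  have q : ∀ u, u⁻¹ * (s⁻¹ * g) ∈ W → π g = π s * π u := fun u hu => by
    rw [← map_mul]
    exact (QuotientGroup.eq.2 (by rwa [mul_inv_rev, mul_assoc])).symm
  rcases h.E_cases a with b | b | b | b
  · exact P g s (Or.inl (by simpa using q 1 (by simpa using b))) hs
  · exact P g s (Or.inr (by rw [q c b, cc])) hs
  · exact P g (s * t) (Or.inl (by rw [q t b, map_mul])) hr
  · exact P g (s * t) (Or.inr (by rw [q _ b, map_mul, map_mul, ← mul_assoc, cc, mul_assoc])) hr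

theorem phi_zero (hz : ∀ n ∈ Z 4, ∀ w ∈ W, w * n = n * w) {x y : T} (hx : x ∈ W) (hy : y ∈ W) :
    ruF x (y * (c * y * c⁻¹)) = 0 := by
  have n := h.normal
  let φ : T → T → ZMod 2 := fun x y => ruF x y + ruF x (c * y * c⁻¹)
  have φr : ∀ {x y z}, x ∈ W → y ∈ W → z ∈ W → φ z (x * y) = φ z x + φ z y := fun hx hy hz => by
    simp only [φ]
    rw [ru_cj, h.fr hx hy hz, h.fr (n.conj_mem _ hx c) (n.conj_mem _ hy c) hz]; ring
  have φl : ∀ {x y z}, x ∈ W → y ∈ W → z ∈ W → φ (x * y) z = φ x z + φ y z := fun hx hy hz => by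
    simp only [φ]
    rw [h.fl hx hy hz, h.fl hx hy (n.conj_mem _ hz c)]; ring
  have φc : ∀ g {x y}, x ∈ W → y ∈ W → φ (g * x * g⁻¹) (g * y * g⁻¹) = φ x y := fun g x y hx hy => by
    simp only [φ]
    rw [ruF_c, ← ruF_c g x (c * y * c⁻¹), ← ru_cj', ← ru_cj']
    refine congrArg _ ?_
    refine h.fW (n.conj_mem _ hx g) hy ?_
    convert n.conj_mem' _ (h.c_cen g) g using 1
    group
  obtain ⟨w, hw, hgen⟩ := h.gen
  have sub : ∀ (ψ : T → T → ZMod 2) (S : Set T), (∀ x ∈ S, x ∈ W) → (∀ g, ∀ x ∈ S, g * x * g⁻¹ ∈ S) →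
      (∀ {x y z}, x ∈ W → y ∈ W → z ∈ W → ψ z (x * y) = ψ z x + ψ z y) →
      (∀ g {x y}, x ∈ W → y ∈ W → ψ (g * x * g⁻¹) (g * y * g⁻¹) = ψ x y) →
      (∀ x ∈ W, ∀ z ∈ Z 3, ψ x z = 0) → (∀ x ∈ S, ψ x w = 0) → ∀ x ∈ S, ∀ y ∈ W, ψ x y = 0 := by
    intro ψ S h1 h2 h3 h4 h5 h6 x hx y hy
    let K : Subgroup T :=
      { carrier := {y | y ∈ W ∧ ∀ x ∈ S, ψ x y = 0}
        one_mem' := ⟨one_mem _, fun x hx => h5 x (h1 x hx) 1 (one_mem _)⟩
        mul_mem' := fun a b => ⟨mul_mem a.1 b.1, fun x hx => by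
          rw [h3 a.1 b.1 (h1 x hx), a.2 x hx, b.2 x hx, add_zero]⟩
        inv_mem' := fun a => ⟨inv_mem a.1, fun x hx => by
          have := h3 a.1 (inv_mem a.1) (h1 x hx)
          rw [mul_inv_cancel, h5 x (h1 x hx) 1 (one_mem _), a.2 x hx, zero_add] at this
          exact this.symm⟩ }
    refine (hgen K ⟨fun y a g => ⟨n.conj_mem _ a.1 g, fun x hx => ?_⟩⟩
      (fun z hz => ⟨h.z3_le hz, fun x hx => h5 x (h1 x hx) z hz⟩) ⟨hw, h6⟩ hy).2 x hx
    have := h4 g (h1 _ (h2 g⁻¹ x hx)) a.1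
    rw [a.2 _ (h2 g⁻¹ x hx)] at this
    rw [← this]; congr 1; group
  have z0 : ∀ x ∈ W, ∀ z ∈ Z 3, φ x z = 0 := fun x hx z hz => by
    simp only [φ]; rw [h.f0 hx hz, h.f0 hx (Normal.conj_mem inferInstance _ hz c), add_zero]
  have z0' : ∀ x ∈ W, ∀ z ∈ Z 3, φ z x = 0 := fun x hx z hz => by
    simp only [φ]; rw [ruF_s, h.f0 hx hz, ruF_s, h.f0 (n.conj_mem _ hx c) hz, add_zero]
  have s1 := sub φ {x | ∃ g, x = g * w * g⁻¹} (by rintro _ ⟨g, rfl⟩; exact n.conj_mem _ hw g)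
    (by rintro g _ ⟨k, rfl⟩; exact ⟨g * k, by group⟩) φr φc z0 (by
      rintro _ ⟨g, rfl⟩
      have := h.phi_orbit hz (n.conj_mem _ hw g) g⁻¹
      rwa [show g⁻¹ * (g * w * g⁻¹) * g⁻¹⁻¹ = w by group] at this)
  have s2 := sub (fun a b => φ b a) W (fun _ a => a) (fun g x hx => n.conj_mem _ hx g)
    (fun a b c => φl a b c) (fun g _ _ a b => φc g b a) z0'
    (fun x hx => s1 w ⟨1, by group⟩ x hx) y hy x hx
  rw [h.fr hy (n.conj_mem _ hy c) hx]
  exact s2

theorem not_cen : ¬ ∀ n ∈ Z 4, ∀ w ∈ W, w * n = n * w := by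
  intro hz
  haveI n := h.normal
  have mem : ∀ y ∈ W, y * (c * y * c⁻¹) ∈ h.toRuH.M := fun y hy => by
    have hy' := n.conj_mem _ hy c
    refine ⟨mul_mem hy hy', ?_, fun x hx => ruF_eq.1 (h.phi_zero hz hx hy)⟩
    rw [h.sqm hy hy']
    refine mul_mem ?_ (PGrp.commutator_symm_mem (ruF_eq.1 (h.fE hy h.cE)))
    have e : (c * y * c⁻¹) ^ 2 = ⁅c, y ^ 2⁆ * y ^ 2 := by
      simp only [commutatorElement_def, pow_two]; group
    rw [e]
    refine (ru_two (h.zr (i := 2) (by omega)) (h.sq hy) (e ▸ h.sq hy')).2 ?_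
    rw [mul_mem_cancel_left (PGrp.commutator_symm_mem (ru_zs.1 (h.sq hy) c))]
  let π := QuotientGroup.mk' (Z 3)
  have ab : ∀ x ∈ W, ∀ y ∈ W, π x * π y = π y * π x := fun x hx y hy => by
    rw [← commutatorElement_eq_one_iff_mul_comm, ← map_commutatorElement]
    exact (QuotientGroup.eq_one_iff _).2 (h.cm hx hy)
  let θ : W →* T ⧸ Z 3 := MonoidHom.mk' (fun y => π (y * (c * y * c⁻¹))) fun a b => by
    have := ab _ b.2 _ (n.conj_mem _ a.2 c)
    rw [coe_mul, ru_cj, map_mul, map_mul, map_mul _ (c * a * c⁻¹), map_mul _ (a : T), map_mul _ (b : T),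
      mul_assoc (π a), mul_assoc (π a), ← mul_assoc (π b), this, mul_assoc]
  let V : Subgroup T := θ.ker.map W.subtype
  have hV : ∀ y, y ∈ V ↔ y ∈ W ∧ ⁅c, y⁆ ∈ Z 3 := fun y => by
    have : ∀ y ∈ W, (y * (c * y * c⁻¹) ∈ Z 3 ↔ ⁅c, y⁆ ∈ Z 3) := fun y hy => by
      have e : y * (c * y * c⁻¹) = (y * ⁅c, y⁆ * y⁻¹) * y ^ 2 := by
        simp only [commutatorElement_def, pow_two]; group
      rw [e, mul_mem_cancel_right (h.sq hy)]
      exact ⟨fun h => by simpa [mul_assoc] using Normal.conj_mem' inferInstance _ h y,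
        fun h => Normal.conj_mem inferInstance _ h y⟩
    constructor
    · rintro ⟨y, hy, rfl⟩
      exact ⟨y.2, (this y y.2).1 ((QuotientGroup.eq_one_iff _).1 hy)⟩
    · rintro ⟨h1, h2⟩
      exact ⟨⟨y, h1⟩, (QuotientGroup.eq_one_iff _).2 ((this y h1).2 h2), rfl⟩
  have hC : ∀ g ∈ W ⊔ zpowers c, ∀ v ∈ V, ⁅g, v⁆ ∈ Z 3 := fun g hg v hv => by
    have : W ⊔ zpowers c ≤ ruFix v := sup_le (fun g hg => ruFix_iff.2 (h.cm hg ((hV v).1 hv).1))
      (zpowers_le.2 (ruFix_iff.2 ((hV v).1 hv).2))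
    exact ruFix_iff.1 (this hg)
  haveI nA : (W ⊔ zpowers c).Normal := PGrp.normal_sup_zpowers h.c_comm
  haveI : V.Normal := ⟨fun v hv g => (hV _).2 ⟨n.conj_mem _ ((hV v).1 hv).1 g, by
    have := Normal.conj_mem inferInstance _
      (hC _ (nA.conj_mem' _ (mem_sup_right (mem_zpowers c)) g) v hv) g
    rw [conjugate_commutatorElement] at this
    convert this using 2; group⟩⟩
  have h1 := (ru_free h.hT (N := Z 3) (V := V) (C := W ⊔ zpowers c)
    (fun z hz => (hV z).2 ⟨h.z3_le hz, ru_zle (by omega) (PGrp.commutator_symm_mem (ru_zs.1 hz c))⟩)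
    (fun x hx => h.sq ((hV x).1 hx).1) hC (h.zr le_rfl) fun v hv => ru_zs.2 hv).1
  have h2 := relIndex_mul_index (show W ≤ W ⊔ zpowers c from le_sup_left)
  rw [PGrp.relIndex_sup_zpowers Nat.prime_two (by rw [normalizer_eq_top]; trivial) (h.E_sq h.cE) h.c_nW,
    h.idx] at h2
  rw [show (W ⊔ zpowers c).index = 4 by omega, h.c3, card_map_of_injective W.subtype_injective] at h1
  have h3 := θ.ker.card_mul_index
  rw [index_ker, h.cW] at h3
  have h4 : θ.range ≤ h.toRuH.M.map π := by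
    rintro _ ⟨y, rfl⟩; exact ⟨_, mem y y.2, rfl⟩
  have h5 := card_le_of_le h4
  rw [← relIndex_ker, QuotientGroup.ker_mk'] at h5
  have h6 := PGrp.card_eq_card_mul_relIndex h.z3_le_M
  have h7 := h.M_small
  rw [h.c3] at h6
  have : Nat.card θ.ker * Nat.card θ.range ≤ 128 * 15 := Nat.mul_le_mul (by omega) (by omega)
  omega

end RuD

theorem RuH.cen {W : Subgroup T} (h : RuH W) : (center W).map W.subtype = Z 3 := by
  haveI := h.normal
  obtain ⟨z1, z2, z3, c, t, s, d⟩ := h.exD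
  refine le_antisymm ?_ fun z hz => ⟨⟨z, h.z3_le hz⟩, mem_center_iff.2 fun w =>
    Subtype.ext (h.comm w.2 hz).symm, rfl⟩
  by_contra hc
  refine d.not_cen fun n hn w hw => ?_
  obtain ⟨n, hn', rfl⟩ := h.step _ 3 le_rfl hc hn
  exact congrArg Subtype.val (mem_center_iff.1 hn' ⟨w, hw⟩)

end Cfsg.Agent.Mix26
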