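import Mathlib
import Cfsg.Agent.Mix26.Ru4
import Cfsg.Agent.PGrp.Aut

set_option autoImplicit false
set_option linter.unusedSectionVars false
open Subgroup
open scoped commutatorElement

namespace Cfsg.Agent.Mix26

variable {T : Type*} [Group T] [Finite T]

local notation "Z" => Subgroup.upperCentralSeries T

theorem ru_tr0 (hT : IsPGroup 2 T) {φ : MulAut T} {m : ℕ} (hm : Odd m) (hφ : φ ^ m = 1) {x : T}
    (h : φ (x⁻¹ * φ x) = x⁻¹ * φ x) : φ x = x := by
  set n := x⁻¹ * φ x with hn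
  have : ∀ k : ℕ, (φ ^ k) x = x * n ^ k := by
    intro k
    induction k with
    | zero => simp
    | succ k ih =>
      rw [pow_succ', MulAut.mul_apply, ih, map_mul, map_pow, h, pow_succ', ← mul_assoc, hn,
        mul_inv_cancel_left]
  have h1 := this m
  rw [hφ, MulAut.one_apply, left_eq_mul] at h1
  obtain ⟨k, hk⟩ := hT n
  have h2 : n ∈ (⊥ : Subgroup T) := PGrp.mem_of_pow_mem_of_coprime
    (Nat.Coprime.pow_right k (Nat.coprime_two_right.2 hm)) (mem_bot.2 h1) (mem_bot.2 hk)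
  rw [mem_bot, hn, inv_mul_eq_one] at h2
  exact h2.symm

theorem ru_tr (hT : IsPGroup 2 T) {φ : MulAut T} {m : ℕ} (hm : Odd m) (hφ : φ ^ m = 1)
    (K : Subgroup T) [K.Characteristic] {x : T}
    (h : (x⁻¹ * φ x)⁻¹ * φ (x⁻¹ * φ x) ∈ K) : x⁻¹ * φ x ∈ K := by
  have := ru_tr0 (hT.to_quotient K) (φ := PGrp.autQuot K φ) hm (by rw [← map_pow, hφ, map_one])
    (x := (x : T ⧸ K)) (by
      rw [PGrp.autQuot_mk, ← QuotientGroup.mk_inv, ← QuotientGroup.mk_mul, PGrp.autQuot_mk]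
      exact (QuotientGroup.eq.2 h).symm)
  rw [PGrp.autQuot_mk] at this
  exact QuotientGroup.eq.1 this.symm

theorem ru_char (φ : MulAut T) (K : Subgroup T) [hK : K.Characteristic] (x : T) : φ x ∈ K ↔ x ∈ K := by
  conv_rhs => rw [← hK.fixed φ]
  rfl

namespace RuH
variable {W : Subgroup T} (h : RuH W)
include h

theorem aut_odd {φ : MulAut T} {m : ℕ} (hm : Odd m) (hφ : φ ^ m = 1) : φ = 1 := by
  haveI : Fact (Nat.Prime 2) := ⟨Nat.prime_two⟩
  haveI n := h.normal
  have A : ∀ i, i ≤ 3 → ∀ x ∈ Z (i + 1), x⁻¹ * φ x ∈ Z i := fun i hi x hx =>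
    (ru_two (h.zr hi) (inv_mem hx) ((ru_char φ _ x).2 hx)).2 (by rw [inv_mem_iff, ru_char])
  have B1 : ∀ x ∈ Z 1, φ x = x := fun x hx => by
    have := A 0 (by omega) x hx
    rw [Subgroup.upperCentralSeries_zero, mem_bot, inv_mul_eq_one] at this
    exact this.symm
  have B2 : ∀ x ∈ Z 2, φ x = x := fun x hx => ru_tr0 h.hT hm hφ (B1 _ (A 1 (by omega) x hx))
  have B3 : ∀ x ∈ Z 3, φ x = x := fun x hx => ru_tr0 h.hT hm hφ (B2 _ (A 2 (by omega) x hx))
  have C : ∀ t, t⁻¹ * φ t ∈ W := fun t => by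
    rw [h.hW]
    intro z hz
    have := B3 _ (Normal.conj_mem inferInstance _ hz t)
    rw [map_mul, map_mul, map_inv, B3 z hz] at this
    calc z * (t⁻¹ * φ t) = t⁻¹ * (t * z * t⁻¹) * φ t := by group
      _ = _ := by rw [← this]; group
  let π := QuotientGroup.mk' (Z 3)
  have ab : ∀ x ∈ W, ∀ y ∈ W, π x * π y = π y * π x := fun x hx y hy => by
    rw [← commutatorElement_eq_one_iff_mul_comm, ← map_commutatorElement]
    exact (QuotientGroup.eq_one_iff _).2 (h.cm hx hy)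
  have cj : ∀ g, ∀ w ∈ W, π (φ g) * π w * (π (φ g))⁻¹ = π g * π w * (π g)⁻¹ := fun g w hw => by
    have := ab _ (C g) w hw
    rw [map_mul, map_inv] at this
    calc _ = π g * ((π g)⁻¹ * π (φ g) * π w) * (π (φ g))⁻¹ := by group
      _ = _ := by rw [this]; group
  let K : Subgroup T := W ⊓ (π.comp φ.toMonoidHom).eqLocus π
  have hK : ∀ x, x ∈ K ↔ x ∈ W ∧ π (φ x) = π x := fun x => Iff.rfl
  have φW : ∀ x ∈ W, φ x ∈ W := fun x hx => (mul_mem_cancel_left (inv_mem hx)).1 (C x)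
  haveI : K.Normal := ⟨fun x hx g => (hK _).2 ⟨n.conj_mem _ hx.1 g, by
    simp only [map_mul, map_inv]
    rw [((hK x).1 hx).2, cj g x hx.1]⟩⟩
  have D : W ≤ K := by
    by_contra hc
    obtain ⟨x, hx, hxK, -, hxc⟩ := PGrp.exists_central_mod_normal h.hT W K hc
    refine hxK ((hK x).2 ⟨hx, (QuotientGroup.eq.2 (ru_tr h.hT hm hφ _ (A 3 le_rfl _ ?_))).symm⟩)
    refine ru_zs.2 fun g => (QuotientGroup.eq_one_iff _).1 ?_
    have h1 := ((hK _).1 (hxc g)).2
    have h2 := cj g _ (inv_mem (φW x hx))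
    simp only [commutatorElement_def, map_mul, map_inv] at h1 h2
    change π _ = 1
    simp only [commutatorElement_def, map_mul, map_inv]
    have h3 : π (φ x) * (π g * (π (φ x))⁻¹ * (π g)⁻¹) = π x * π g * (π x)⁻¹ * (π g)⁻¹ := by
      rw [← h2, ← h1]; group
    calc _ = (π x)⁻¹ * (π (φ x) * (π g * (π (φ x))⁻¹ * (π g)⁻¹)) * π g * π x * (π g)⁻¹ := by group
      _ = 1 := by rw [h3]; group
  ext t
  refine ru_tr0 h.hT hm hφ (B3 _ (ru_tr h.hT hm hφ _ ?_))
  exact QuotientGroup.eq.1 ((hK _).1 (D (C t))).2.symm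

theorem weak {U : Subgroup T} (e : W ≃* U) : U = W := by
  haveI : Fact (Nat.Prime 2) := ⟨Nat.prime_two⟩
  have cU : Nat.card U = Nat.card W := (Nat.card_congr e.toEquiv).symm
  refine PGrp.eq_of_le_of_card_le ?_ cU.ge
  set X := W ⊓ U with hX
  have pX : IsPGroup 2 X := h.hT.to_subgroup X
  have pU : IsPGroup 2 U := h.hT.to_subgroup U
  have cX : 2 ^ 8 ≤ Nat.card X := by
    have h1 := PGrp.card_inf_mul_relIndex W U
    have h2 : W.relIndex U ≤ 8 := by
      rw [← h.idx, ← relIndex_top_right]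
      exact relIndex_le_of_le_right le_top (by rw [relIndex_top_right, h.idx]; omega)
    have := Nat.mul_le_mul_left (Nat.card X) h2
    rw [cU, h.cW, ← hX] at h1
    omega
  have h1 : Z 3 ≤ (frattini X).map X.subtype := fun z hz => by
    have hzX := h.z3_le_of (U := X) inf_le_left (by omega) hz
    refine ⟨⟨z, hzX⟩, PGrp.mem_frattini_iff.2 fun M hM => ?_, rfl⟩
    have h2 := M.card_mul_index
    rw [PGrp.index_eq_of_isCoatom pX hM] at h2
    have := h.z3_le_of (U := M.map X.subtype) ((map_subtype_le M).trans inf_le_left)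
      (by rw [card_map_of_injective X.subtype_injective]; omega) hz
    obtain ⟨m, hm, rfl⟩ := this
    exact hm
  have h2 : frattini U ≤ center U := by
    rw [← PGrp.map_frattini_of_surjective h.pW e.toMonoidHom e.surjective]
    rintro _ ⟨w, hw, rfl⟩
    refine mem_center_iff.2 fun u => ?_
    obtain ⟨u, rfl⟩ := e.surjective u
    have : u * w = w * u := Subtype.ext (h.comm u.2 (h.phi_le ⟨w, hw, rfl⟩)).symm
    simpa using congrArg e this
  intro u hu
  rw [h.hW]
  intro z hz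
  obtain ⟨z, hz', rfl⟩ := PGrp.map_frattini_mono pU inf_le_right (h1 hz)
  exact congrArg Subtype.val (mem_center_iff.1 (h2 hz') ⟨u, hu⟩).symm

end RuH

end Cfsg.Agent.Mix26
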