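import Mathlib
import Cfsg.Agent.Mix26.Ru5
import Cfsg.Agent.Transfer.Yoshida

set_option autoImplicit false
set_option linter.unusedSectionVars false
open Subgroup
open scoped commutatorElement

namespace Cfsg.Agent.Mix26

variable {G : Type*} [Group G] [Finite G]

structure RG (T W D : Subgroup G) : Prop where
  pT : IsPGroup 2 T
  WT : W ≤ T
  DW : D ≤ W
  cT : Nat.card T = 2 ^ 14
  cW : Nat.card W = 2 ^ 11
  cD : Nat.card D = 8
  nW : T ≤ normalizer (W : Set G)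
  nD : T ≤ normalizer (D : Set G)
  cen : ∀ t ∈ T, t ∈ centralizer (D : Set G) ↔ t ∈ W
  sq : ∀ x ∈ W, x ^ 2 ∈ D
  cm : ∀ x ∈ W, ∀ y ∈ W, ⁅x, y⁆ ∈ D
  dsq : ∀ z ∈ D, z ^ 2 = 1
  big : ∀ U ≤ W, 2 ^ 7 ≤ Nat.card U → D ≤ U
  zc : ∀ t ∈ T, (∀ y ∈ T, ⁅t, y⁆ ∈ W) → ∃ y ∈ T, (y ^ 2)⁻¹ * t ∈ W
  nab : ¬ ∀ x ∈ T, ∀ y ∈ T, ⁅x, y⁆ ∈ W
  soc : ∀ x ∈ W, ∀ y ∈ W, x ∉ D → y ∉ D → (∀ t ∈ T, ⁅x, t⁆ ∈ D) → (∀ t ∈ T, ⁅y, t⁆ ∈ D) → x * y ∈ D

theorem RuH.rg {T : Subgroup G} {W : Subgroup T} (h : RuH W) :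
    RG T (W.map T.subtype) ((Subgroup.upperCentralSeries T 3).map T.subtype) := by
  have m : ∀ (K : Subgroup T) (x : T), (x : G) ∈ K.map T.subtype ↔ x ∈ K := fun K x =>
    mem_map_iff_mem T.subtype_injective
  haveI := h.normal
  obtain ⟨z1, z2, z3, c, t, s, d⟩ := h.exD
  obtain ⟨_, ⟨e⟩⟩ := d.dih
  have nn : ∀ K : Subgroup T, K.Normal → T ≤ normalizer ((K.map T.subtype : Subgroup G) : Set G) :=
    fun K hK t ht => PGrp.mem_normalizer_of_conj_mem (by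
      rintro _ ⟨x, hx, rfl⟩
      exact ⟨_, hK.conj_mem x hx ⟨t, ht⟩, rfl⟩)
  let π := e.toMonoidHom.comp (QuotientGroup.mk' W)
  have hπ : Function.Surjective π := e.surjective.comp (QuotientGroup.mk'_surjective W)
  have kπ : ∀ x, π x = 1 ↔ x ∈ W := fun x =>
    (map_eq_one_iff e e.injective).trans (QuotientGroup.eq_one_iff x)
  refine ⟨h.hT, map_subtype_le _, map_mono h.z3_le, h.cT, ?_, ?_, nn _ this, nn _ inferInstance, ?_, ?_, ?_,
    ?_, ?_, ?_, ?_, ?_⟩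
  · rw [card_map_of_injective T.subtype_injective, h.cW]
  · rw [card_map_of_injective T.subtype_injective, h.c3]
  · intro t ht
    rw [m W ⟨t, ht⟩]
    constructor
    · intro a
      rw [h.hW]
      exact fun z hz => Subtype.ext (a z ⟨z, hz, rfl⟩)
    · rintro a _ ⟨z, hz, rfl⟩
      exact congrArg Subtype.val (h.comm a hz)
  · rintro _ ⟨x, hx, rfl⟩; exact ⟨_, h.sq hx, rfl⟩
  · rintro _ ⟨x, hx, rfl⟩ _ ⟨y, hy, rfl⟩; exact ⟨_, h.cm hx hy, rfl⟩
  · rintro _ ⟨x, hx, rfl⟩; exact congrArg Subtype.val (h.z3_sq hx)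
  · intro U hU hc
    have hUT := hU.trans (map_subtype_le _)
    have := h.z3_le_of (U := U.subgroupOf T) (fun x hx => (m W x).1 (hU hx))
      (by rwa [Nat.card_congr (subgroupOfEquivOfLe hUT).toEquiv])
    rintro _ ⟨x, hx, rfl⟩; exact this hx
  · intro t ht a
    have key : ∀ x : DihedralGroup 4, (∀ y, x * y = y * x) → ∃ y, y ^ 2 = x := by decide
    obtain ⟨y, hy⟩ := key (π ⟨t, ht⟩) fun y => by
      obtain ⟨y, rfl⟩ := hπ y
      rw [← commutatorElement_eq_one_iff_mul_comm, ← map_commutatorElement, kπ]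
      exact (m W _).1 (a y y.2)
    obtain ⟨y, rfl⟩ := hπ y
    refine ⟨y, y.2, (m W ((y ^ 2)⁻¹ * ⟨t, ht⟩)).2 ((kπ _).1 ?_)⟩
    rw [map_mul, map_inv, map_pow, hy, inv_mul_cancel]
  · intro a
    have key : ¬ ∀ x y : DihedralGroup 4, x * y = y * x := by decide
    refine key fun x y => ?_
    obtain ⟨x, rfl⟩ := hπ x
    obtain ⟨y, rfl⟩ := hπ y
    rw [← commutatorElement_eq_one_iff_mul_comm, ← map_commutatorElement, kπ]
    exact (m W _).1 (a x x.2 y y.2)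
  · rintro _ ⟨x, -, rfl⟩ _ ⟨y, -, rfl⟩ a b c d
    refine (m _ (x * y)).2 ((ru_two (h.zr le_rfl) (ru_zs.2 fun t => (m _ _).1 (c t t.2))
      (ru_zs.2 fun t => (m _ _).1 (d t t.2))).2 (iff_of_false (fun hh => a ⟨_, hh, rfl⟩) fun hh => b ⟨_, hh, rfl⟩))

namespace RG
variable {T W D : Subgroup G} (h : RG T W D)
include h

theorem comm {w z : G} (hw : w ∈ W) (hz : z ∈ D) : z * w = w * z := (h.cen w (h.WT hw)).2 hw z hz

theorem phi_big {X : Subgroup G} (hX : X ≤ W) (hc : 2 ^ 8 ≤ Nat.card X) :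
    D ≤ (frattini X).map X.subtype := fun z hz => by
  haveI : Fact (Nat.Prime 2) := ⟨Nat.prime_two⟩
  refine ⟨⟨z, h.big X hX (by omega) hz⟩, PGrp.mem_frattini_iff.2 fun M hM => ?_, rfl⟩
  have h2 := M.card_mul_index
  rw [PGrp.index_eq_of_isCoatom (h.pT.to_le (hX.trans h.WT)) hM] at h2
  obtain ⟨m, hm, rfl⟩ := h.big (M.map X.subtype) ((map_subtype_le M).trans hX)
    (by rw [card_map_of_injective X.subtype_injective]; omega) hz
  exact hm

theorem rel : W.relIndex T = 8 := by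
  have := PGrp.card_eq_card_mul_relIndex h.WT
  rw [h.cT, h.cW] at this
  omega

theorem loc {k : G} (hk : k ∉ normalizer (D : Set G)) {Q : Subgroup G} (hQ : Q ≤ W)
    (hT : ∀ q ∈ Q, k * q * k⁻¹ ∈ T) (hc : 2 ^ 9 ≤ Nat.card Q) :
    Nat.card Q < 2 ^ 10 ∧ ∀ z ∈ D, z ∈ Q → ∃ y ∈ T, (y ^ 2)⁻¹ * (k * z * k⁻¹) ∈ W := by
  haveI : Fact (Nat.Prime 2) := ⟨Nat.prime_two⟩
  let c := (MulAut.conj k).toMonoidHom
  have ci : Function.Injective c := (MulAut.conj k).injective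
  have hQ' : Q.map c ≤ T := by rintro _ ⟨q, hq, rfl⟩; exact hT q hq
  set X := W.comap c ⊓ Q with hX
  have h1 := PGrp.card_inf_mul_relIndex (W.comap c) Q
  rw [relIndex_comap, ← hX] at h1
  have h2 : W.relIndex (Q.map c) ≤ 8 := h.rel ▸ relIndex_le_of_le_right hQ' (by rw [h.rel]; omega)
  have cover : W.relIndex (Q.map c) = 8 → ∀ t ∈ T, ∃ w ∈ W, ∃ q ∈ Q, w * (k * q * k⁻¹) = t := by
    intro e t ht
    have n := hQ'.trans h.nW
    have : W ⊔ Q.map c = T := PGrp.eq_of_le_of_card_le (sup_le h.WT hQ') (by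
      rw [PGrp.card_eq_card_mul_relIndex (le_sup_left : W ≤ W ⊔ Q.map c),
        PGrp.relIndex_sup_of_le_normalizer n, e, h.cT, h.cW]; norm_num)
    obtain ⟨w, hw, _, ⟨q, hq, rfl⟩, e⟩ := (PGrp.mem_sup_of_le_normalizer n).1 (this.ge ht)
    exact ⟨w, hw, q, hq, e⟩
  have cw : ∀ x ∈ T, ∀ w ∈ W, ∀ y ∈ T, ⁅x, y⁆ ∈ W → ⁅x, w * y⁆ ∈ W := fun x hx w hw y hy a => by
    have e : ⁅x, w * y⁆ = (x * w * x⁻¹) * ⁅x, y⁆ * w⁻¹ := by simp only [commutatorElement_def]; group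
    rw [e]
    exact mul_mem (mul_mem (PGrp.conj_mem_of_mem_normalizer (h.nW hx) hw) a) (inv_mem hw)
  have h3 : Nat.card X < 2 ^ 8 := by
    by_contra hc8
    have a : X.map c ≤ W := by rintro _ ⟨q, hq, rfl⟩; exact hq.1
    have b := h.phi_big a (by rw [card_map_of_injective ci]; omega)
    have d : (frattini (X.map c)).map (X.map c).subtype ≤ D.map c :=
      (PGrp.map_frattini_le_iff (h.pT.to_le (a.trans h.WT))).2 ⟨by
        rw [← map_commutator]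
        exact map_mono (commutator_le.2 fun x hx y hy => h.cm _ (hQ hx.2) _ (hQ hy.2)), by
        rintro _ ⟨q, hq, rfl⟩
        exact ⟨_, h.sq _ (hQ hq.2), map_pow _ _ _⟩⟩
    have e := PGrp.eq_of_le_of_card_le (b.trans d) (by rw [card_map_of_injective ci])
    exact hk (PGrp.mem_normalizer_of_conj_mem fun n hn => e.ge ⟨n, hn, rfl⟩)
  obtain ⟨j, hj⟩ := (h.pT.to_le ((inf_le_right.trans hQ).trans h.WT : X ≤ T)).exists_card_eq
  have hj8 : j < 8 := (Nat.pow_lt_pow_iff_right (by omega)).1 (hj ▸ h3)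
  by_cases h7 : j = 7
  · subst h7
    have hD := h.big X (inf_le_right.trans hQ) hj.ge
    refine ⟨?_, fun z hz _ => ⟨1, one_mem _, by rw [one_pow, inv_one, one_mul]; exact (hD hz).1⟩⟩
    by_contra hh
    have := cover (by rw [hj] at h1; omega)
    refine h.nab fun x hx y hy => ?_
    obtain ⟨w, hw, q, hq, rfl⟩ := this x hx
    obtain ⟨w', hw', q', hq', rfl⟩ := this y hy
    refine cw _ hx _ hw' _ (hT _ hq') (PGrp.commutator_symm_mem (cw _ (hT _ hq') _ hw _ (hT _ hq) ?_))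
    rw [← conjugate_commutatorElement]
    exact (hD (h.cm _ (hQ hq') _ (hQ hq))).1
  · have : 2 ^ j ≤ 2 ^ 6 := Nat.pow_le_pow_right (by omega) (by omega)
    have h4 := Nat.mul_le_mul this h2
    rw [hj] at h1
    refine ⟨by omega, fun z hz hzQ => h.zc _ (hT z hzQ) fun y hy => ?_⟩
    obtain ⟨w, hw, q, hq, rfl⟩ := cover (by
      by_contra hh
      have := Nat.mul_le_mul this (show W.relIndex (Q.map c) ≤ 7 by omega)
      omega) y hy
    refine cw _ (hT z hzQ) _ hw _ (hT _ hq) ?_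
    rw [← conjugate_commutatorElement, commutatorElement_eq_one_iff_mul_comm.2 (h.comm (hQ hq) hz)]
    simp

end RG

section
open Transfer
variable {H : Subgroup G} {B : Type*} [CommGroup B] (φ : H →* B) [Fintype (G ⧸ H)]

theorem ru_ptr_mul {Y : Subgroup G} {ω : G ⧸ H} (x : G) {y : G} (hy : y ∈ Y) :
    ptr φ (orb Y ω) (x * y) = ptr φ (orb Y ω) x * ptr φ (orb Y ω) y :=
  ptr_mul φ x (smul_mem_orb_iff hy)

theorem ru_ptr_step {Y0 Y1 : Subgroup G} {ω : G ⧸ H} (hle : Y0 ≤ Y1) (hn : Y1 ≤ normalizer (Y0 : Set G))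
    (hr : Y0.relIndex Y1 = 2) (hs : ∀ x ∈ Y1, x • ω = ω → x ∈ Y0) {z : G} (hz : z ∈ Y1) (hz0 : z ∉ Y0) :
    (∀ y ∈ Y0, ptr φ (orb Y1 ω) y = ptr φ (orb Y0 ω) (y * (z⁻¹ * y * z))) ∧
      ptr φ (orb Y1 ω) z = ptr φ (orb Y0 ω) (z ^ 2) := by
  haveI : Fact (Nat.Prime 2) := ⟨Nat.prime_two⟩
  have e := PGrp.sup_zpowers_eq_of_relIndex_prime Nat.prime_two hr hle hz hz0
  have z2 := PGrp.pow_mem_of_relIndex_eq hn hr hz
  have key := fun f : G ⧸ H → B => prod_orb_sup (p := 2) (ω := ω) (hn hz) hz0 z2 (e.symm ▸ hs) f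
  rw [e] at key
  constructor
  · intro y hy
    have hy' := PGrp.conj_mem_of_mem_normalizer' (hn hz) hy
    rw [ru_ptr_mul φ _ hy', ← prod_coc_smul φ (smul_mem_orb_iff hy'), ptr, key]
    simp [Finset.prod_range_succ, ptr]
  · rw [ptr, key, ptr]
    simp only [coc_pow, Finset.prod_range_succ, Finset.prod_range_zero, one_mul, Finset.prod_mul_distrib]

theorem ru_chain {T S R : Subgroup G} (hT : IsPGroup 2 T) (hR : R ≤ T) (P : Subgroup G → Prop) (h0 : P S)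
    (h1 : ∀ Y0 Y1, S ≤ Y0 → Y0 ≤ Y1 → Y1 ≤ R → Y1 ≤ normalizer (Y0 : Set G) → Y0.relIndex Y1 = 2 →
      P Y0 → P Y1) : ∀ (n : ℕ) (Y : Subgroup G), Nat.card Y = n → S ≤ Y → Y ≤ R → P Y := by
  haveI : Fact (Nat.Prime 2) := ⟨Nat.prime_two⟩
  intro n
  induction n using Nat.strong_induction_on with
  | _ n ih =>
  intro Y hn a b
  rcases a.eq_or_lt with rfl | a
  · exact h0
  obtain ⟨M, m1, m2, m3, m4⟩ := PGrp.exists_relIndex_prime_ge (hT.to_le (b.trans hR)) a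
  refine h1 M Y m1 m2 b m4 m3 (ih _ ?_ M rfl m1 (m2.trans b))
  have := PGrp.card_eq_card_mul_relIndex m2
  have := Nat.card_pos (α := M)
  rw [m3] at *
  omega

theorem RG.orbit {T W D : Subgroup G} (h : RG T W D) (hB : ∀ b : B, b ^ 2 = 1) (ω : G ⧸ H)
    (hloc : 2 ^ 9 ≤ Nat.card (W ⊓ (T ⊓ MulAction.stabilizer G ω) : Subgroup G) →
      Nat.card (W ⊓ (T ⊓ MulAction.stabilizer G ω) : Subgroup G) < 2 ^ 10 ∧
        ∀ z ∈ D, z • ω = ω → coc φ z ω = 1) :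
    ∀ u ∈ T, ptr φ (orb T ω) u = 1 := by
  haveI : Fact (Nat.Prime 2) := ⟨Nat.prime_two⟩
  set S := T ⊓ MulAction.stabilizer G ω with hS
  have hST : S ≤ T := inf_le_left
  have hRT : W ⊔ S ≤ T := sup_le h.WT hST
  have one : ∀ Y : Subgroup G, ptr φ (orb Y ω) 1 = 1 := fun Y => by simp [ptr, coc_one]
  have main : ∀ m, Nat.card S < 2 * m → (m ≤ Nat.card S → ∀ z ∈ D, z ∈ S → ptr φ (orb S ω) z = 1) →
      4 * m ≤ Nat.card (W ⊔ S : Subgroup G) → ∀ y ∈ W ⊔ S, ptr φ (orb (W ⊔ S) ω) y = 1 := by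
    intro m m1 m2 m3
    refine (ru_chain h.pT hRT (fun Y => (m ≤ Nat.card Y → ∀ z ∈ D, z ∈ Y → ptr φ (orb Y ω) z = 1) ∧
      (2 * m ≤ Nat.card Y → ∀ z ∈ W, z ∈ Y → ptr φ (orb Y ω) z = 1) ∧
      (4 * m ≤ Nat.card Y → ∀ z ∈ Y, ptr φ (orb Y ω) z = 1))
      ⟨m2, fun _ => by omega, fun _ => by omega⟩ ?_ _ _ rfl le_sup_right le_rfl).2.2 m3
    rintro Y0 Y1 a b c d e ⟨p0, p1, -⟩
    have hc := PGrp.card_eq_card_mul_relIndex b
    rw [e] at hc
    have hs : ∀ x ∈ Y1, x • ω = ω → x ∈ Y0 := fun x hx hh => a ⟨hRT (c hx), hh⟩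
    obtain ⟨w, hw, hw1, hw0⟩ : ∃ w ∈ W, w ∈ Y1 ∧ w ∉ Y0 := by
      have : ¬ Y1 ≤ Y0 := fun hh => by rw [relIndex_eq_one.2 hh] at e; omega
      obtain ⟨x, hx, hx0⟩ := SetLike.not_le_iff_exists.1 this
      obtain ⟨w, hw, s, hs, rfl⟩ := (PGrp.mem_sup_of_le_normalizer (hST.trans h.nW)).1 (c hx)
      exact ⟨w, hw, (mul_mem_cancel_right (b (a hs))).1 hx, fun hh => hx0 (mul_mem hh (a hs))⟩
    have st := fun z hz hz0 => ru_ptr_step φ (ω := ω) b d e hs (z := z) hz hz0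
    have s1 := (st w hw1 hw0).1
    have e1 : ∀ y, y * (w⁻¹ * y * w) = y ^ 2 * ⁅y⁻¹, w⁻¹⁆ := fun y => by
      simp only [commutatorElement_def, pow_two]; group
    have m0 : ∀ y ∈ Y0, y * (w⁻¹ * y * w) ∈ Y0 := fun y hy =>
      mul_mem hy (PGrp.conj_mem_of_mem_normalizer' (d hw1) hy)
    refine ⟨fun _ z hz hz1 => ?_, fun hm z hz hz1 => ?_, fun hm => ?_⟩
    · by_cases hz0 : z ∈ Y0
      · rw [s1 z hz0, mul_assoc, h.comm hw hz, inv_mul_cancel_left, ← pow_two, h.dsq z hz, one]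
      · rw [(st z hz1 hz0).2, h.dsq z hz, one]
    · by_cases hz0 : z ∈ Y0
      · rw [s1 z hz0]
        refine p0 (by omega) _ ?_ (m0 z hz0)
        rw [e1]; exact mul_mem (h.sq z hz) (h.cm _ (inv_mem hz) _ (inv_mem hw))
      · rw [(st z hz1 hz0).2]
        exact p0 (by omega) _ (h.sq z hz) (PGrp.pow_mem_of_relIndex_eq d e hz1)
    · have q : ∀ y ∈ Y0, ptr φ (orb Y1 ω) y = 1 := fun y hy => by
        have m1 : ⁅y⁻¹, w⁻¹⁆ ∈ Y0 := (mul_mem_cancel_left (pow_mem hy 2)).1 (e1 y ▸ m0 y hy)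
        rw [s1 y hy, e1, ru_ptr_mul φ _ m1, pow_two, ru_ptr_mul φ _ hy, ← pow_two, hB, one_mul]
        refine p1 (by omega) _ ?_ m1
        exact mul_mem (PGrp.conj_mem_of_mem_normalizer (h.nW (inv_mem (hRT (c (b hy))))) (inv_mem hw))
          (inv_mem (inv_mem hw))
      intro z hz1
      by_cases hz0 : z ∈ Y0
      · exact q z hz0
      · have m1 : z * w⁻¹ ∈ Y0 := (ru_two e hz1 (inv_mem hw1)).2 (by simp [hz0, hw0])
        rw [show z = z * w⁻¹ * w by group, ru_ptr_mul φ _ hw1, q _ m1, (st w hw1 hw0).2, one_mul]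
        exact p1 (by omega) _ (pow_mem hw 2) (PGrp.pow_mem_of_relIndex_eq d e hw1)
  have hR : ∀ y ∈ W ⊔ S, ptr φ (orb (W ⊔ S) ω) y = 1 := by
    have hc := PGrp.card_sup_mul_card_inf (hST.trans h.nW)
    obtain ⟨j, hj⟩ := (h.pT.to_le (inf_le_left.trans h.WT : W ⊓ S ≤ T)).exists_card_eq
    have hp := Nat.card_pos (α := S)
    rw [hj, h.cW] at hc
    rw [hj] at hloc
    by_cases h9 : 9 ≤ j
    · obtain ⟨a, b⟩ := hloc (Nat.pow_le_pow_right (by omega) h9)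
      obtain rfl : j = 9 := by have := (Nat.pow_lt_pow_iff_right (by omega)).1 a; omega
      refine main (Nat.card S) (by omega) (fun _ z hz hzS => ?_) (by omega)
      have : orb S ω = {ω} := by
        ext ω'
        rw [mem_orb, Finset.mem_singleton]
        exact ⟨fun ⟨x, hx, e⟩ => e.symm.trans hx.2, fun e => ⟨1, one_mem _, by simp [e]⟩⟩
      rw [this, ptr, Finset.prod_singleton, b z hz hzS.2]
    · have : 2 ^ j ≤ 2 ^ 8 := Nat.pow_le_pow_right (by omega) (by omega)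
      have := Nat.mul_le_mul_left (Nat.card (W ⊔ S : Subgroup G)) this
      exact main (2 * Nat.card S) (by omega) (fun _ => by omega) (by omega)
  refine ru_chain h.pT le_rfl (fun Y => ∀ y ∈ Y, ptr φ (orb Y ω) y = 1) hR ?_ _ T rfl hRT le_rfl
  intro Y0 Y1 a b c d e p y hy
  have hs : ∀ x ∈ Y1, x • ω = ω → x ∈ Y0 := fun x hx hh => a (mem_sup_right ⟨c hx, hh⟩)
  by_cases hy0 : y ∈ Y0
  · have : ¬ Y1 ≤ Y0 := fun hh => by rw [relIndex_eq_one.2 hh] at e; omega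
    obtain ⟨x, hx, hx0⟩ := SetLike.not_le_iff_exists.1 this
    rw [(ru_ptr_step φ b d e hs hx hx0).1 y hy0]
    exact p _ (mul_mem hy0 (PGrp.conj_mem_of_mem_normalizer' (d hx) hy0))
  · rw [(ru_ptr_step φ b d e hs hy hy0).2]
    exact p _ (PGrp.pow_mem_of_relIndex_eq d e hy)

end

theorem ru_b2 : ∀ b : Multiplicative (ZMod 2), b ^ 2 = 1 := by decide

theorem RG.transfer {T : Sylow 2 G} {W D : Subgroup G} (h : RG T W D) (h2 : ∀ H : Subgroup G, H.index ≠ 2)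
    (φ : normalizer (D : Set G) →* Multiplicative (ZMod 2))
    (hφ : ∀ x : normalizer (D : Set G), (x : G) ∈ W → φ x = 1) (u : normalizer (D : Set G))
    (hu : (u : G) ∈ (T : Subgroup G)) : φ u = 1 := by
  classical
  haveI : Fact (Nat.Prime 2) := ⟨Nat.prime_two⟩
  haveI := Fintype.ofFinite (G ⧸ normalizer (D : Set G))
  have hB := ru_b2
  have h1 : Transfer.ctr φ u = 1 := by
    have b := card_dvd_of_le (le_top : (Transfer.ctr φ).range ≤ ⊤)
    rw [card_top, Nat.card_congr Multiplicative.toAdd, Nat.card_zmod, ← index_ker,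
      Nat.dvd_prime Nat.prime_two] at b
    have c := index_eq_one.1 (b.resolve_right (h2 _))
    exact MonoidHom.mem_ker.1 (c ▸ mem_top _)
  set b0 : G ⧸ normalizer (D : Set G) := ((1 : G) : G ⧸ normalizer (D : Set G)) with hb0
  have fx : ∀ x ∈ (T : Subgroup G), x • b0 = b0 := fun x hx => by
    rw [hb0, MulAction.Quotient.smul_mk, QuotientGroup.eq]; simpa using h.nD hx
  have h3 : ∏ ω ∈ Finset.univ.erase b0, Transfer.coc φ u ω = 1 := by
    refine Transfer.prod_eq_one_of_orb _ (T : Subgroup G) _ (fun x hx ω => ?_) fun ω hω => ?_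
    · simp only [Finset.mem_erase, Finset.mem_univ, and_true, ne_eq]
      conv_lhs => rw [← fx x hx, smul_left_cancel_iff]
    refine h.orbit φ hB ω (fun hc => ?_) u hu
    set Q := W ⊓ ((T : Subgroup G) ⊓ MulAction.stabilizer G ω) with hQ
    let c := (MulAut.conj ω.out⁻¹).toMonoidHom
    obtain ⟨k, hk, hk'⟩ := Transfer.exists_conj_mem_sylow_of_le h.nD (A := Q.map c)
      ((h.pT.to_le (inf_le_left.trans h.WT)).map c) (by
        rintro _ ⟨q, hq, rfl⟩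
        obtain ⟨a, -⟩ := Transfer.coc_of_fixed φ hq.2.2
        simpa [c] using a)
    have := h.loc (k := k * ω.out⁻¹) (fun hh => (Finset.mem_erase.1 hω).1 (by
      rw [← QuotientGroup.out_eq' ω, hb0, QuotientGroup.eq, mul_one]
      exact (mul_mem_cancel_left hk).1 hh)) (Q := Q) inf_le_left (fun q hq => by
        have := hk' _ ⟨q, hq, rfl⟩
        simpa [c, mul_assoc] using this) hc
    refine ⟨this.1, fun z hz hzω => ?_⟩
    obtain ⟨y, hy, e⟩ := this.2 z hz ⟨h.DW hz, h.WT (h.DW hz), hzω⟩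
    obtain ⟨a, e'⟩ := Transfer.coc_of_fixed φ hzω
    have := hφ ((⟨y, h.nD hy⟩ ^ 2)⁻¹ * (⟨k, hk⟩ * ⟨_, a⟩ * ⟨k, hk⟩⁻¹)) (by simpa [mul_assoc] using e)
    rw [map_mul, map_inv, map_pow, hB, inv_one, one_mul, map_mul, map_mul, map_inv, mul_right_comm,
      mul_inv_cancel, one_mul] at this
    rw [e', this]
  have h4 : Transfer.ctr φ u = ∏ ω, Transfer.coc φ u ω := rfl
  rw [h4, ← Finset.mul_prod_erase _ _ (Finset.mem_univ b0), h3, mul_one, Transfer.coc_base] at h1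
  exact h1

end Cfsg.Agent.Mix26
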