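import Mathlib
import Cfsg.Agent.Mix26.Ru6
import Cfsg.Agent.Core.SylowOf
import Cfsg.Agent.Comp2.Cores
import Cfsg.Agent.Transfer.ThompsonMin
import Cfsg.Agent.PLocal.LX3
import Cfsg.Agent.S0249

set_option autoImplicit false
set_option linter.unusedSectionVars false
open Subgroup
open scoped commutatorElement Pointwise

namespace Cfsg.Agent.Mix26

theorem ru_gl : IsSimpleGroup (GL (Fin 3) (ZMod 2)) := by
  have := S0249.result (F := ZMod 2) 3 le_rfl
  have h5 : center (Matrix.SpecialLinearGroup (Fin 3) (ZMod 2)) = ⊥ := eq_bot_iff.2 fun g hg => by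
    obtain ⟨r, h6, h7⟩ := Matrix.SpecialLinearGroup.mem_center_iff.1 hg
    obtain rfl : r = 1 := (ru_z2 r).resolve_left fun e => by simp [e] at h6
    exact Subtype.ext (by simpa using h7.symm)
  have := (QuotientGroup.quotientBot.symm.trans
    (QuotientGroup.quotientMulEquivOfEq h5.symm)).isSimpleGroup
  exact (MulEquiv.ofBijective Matrix.SpecialLinearGroup.toGL
    ⟨Matrix.SpecialLinearGroup.toGL_injective, fun g => ⟨⟨g.1, (ru_z2 _).resolve_left g.det_ne_zero⟩,
      Units.ext rfl⟩⟩).symm.isSimpleGroup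

theorem ru_c3 : Nat.card (GL (Fin 3) (ZMod 2)) = 168 := by
  rw [Matrix.card_GL_field]; simp [Fin.prod_univ_succ]

theorem ru_c8 : Nat.card (GL (Fin 8) (ZMod 2)) = 2 ^ 28 * 3 ^ 5 * 5 ^ 2 * 7 ^ 2 * 17 * 31 * 127 := by
  rw [Matrix.card_GL_field]; simp [Fin.prod_univ_succ]

theorem ru_d8a' : ∀ i : ZMod 4, (DihedralGroup.r i : DihedralGroup 4) ≠ 1 →
    (DihedralGroup.r i : DihedralGroup 4) * .r i = 1 → (DihedralGroup.r i : DihedralGroup 4) = .r 2 := by decide

theorem ru_d8a (x : DihedralGroup 4) (h : x ∈ zpowers (DihedralGroup.r 1 : DihedralGroup 4)) : x ≠ 1 →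
    x * x = 1 → x = DihedralGroup.r 2 := by
  obtain ⟨k, rfl⟩ := h
  simp only [DihedralGroup.r_one_zpow]
  exact ru_d8a' _

theorem ru_d8b : ∀ x : DihedralGroup 4, x * DihedralGroup.r 2 = DihedralGroup.r 2 * x := by decide

theorem ru_d8c : Fintype.card {x : DihedralGroup 4 // x ≠ 1 ∧ x * x = 1} = 5 := by decide

theorem ru_five {X : Type*} [Group X] [Finite X] (h2 : ∀ H : Subgroup X, H.index ≠ 2)
    (f : DihedralGroup 4 →* X) (hf : Function.Injective f) (ho : Odd f.range.index) : 5 ≤ f.range.index := by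
  haveI : Fact (Nat.Prime 2) := ⟨Nat.prime_two⟩
  have key : ∀ u : {x : DihedralGroup 4 // x ≠ 1 ∧ x * x = 1},
      ∃ g : X, g * f u * g⁻¹ = f (DihedralGroup.r 2) := by
    rintro ⟨u, u1, u2⟩
    by_contra hh
    obtain ⟨M, -, a, -⟩ := Transfer.thompson_transfer (Q := (zpowers (DihedralGroup.r 1)).map f) (u := f u) ho
      (by
        rw [MonoidHom.range_eq_map, relIndex_map_map_of_injective _ _ hf, relIndex_top_right]
        have := (zpowers (DihedralGroup.r 1 : DihedralGroup 4)).card_mul_index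
        rw [Nat.card_zpowers, DihedralGroup.orderOf_r_one, DihedralGroup.nat_card] at this
        omega)
      (by rw [orderOf_injective f hf]; exact orderOf_eq_prime (by rw [pow_two, u2]) u1) (by
        rintro g ⟨x, hx, e⟩
        refine hh ⟨g, e ▸ congrArg f (ru_d8a x hx (fun e1 => u1 (hf ?_)) (hf ?_))⟩
        · rw [e1, map_one] at e
          rw [map_one]; exact conj_eq_one_iff.1 e.symm
        · rw [map_mul, e, conj_mul, ← map_mul, u2]; simp)
    exact h2 M a
  choose g hg using key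
  rw [← ru_d8c, ← Nat.card_eq_fintype_card]
  refine Nat.card_le_card_of_injective (fun u => (((g u)⁻¹ : X) : X ⧸ f.range)) fun u v e => ?_
  obtain ⟨y, hy⟩ := QuotientGroup.eq.1 e
  refine Subtype.ext (hf ?_)
  have e1 : f u = (g u)⁻¹ * f (DihedralGroup.r 2) * g u := by rw [← hg u]; group
  have e2 : f v = (g v)⁻¹ * f (DihedralGroup.r 2) * g v := by rw [← hg v]; group
  have e3 : (g v)⁻¹ = (g u)⁻¹ * f y := by rw [hy]; group
  have e4 : g v = (f y)⁻¹ * g u := by rw [hy]; group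
  rw [e1, e2, e3, mul_assoc _ (f y), ← map_mul, ru_d8b, map_mul, e4]
  group

theorem ru_onto {Γ : Type*} [Group Γ] [IsSimpleGroup Γ] (hΓ : Nat.card Γ = 168) (X : Subgroup Γ)
    (h2 : ∀ H : Subgroup X, H.index ≠ 2) (f : DihedralGroup 4 →* X) (hf : Function.Injective f) : X = ⊤ := by
  haveI : Finite Γ := Nat.finite_of_card_ne_zero (by omega)
  have a := X.card_mul_index
  have b := f.range.card_mul_index
  rw [← Nat.card_congr (MonoidHom.ofInjective hf).toEquiv, DihedralGroup.nat_card] at b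
  have c : f.range.index * X.index = 21 := by rw [← b, hΓ] at a; linarith
  have d := ru_five h2 f hf (Odd.of_dvd_nat (by decide) (Dvd.intro _ c))
  by_contra hX
  have e : X.normalCore.index ∣ X.index.factorial := by
    rw [normalCore_eq_ker, index_ker, index_eq_card, ← Nat.card_perm]
    exact card_subgroup_dvd_card _
  rw [(IsSimpleGroup.eq_bot_or_eq_top_of_normal X.normalCore inferInstance).resolve_right
    (fun e => hX (top_le_iff.1 (e ▸ X.normalCore_le))), index_bot, hΓ] at e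
  have : X.index ≤ 4 := by nlinarith
  generalize X.index = n at *
  interval_cases n <;> revert e <;> decide

theorem ru_num {r a b : ℕ} (hr : r.Prime) (h2 : r ≠ 2) (hab : b < a)
    (hd : r ^ a * 168 ∣ 2 ^ 28 * 3 ^ 5 * 5 ^ 2 * 7 ^ 2 * 17 * 31 * 127) (hm : r ^ a ≡ r ^ b [MOD 7]) :
    r = 127 ∧ a = 1 := by
  have h1 := ((dvd_pow_self r (by omega : a ≠ 0)).mul_right 168).trans hd
  have p := fun (q k : ℕ) (hq : q.Prime) (h : r ∣ q ^ k) =>
    (Nat.prime_dvd_prime_iff_eq hr hq).1 (hr.dvd_of_dvd_pow h)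
  have h3 : r = 3 ∨ r = 5 ∨ r = 7 ∨ r = 17 ∨ r = 31 ∨ r = 127 := by
    simp only [hr.dvd_mul] at h1
    rcases h1 with (((((h | h) | h) | h) | h) | h) | h
    · exact absurd (p 2 _ (by norm_num) h) h2
    · simp [p 3 _ (by norm_num) h]
    · simp [p 5 _ (by norm_num) h]
    · simp [p 7 _ (by norm_num) h]
    · simp [p 17 1 (by norm_num) (by simpa using h)]
    · simp [p 31 1 (by norm_num) (by simpa using h)]
    · simp [p 127 1 (by norm_num) (by simpa using h)]
  have h4 : a < 5 := by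
    by_contra hh
    have := (Nat.mul_dvd_mul_right (pow_dvd_pow r (not_lt.1 hh)) 168).trans hd
    rcases h3 with rfl | rfl | rfl | rfl | rfl | rfl <;> revert this <;> norm_num
  rcases h3 with rfl | rfl | rfl | rfl | rfl | rfl <;> interval_cases a <;> interval_cases b <;>
    revert hd hm <;> decide +kernel

theorem ru_core {A Γ : Type*} [Group A] [Finite A] [Group Γ] [IsSimpleGroup Γ] (hΓ : Nat.card Γ = 168)
    (π : A →* Γ) (hπ : Function.Surjective π)
    (hA : Nat.card A ∣ 2 ^ 28 * 3 ^ 5 * 5 ^ 2 * 7 ^ 2 * 17 * 31 * 127) (ho : ¬ 2 ∣ Nat.card π.ker)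
    (hK : π.ker ≠ ⊥) {S : Subgroup A} (hS : IsPGroup 2 S) :
    ∃ ρ ∈ π.ker, ρ ≠ 1 ∧ ∀ s ∈ S, s * ρ = ρ * s := by
  haveI : Fact (Nat.Prime 2) := ⟨Nat.prime_two⟩
  obtain ⟨r, hr, hrK⟩ := Nat.exists_prime_and_dvd (mt card_eq_one.1 hK)
  haveI := Fact.mk hr
  obtain ⟨R, hR⟩ := Core.exists_isSylowOf r π.ker
  have hF := hR.frattini_top
  have hi : π.ker.index = 168 := by rw [index_ker, MonoidHom.range_eq_top.2 hπ, card_top, hΓ]
  set C := centralizer (R : Set A)
  have hJ : (C.map π).Normal := ⟨by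
    rintro _ ⟨c, hc, rfl⟩ γ
    obtain ⟨g, rfl⟩ := hπ γ
    obtain ⟨k, hk, n, hn, rfl⟩ := (PGrp.mem_sup_of_le_normalizer le_normalizer_of_normal).1 (hF.ge (mem_top g))
    refine ⟨_, PGrp.conj_mem_of_mem_normalizer (Core.normalizer_le_normalizer_centralizer _ hn) hc, ?_⟩
    simp [MonoidHom.mem_ker.1 hk]⟩
  rcases IsSimpleGroup.eq_bot_or_eq_top_of_normal _ hJ with e | e
  · exfalso
    have h1 : 168 ∣ Nat.card (MulAut R) := by
      refine .trans ?_ (PGrp.relIndex_centralizer_dvd_card_mulAut (le_refl _))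
      rw [← hi, ← relIndex_top_right, ← hF, relIndex_sup_left]
      exact relIndex_dvd_of_le_left _ ((Subgroup.map_eq_bot_iff _).1 e)
    haveI : Fact (Nat.Prime 7) := ⟨by norm_num⟩
    obtain ⟨σ, hσ⟩ := exists_prime_orderOf_dvd_card' 7 (Dvd.dvd.trans (by norm_num) h1)
    have h7 : IsPGroup 7 (zpowers σ) := IsPGroup.of_card (n := 1) (by rw [Nat.card_zpowers, hσ, pow_one])
    have h3 := h7.card_modEq_card_fixedPoints R
    obtain ⟨a, ha⟩ := hR.isPGroup.exists_card_eq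
    obtain ⟨b, hb⟩ := (hR.isPGroup.to_subgroup (FixedPoints.subgroup (zpowers σ) R)).exists_card_eq
    have hab : b < a := by
      refine (Nat.pow_lt_pow_iff_right hr.one_lt).1 (ha ▸ hb ▸ ?_)
      refine lt_of_le_of_ne (card_le_card_group _) fun hh => ?_
      have := (card_eq_iff_eq_top _).1 hh
      have h1 : σ = 1 := MulEquiv.ext fun x => (this.ge (mem_top x) : _) ⟨σ, mem_zpowers σ⟩
      rw [h1, orderOf_one] at hσ
      omega
    obtain ⟨rfl, rfl⟩ := ru_num hr (fun e => ho (e ▸ hrK)) hab (by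
      refine .trans ?_ hA
      rw [← π.ker.card_mul_index, hi, ← ha]
      exact Nat.mul_dvd_mul_right (card_dvd_of_le hR.le) _) (by rw [← ha, ← hb]; exact h3)
    rw [pow_one] at ha
    haveI := isCyclic_of_prime_card ha
    rw [IsCyclic.card_mulAut, ha, Nat.totient_prime hr] at h1
    revert h1; decide
  · obtain ⟨P, hP⟩ := Core.exists_isSylowOf 2 C
    have h1 : π.ker ⊔ C = ⊤ := by rw [sup_comm, ← comap_map_eq, e, comap_top]
    have h3 : C.index ∣ Nat.card π.ker := by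
      have a := PGrp.card_sup_mul_card_inf (N := π.ker) (H := C) le_normalizer_of_normal
      rw [h1, card_top, ← C.card_mul_index, mul_assoc, mul_comm (Nat.card π.ker)] at a
      exact Dvd.intro _ (Nat.eq_of_mul_eq_mul_left Nat.card_pos a)
    obtain ⟨k, -, hk⟩ := (hP.trans le_top (by rw [relIndex_top_right]; exact fun hh => ho (hh.trans h3))).exists_conj_le
      hS le_top
    obtain ⟨⟨ρ, hρ⟩, h1⟩ := (ne_bot_iff_exists_ne_one).1 (hR.ne_bot hrK)
    refine ⟨k⁻¹ * ρ * k, by simp [MonoidHom.mem_ker.1 (hR.le hρ)], fun hh => h1 (Subtype.ext ?_), fun s hs => ?_⟩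
    · exact conj_eq_one_iff.1 (by rwa [inv_inv] : k⁻¹ * ρ * k⁻¹⁻¹ = 1)
    · have := hP.le (hk (smul_mem_pointwise_smul s (MulAut.conj k) S hs)) ρ hρ
      simp only [MulAut.smul_def, MulAut.conj_apply] at this
      calc s * (k⁻¹ * ρ * k) = k⁻¹ * (k * s * k⁻¹ * ρ) * k := by group
        _ = _ := by rw [← this]; group

theorem ru_ker {N Γ L : Type*} [Group N] [Finite N] [Group Γ] [Group L] [IsSimpleGroup Γ]
    (hΓ : Nat.card Γ = 168) (hL : Nat.card L = 2 ^ 28 * 3 ^ 5 * 5 ^ 2 * 7 ^ 2 * 17 * 31 * 127)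
    (α : N →* Γ) (β : N →* L) (hα : Function.Surjective α) (hk : β.ker ≤ α.ker)
    (ho : ¬ 2 ∣ β.ker.relIndex α.ker) (hn : ¬ α.ker ≤ β.ker) {S : Subgroup N} (hS : IsPGroup 2 S) :
    ∃ ρ, β ρ ≠ 1 ∧ Odd (orderOf (β ρ)) ∧ ∀ s ∈ S, β s * β ρ = β ρ * β s := by
  haveI : Finite L := Nat.finite_of_card_ne_zero (by rw [hL]; norm_num)
  have hs := β.rangeRestrict_surjective
  let π : β.range →* Γ := β.rangeRestrict.liftOfSurjective hs ⟨α, by rwa [MonoidHom.ker_rangeRestrict]⟩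
  have hπ : ∀ n, π (β.rangeRestrict n) = α n := fun n =>
    β.rangeRestrict.liftOfRightInverse_comp_apply _ _ _ n
  have hK : π.ker = α.ker.map β.rangeRestrict := by
    ext x
    obtain ⟨n, rfl⟩ := hs x
    rw [MonoidHom.mem_ker, hπ]
    exact ⟨fun a => ⟨n, a, rfl⟩, fun ⟨m, a, e⟩ => by rw [← hπ, ← e, hπ]; exact a⟩
  have ho' : ¬ 2 ∣ Nat.card π.ker := by rwa [hK, ← relIndex_ker, MonoidHom.ker_rangeRestrict]
  obtain ⟨ρ, a, b, c⟩ := ru_core hΓ π (fun γ => by obtain ⟨n, rfl⟩ := hα γ; exact ⟨_, hπ n⟩)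
    (hL ▸ card_subgroup_dvd_card _) ho' (by rwa [hK, Ne, Subgroup.map_eq_bot_iff, MonoidHom.ker_rangeRestrict])
    (hS.map β.rangeRestrict)
  have d := (Nat.not_even_iff_odd.1 (mt even_iff_two_dvd.1 ho')).of_dvd_nat (π.ker.orderOf_dvd_natCard a)
  obtain ⟨ρ, rfl⟩ := hs ρ
  exact ⟨ρ, fun e => b (Subtype.ext e), by rwa [← orderOf_coe] at d,
    fun s hs => congrArg Subtype.val (c _ ⟨s, hs, rfl⟩)⟩

theorem ru_le {X : Type*} [Group X] [Finite X] {K P : Subgroup X} [K.Normal] (h : HasNormalPComplement 2 K)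
    (hP : ¬ 2 ∣ P.relIndex K) : K ≤ P ⊔ pPrimeCore 2 X := by
  haveI : Fact (Nat.Prime 2) := ⟨Nat.prime_two⟩
  have a := Transfer.pResidual_sup_eq_top_of_not_dvd_index hP
  have b : (pResidual 2 K).map K.subtype ≤ pPrimeCore 2 X := Comp2.le_pPrimeCore (by
    rw [card_map_of_injective K.subtype_injective, Nat.coprime_comm, Nat.prime_two.coprime_iff_not_dvd]
    exact Transfer.hasNormalPComplement_iff_not_dvd.1 h)
  intro k hk
  obtain ⟨x, hx, y, hy, e⟩ := (PGrp.mem_sup_of_le_normalizer le_normalizer_of_normal).1 (a.ge (mem_top ⟨k, hk⟩))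
  rw [show k = x * y from congrArg Subtype.val e.symm]
  exact mul_mem (mem_sup_right (b ⟨x, hx, rfl⟩)) (mem_sup_left hy)

end Cfsg.Agent.Mix26
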