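import Mathlib
import Cfsg.Agent.Mix26.Ru7

set_option autoImplicit false
set_option linter.unusedSectionVars false
open Subgroup
open scoped commutatorElement Pointwise

namespace Cfsg.Agent.Mix26

variable {G : Type*} [Group G] [Finite G]

namespace RG
variable {T : Sylow 2 G} {W D : Subgroup G} (h : RG T W D)
include h

theorem nle : normalizer (W : Set G) ≤ normalizer (D : Set G) := fun k hk => by
  by_contra hh
  have := (h.loc hh le_rfl (fun q hq => h.WT (PGrp.conj_mem_of_mem_normalizer hk hq)) (by rw [h.cW]; norm_num)).1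
  rw [h.cW] at this
  omega

theorem WC : W ≤ centralizer (D : Set G) := fun w hw => (h.cen w (h.WT hw)).2 hw

theorem syl : Core.IsSylowOf 2 W (centralizer (D : Set G)) := by
  haveI : Fact (Nat.Prime 2) := ⟨Nat.prime_two⟩
  have := (Core.isSylowOf_sylow_of_le T h.nD).inf_of_normal (centralizer_le_normalizer _)
    (Core.le_normalizer_centralizer h.nD)
  rwa [show (T : Subgroup G) ⊓ centralizer (D : Set G) = W from
    le_antisymm (fun t ht => (h.cen t ht.1).1 ht.2) (le_inf h.WT h.WC)] at this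

theorem gl : Nonempty (MulAut D ≃* GL (Fin 3) (ZMod 2)) := by
  haveI : Fact (Nat.Prime 2) := ⟨Nat.prime_two⟩
  haveI : IsMulCommutative D := ⟨⟨fun a b => Subtype.ext (h.comm (h.DW b.2) a.2)⟩⟩
  exact PLocal.mulAut_equiv_gl (fun v => Subtype.ext (h.dsq v v.2)) h.cD

theorem onto (h2 : ∀ H : Subgroup G, H.index ≠ 2) (π : (T : Subgroup G) →* DihedralGroup 4)
    (hπ : Function.Surjective π) (kπ : ∀ x, π x = 1 ↔ (x : G) ∈ W) :
    Function.Surjective (PGrp.actHom (le_refl (normalizer (D : Set G)))) := by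
  haveI : Fact (Nat.Prime 2) := ⟨Nat.prime_two⟩
  obtain ⟨e⟩ := h.gl
  haveI := ru_gl
  haveI := e.isSimpleGroup
  set α := PGrp.actHom (le_refl (normalizer (D : Set G)))
  let γ := α.rangeRestrict.comp (inclusion h.nD)
  have kγ : ∀ x, γ x = 1 ↔ π x = 1 := fun x => by
    rw [kπ, ← h.cen _ x.2, Subtype.ext_iff]
    exact PGrp.actHom_eq_one_iff _
  let f : DihedralGroup 4 →* α.range := π.liftOfSurjective hπ ⟨γ, fun x hx => (kγ x).2 hx⟩
  have hf : ∀ x, f (π x) = γ x := fun x => π.liftOfRightInverse_comp_apply _ _ _ x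
  refine MonoidHom.range_eq_top.1 (ru_onto ((Nat.card_congr e.toEquiv).trans ru_c3) _ (fun H hH => ?_) f
    ((injective_iff_map_eq_one f).2 fun x hx => by
      obtain ⟨x, rfl⟩ := hπ x
      exact (kγ x).1 ((hf x).symm.trans hx)))
  haveI := normal_of_index_eq_two hH
  let e2 : (α.range ⧸ H) ≃* Multiplicative (ZMod 2) :=
    mulEquivOfPrimeCardEq (p := 2) hH (by rw [Nat.card_congr Multiplicative.toAdd, Nat.card_zmod])
  let φ := (e2.toMonoidHom.comp (QuotientGroup.mk' H)).comp α.rangeRestrict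
  have h1 : (T : Subgroup G).subgroupOf (normalizer (D : Set G)) ≤ φ.ker := fun u hu =>
    h.transfer h2 φ (fun x hx => by
      have : α.rangeRestrict x = 1 := Subtype.ext ((PGrp.actHom_eq_one_iff _).2 (h.WC hx))
      simp only [φ, MonoidHom.comp_apply, this, map_one]) u hu
  have h3 := index_dvd_of_le h1
  rw [index_ker, MonoidHom.range_eq_top.2 ((e2.surjective.comp (QuotientGroup.mk'_surjective H)).comp
    α.rangeRestrict_surjective), card_top, Nat.card_congr Multiplicative.toAdd, Nat.card_zmod] at h3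
  exact (Core.isSylowOf_sylow_of_le T h.nD).not_dvd h3

theorem ontoN (ho : Function.Surjective (PGrp.actHom (le_refl (normalizer (D : Set G))))) :
    Function.Surjective (PGrp.actHom h.nle) := fun γ => by
  haveI : Fact (Nat.Prime 2) := ⟨Nat.prime_two⟩
  obtain ⟨g, rfl⟩ := ho γ
  obtain ⟨k, hk, a⟩ := h.syl.exists_mul_normalizer (Core.normalizer_le_normalizer_centralizer _ g.2)
  refine ⟨⟨_, a⟩, MulEquiv.ext fun x => Subtype.ext ?_⟩
  have := hk _ (PGrp.conj_mem_of_mem_normalizer g.2 x.2)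
  simp only [PGrp.actHom_apply_coe]
  calc k⁻¹ * g * x * (k⁻¹ * g)⁻¹ = k⁻¹ * (g * x * (g : G)⁻¹ * k) := by group
    _ = _ := by rw [this]; group

theorem phi (x : W) : x ∈ frattini W ↔ (x : G) ∈ D := by
  haveI : Fact (Nat.Prime 2) := ⟨Nat.prime_two⟩
  rw [← mem_map_iff_mem W.subtype_injective]
  exact ⟨fun a => (PGrp.map_frattini_le_iff (h.pT.to_le h.WT)).2
    ⟨commutator_le.2 h.cm, h.sq⟩ a, fun a => h.phi_big le_rfl (by rw [h.cW]; norm_num) a⟩

theorem triv (ho : Function.Surjective (PGrp.actHom h.nle)) {n : G} (hn : n ∈ normalizer (W : Set G))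
    (hc : n ∈ centralizer (D : Set G)) {x : G} (hx : x ∈ W) : x⁻¹ * (n * x * n⁻¹) ∈ D := by
  haveI : Fact (Nat.Prime 2) := ⟨Nat.prime_two⟩
  obtain ⟨e⟩ := h.gl
  haveI := ru_gl
  haveI := e.isSimpleGroup
  have pW := h.pT.to_le h.WT
  let β := (PGrp.autQuot (frattini W)).comp (PGrp.actHom (le_refl (normalizer (W : Set G))))
  have kβ : ∀ n, β n = 1 ↔ ∀ x ∈ W, x⁻¹ * (n * x * (n : G)⁻¹) ∈ D := fun n =>
    (PGrp.autQuot_eq_one_iff _).trans ⟨fun a x hx => (h.phi _).1 (a ⟨x, hx⟩), fun a x => (h.phi _).2 (a x x.2)⟩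
  have vsq : ∀ v : W ⧸ frattini W, v ^ 2 = 1 := fun v => by
    obtain ⟨v, rfl⟩ := QuotientGroup.mk_surjective v
    rw [← QuotientGroup.mk_pow, QuotientGroup.eq_one_iff, h.phi]
    exact h.sq _ v.2
  haveI : IsMulCommutative (W ⧸ frattini W) := ⟨⟨fun a b => by
    have e : ∀ v : W ⧸ frattini W, v⁻¹ = v := fun v => inv_eq_of_mul_eq_one_left ((pow_two v).symm.trans (vsq v))
    rw [← e (a * b), mul_inv_rev, e, e]⟩⟩
  obtain ⟨e8⟩ := PLocal.mulAut_equiv_gl (n := 8) vsq (by
    have a := (frattini W).card_mul_index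
    rw [show frattini W = D.subgroupOf W from Subgroup.ext h.phi,
      Nat.card_congr (subgroupOfEquivOfLe h.DW).toEquiv, h.cD, h.cW] at a
    rw [show frattini W = D.subgroupOf W from Subgroup.ext h.phi, ← index_eq_card]
    omega)
  refine (kβ ⟨n, hn⟩).1 ?_ x hx
  suffices (PGrp.actHom h.nle).ker ≤ β.ker from this ((PGrp.actHom_eq_one_iff _).2 hc)
  by_contra hh
  obtain ⟨ρ, a, b, c⟩ := ru_ker ((Nat.card_congr e.toEquiv).trans ru_c3)
    ((Nat.card_congr e8.toEquiv).trans ru_c8) _ β ho (fun n hn => by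
      have a := (kβ n).1 hn
      have s : ∀ x ∈ W, x ^ 2 ∈ centralizer {(n : G)} := fun x hx => by
        have d := a x hx
        have e1 : n * x * (n : G)⁻¹ = x * (x⁻¹ * (n * x * (n : G)⁻¹)) := by group
        rw [mem_centralizer_singleton_iff, eq_comm, ← mul_inv_eq_iff_eq_mul, ← conj_pow, e1,
          Commute.mul_pow (h.comm hx d).symm, h.dsq _ d, mul_one]
      have := (h.phi_big le_rfl (by rw [h.cW]; norm_num)).trans ((PGrp.map_frattini_le_iff pW).2
        ⟨commutator_le.2 fun x hx y hy => by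
          rw [show ⁅x, y⁆ = x ^ 2 * (x⁻¹ * y) ^ 2 * y⁻¹ ^ 2 by simp only [commutatorElement_def, pow_two]; group]
          exact mul_mem (mul_mem (s _ hx) (s _ (mul_mem (inv_mem hx) hy))) (s _ (inv_mem hy)), s⟩)
      exact (PGrp.actHom_eq_one_iff _).2 fun z hz => mem_centralizer_singleton_iff.1 (this hz))
    (fun hd => by
      refine (h.syl.of_le (le_inf h.WC le_normalizer) inf_le_left).not_dvd ?_
      rw [← relIndex_subgroupOf (inf_le_right : _ ≤ normalizer (W : Set G)), inf_subgroupOf_right,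
        ← PGrp.actHom_ker h.nle]
      refine hd.trans (relIndex_dvd_of_le_left _ fun w hw => (kβ w).2 fun x hx => ?_)
      simpa [commutatorElement_def, mul_assoc] using h.cm _ (inv_mem hx) _ hw)
    hh (h.pT.comap_subtype (K := normalizer (W : Set G)))
  have ap : ∀ (t : normalizer (W : Set G)) (x : W), β t x = (PGrp.actHom le_rfl t x : W) := fun _ _ => rfl
  have soc : ∀ a b : W ⧸ frattini W, a ≠ 1 → b ≠ 1 → (∀ t ht, β ⟨t, h.nW ht⟩ a = a) →
      (∀ t ht, β ⟨t, h.nW ht⟩ b = b) → b * a = 1 := fun a b a1 b1 a2 b2 => by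
    obtain ⟨a, rfl⟩ := QuotientGroup.mk_surjective a
    obtain ⟨b, rfl⟩ := QuotientGroup.mk_surjective b
    have k : ∀ a : W, (∀ t ht, β ⟨t, h.nW ht⟩ a = a) → ∀ t ∈ (T : Subgroup G), ⁅(a : G)⁻¹, t⁆ ∈ D :=
      fun a a2 t ht => by
        have := (h.phi _).1 (QuotientGroup.eq.1 ((ap _ _).symm.trans (a2 t ht)).symm)
        rwa [commutatorElement_def, inv_inv, mul_assoc, mul_assoc, ← mul_assoc t]
    rw [Ne, QuotientGroup.eq_one_iff, h.phi, ← inv_mem_iff] at a1 b1
    rw [← QuotientGroup.mk_mul, QuotientGroup.eq_one_iff, h.phi, ← inv_mem_iff, coe_mul, mul_inv_rev]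
    exact h.soc _ (inv_mem a.2) _ (inv_mem b.2) a1 b1 (k a a2) (k b b2)
  let F := (((β ρ).toMonoidHom.eqLocus (MonoidHom.id _)).comap (QuotientGroup.mk' (frattini W))).map W.subtype
  have mF : ∀ x : W, (x : G) ∈ F ↔ β ρ x = x := fun x => mem_map_iff_mem W.subtype_injective
  obtain ⟨x, hx, x1, x2⟩ := PGrp.exists_central_mod_of_nilpotent (N := F) h.pT.isNilpotent h.WT h.nW
    fun hh => a (MulEquiv.ext fun v => by
      obtain ⟨v, rfl⟩ := QuotientGroup.mk_surjective v
      exact (mF v).1 (hh v.2))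
  set v : W ⧸ frattini W := ((⟨x, hx⟩ : W) : W ⧸ frattini W) with hv
  have cc : ∀ t ht w, β ⟨t, h.nW ht⟩ (β ρ w) = β ρ (β ⟨t, h.nW ht⟩ w) := fun t ht w =>
    DFunLike.congr_fun (c ⟨t, h.nW ht⟩ ht) w
  have u1 : ∀ t ht, β ⟨t, h.nW ht⟩ (v⁻¹ * β ρ v) = v⁻¹ * β ρ v := fun t ht => by
    have f1 := (mF (⟨x, hx⟩ * (PGrp.actHom le_rfl ⟨t, h.nW ht⟩ ⟨x, hx⟩)⁻¹)).1 (by
      simpa [PGrp.actHom_apply_coe, commutatorElement_def, mul_assoc] using x2 t ht)
    rw [QuotientGroup.mk_mul, QuotientGroup.mk_inv, ← ap, ← hv, map_mul, map_inv] at f1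
    rw [map_mul, map_inv, cc t ht]
    calc _ = v⁻¹ * (v * (β ⟨t, h.nW ht⟩ v)⁻¹) * β ρ (β ⟨t, h.nW ht⟩ v) := by group
      _ = _ := by rw [← f1]; group
  refine x1 ((mF ⟨x, hx⟩).2 (ru_tr0 (pW.to_quotient _) b (pow_orderOf_eq_one _) ?_))
  by_cases u0 : v⁻¹ * β ρ v = 1
  · rw [u0, map_one]
  · have e1 := soc _ (β ρ (v⁻¹ * β ρ v)) u0 (by rwa [Ne, map_eq_one_iff _ (β ρ).injective]) u1
      fun t ht => by rw [cc t ht, u1 t ht]
    exact mul_right_cancel (e1.trans (soc _ _ u0 u0 u1 u1).symm)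

theorem compl (ho : Function.Surjective (PGrp.actHom h.nle)) :
    HasNormalPComplement 2 (centralizer (D : Set G)) := by
  haveI : Fact (Nat.Prime 2) := ⟨Nat.prime_two⟩
  set C := centralizer (D : Set G)
  have hZ : D.subgroupOf C ≤ center C := fun z hz => mem_center_iff.2 fun g => Subtype.ext (g.2 z hz).symm
  haveI : (D.subgroupOf C).Normal := ⟨fun z hz g => by rwa [mem_center_iff.1 (hZ hz) g, mul_inv_cancel_right]⟩
  let f := QuotientGroup.mk' (D.subgroupOf C)
  refine Transfer.hasNormalPComplement_of_ker_le_center f (by rwa [QuotientGroup.ker_mk'])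
    (Transfer.hasNormalPComplement_of_normalizer_le_centralizer
      (h.syl.toSylow.mapSurjective (QuotientGroup.mk'_surjective _)) fun g hg => ?_)
  obtain ⟨g, rfl⟩ := QuotientGroup.mk_surjective g
  have hn : (g : G) ∈ normalizer (W : Set G) := PGrp.mem_normalizer_of_conj_mem fun w hw => by
    obtain ⟨y, hy, e⟩ := (mem_normalizer_iff.1 hg (f ⟨w, h.WC hw⟩)).1 ⟨_, hw, rfl⟩
    have e' : (y : C ⧸ D.subgroupOf C) = ((g * ⟨w, h.WC hw⟩ * g⁻¹ : C) : C ⧸ D.subgroupOf C) := e
    have e2 := QuotientGroup.eq.1 e'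
    exact (mul_mem_cancel_left (inv_mem (show (y : G) ∈ W from hy))).1 (h.DW e2)
  rintro _ ⟨x, hx, rfl⟩
  have := h.triv ho hn g.2 hx
  have e : ((x : C) : C ⧸ D.subgroupOf C) = ((g * x * g⁻¹ : C) : C ⧸ D.subgroupOf C) := QuotientGroup.eq.2 this
  rw [QuotientGroup.mk_mul, QuotientGroup.mk_mul, QuotientGroup.mk_inv, eq_mul_inv_iff_mul_eq] at e
  exact e

theorem cle (ho : Function.Surjective (PGrp.actHom h.nle)) {H : Subgroup G} (h1 : W ≤ H)
    (h2 : H ≤ normalizer (D : Set G)) : (PGrp.actHom h2).ker ≤ W.subgroupOf H ⊔ pPrimeCore 2 H := by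
  haveI : Fact (Nat.Prime 2) := ⟨Nat.prime_two⟩
  refine ru_le (Transfer.hasNormalPComplement_of_injective
    ((H.subtype.comp (PGrp.actHom h2).ker.subtype).codRestrict _ fun x => (PGrp.actHom_eq_one_iff _).1 x.2)
    (fun a b e => Subtype.ext (Subtype.ext (congrArg Subtype.val e :))) (h.compl ho)) ?_
  rw [PGrp.actHom_ker, ← inf_subgroupOf_right (centralizer (D : Set G)), relIndex_subgroupOf inf_le_right]
  exact (h.syl.of_le (le_inf h.WC h1) inf_le_left).not_dvd

theorem main (ho : Function.Surjective (PGrp.actHom (le_refl (normalizer (D : Set G))))) :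
    ((normalizer (W : Set G)).subgroupOf (normalizer (D : Set G)) ⊔ pPrimeCore 2 _ = ⊤) ∧
      ∃ (_ : (W.subgroupOf (normalizer (W : Set G)) ⊔ pPrimeCore 2 _).Normal),
        Nonempty (normalizer (W : Set G) ⧸ (W.subgroupOf (normalizer (W : Set G)) ⊔ pPrimeCore 2 _) ≃*
          GL (Fin 3) (ZMod 2)) := by
  have hN := h.ontoN ho
  obtain ⟨e⟩ := h.gl
  haveI := ru_gl
  haveI := e.isSimpleGroup
  constructor
  · refine eq_top_iff.2 fun g _ => ?_
    obtain ⟨n, hn⟩ := hN (PGrp.actHom le_rfl g)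
    have := h.cle hN (h.WT.trans h.nD) le_rfl (show (inclusion h.nle n)⁻¹ * g ∈ _ by
      rw [MonoidHom.mem_ker, map_mul, map_inv, ← hn]; exact inv_mul_cancel _)
    have a : W.subgroupOf (normalizer (D : Set G)) ≤ (normalizer (W : Set G)).subgroupOf _ :=
      fun x hx => le_normalizer hx
    exact (mul_mem_cancel_left (inv_mem (mem_sup_left (show inclusion h.nle n ∈ _ from n.2)))).1
      (sup_le_sup_right a _ this)
  · have : W.subgroupOf (normalizer (W : Set G)) ⊔ pPrimeCore 2 _ = (PGrp.actHom h.nle).ker := by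
      refine le_antisymm (sup_le (fun x hx => (PGrp.actHom_eq_one_iff _).2 (h.WC hx)) ?_)
        (h.cle hN le_normalizer _)
      refine (Subgroup.map_eq_bot_iff _).1 ((IsSimpleGroup.eq_bot_or_eq_top_of_normal _
        (Normal.map inferInstance _ hN)).resolve_right fun e1 => ?_)
      have := (Comp2.pPrimeCore_coprime (G := normalizer (W : Set G)) 2).coprime_dvd_left
        (card_map_dvd _ (PGrp.actHom h.nle))
      rw [e1, card_top, Nat.card_congr e.toEquiv, ru_c3] at this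
      revert this; decide
    exact ⟨this ▸ inferInstance, ⟨(QuotientGroup.quotientMulEquivOfEq this).trans
      ((QuotientGroup.quotientKerEquivOfSurjective _ hN).trans e)⟩⟩

end RG

end Cfsg.Agent.Mix26
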