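import Mathlib
import Cfsg.Agent.SymNil.Basic
import Cfsg.Agent.Perm.SolvOrbit
import Cfsg.Agent.S1259
import Cfsg.Agent.Comp2.GenFitting

set_option autoImplicit false
open Cfsg Equiv Subgroup
open scoped commutatorElement

namespace Cfsg.Agent.Mix26

/-- A perfect group fixes every member of an invariant set with at most four elements. -/
theorem fix_of_perfect {G X : Type*} [Group G] [MulAction G X] [Group.IsPerfect G] (S : Finset X)
    (hS : S.card ≤ 4) (hi : ∀ g : G, ∀ x ∈ S, g • x ∈ S) (g : G) {x : X} (hx : x ∈ S) :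
    g • x = x := by
  let T : SubMulAction G X := ⟨(S : Set X), fun g {x} hx => hi g x hx⟩
  have hT : Nat.card T = S.card := by
    exact (Nat.card_coe_set_eq (S : Set X)).trans (Set.ncard_coe_finset S)
  haveI : Finite T := S.finite_toSet.to_subtype
  haveI := Perm.isSolvable_perm_of_card_le_four T (hT ▸ hS)
  have h1 : (MulAction.toPermHom G T).range = ⊥ := by
    by_contra h
    haveI := (nontrivial_iff_ne_bot _).2 h
    haveI := Group.IsPerfect.range (MulAction.toPermHom G T)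
    exact Group.IsPerfect.not_isSolvable (MulAction.toPermHom G T).range inferInstance
  have h2 : MulAction.toPermHom G T g = 1 := mem_bot.1 (h1 ▸ ⟨g, rfl⟩)
  exact congrArg Subtype.val (congrArg (fun σ : Perm T => σ ⟨x, hx⟩) h2)

/-- A quasisimple subgroup `L` and a subgroup `X` normalizing each other: `L ≤ X` or they commute. -/
theorem qs_dich {G : Type*} [Group G] [Finite G] {L X : Subgroup G} (hq : IsQuasisimple L)
    (h1 : ∀ x ∈ X, ∀ l ∈ L, x * l * x⁻¹ ∈ L) (h2 : ∀ l ∈ L, ∀ x ∈ X, l * x * l⁻¹ ∈ X) :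
    L ≤ X ∨ ∀ x ∈ X, ∀ l ∈ L, Commute x l := by
  haveI hn : (X.subgroupOf L).Normal := ⟨fun x hx l => h2 l l.2 x hx⟩
  rcases S1259.result hq (X.subgroupOf L) hn.isSubnormal with h | h
  · exact Or.inl (subgroupOf_eq_top.1 h)
  right
  have a : ⁅X, L⁆ ≤ centralizer (L : Set G) := by
    refine commutator_le.2 fun x hx l hl => mem_centralizer_iff.2 fun m hm => ?_
    have b : ⁅x, l⁆ ∈ L := mul_mem (h1 x hx l hl) (inv_mem hl)
    have c : ⁅x, l⁆ ∈ X := by
      have := mul_mem hx (h2 l hl x⁻¹ (inv_mem hx))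
      simpa [commutatorElement_def, mul_assoc] using this
    exact congrArg Subtype.val (mem_center_iff.1 (h (show (⟨_, b⟩ : L) ∈ X.subgroupOf L from c)) ⟨m, hm⟩)
  have b : ⁅⁅X, L⁆, L⁆ = ⊥ := commutator_eq_bot_iff_le_centralizer.2 a
  have c : ⁅⁅L, L⁆, X⁆ = ⊥ :=
    commutator_commutator_eq_bot_of_rotate (by rwa [commutator_comm L X]) b
  rw [isPerfect_iff.1 hq.1, commutator_eq_bot_iff_le_centralizer] at c
  exact fun x hx l hl => c hl x hx

theorem qs_ne_bot {G : Type*} [Group G] {L : Subgroup G} (hq : IsQuasisimple L) : L ≠ ⊥ := by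
  rintro rfl
  haveI := hq.2
  exact not_subsingleton ((⊥ : Subgroup G) ⧸ center (⊥ : Subgroup G)) inferInstance

variable {α : Type*} [DecidableEq α]

/-- the three-cycle on `a, b, c` lies in `H` -/
def G3 (H : Subgroup (Perm α)) (a b c : α) : Prop :=
  a ≠ b ∧ a ≠ c ∧ b ≠ c ∧ swap a b * swap a c ∈ H

variable {H : Subgroup (Perm α)} {a b c d : α}

theorem G3.sw (h : G3 H a b c) : G3 H a c b :=
  ⟨h.2.1, h.1, h.2.2.1.symm, by simpa using inv_mem h.2.2.2⟩

theorem G3.rot (h : G3 H a b c) : G3 H b c a := by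
  obtain ⟨h1, h2, h3, h4⟩ := h
  refine ⟨h3, h1.symm, h2.symm, ?_⟩
  have : swap b c * swap b a = swap a b * swap a c := by
    ext x; simp only [Perm.mul_apply, swap_apply_def]; grind
  rwa [this]

theorem G3.conj (h : G3 H a b c) {g : Perm α} (hg : g ∈ H) : G3 H (g a) (g b) (g c) := by
  obtain ⟨h1, h2, h3, h4⟩ := h
  refine ⟨g.injective.ne h1, g.injective.ne h2, g.injective.ne h3, ?_⟩
  have := mul_mem (mul_mem hg h4) (inv_mem hg)
  rw [swap_apply_apply, swap_apply_apply]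
  simpa [mul_assoc] using this

theorem G3.key (h : G3 H a b c) (h' : G3 H a b d) (e : c ≠ d) : G3 H a c d := by
  refine ⟨h.2.1, h'.2.1, e, ?_⟩
  have := mul_mem (inv_mem h.2.2.2) h'.2.2.2
  simpa [mul_assoc] using this

theorem G3.join {x y : α} (h : G3 H a b x) (h' : G3 H a c y) (e : b ≠ c) : G3 H a b c := by
  by_cases e1 : x = c
  · exact e1 ▸ h
  by_cases e2 : y = b
  · exact (e2 ▸ h').sw
  by_cases e3 : x = y
  · exact h.sw.key (e3 ▸ h'.sw) e
  have h1 := h.conj h'.sw.2.2.2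
  have a1 : (swap a y * swap a c) a = c := by
    have := h'.2.1; have := h'.2.2.1; have := h'.1
    simp only [Perm.mul_apply, swap_apply_def]; grind
  have a2 : (swap a y * swap a c) b = b := by
    have := h.1
    simp only [Perm.mul_apply, swap_apply_def]; grind
  have a3 : (swap a y * swap a c) x = x := by
    have := h.2.1
    simp only [Perm.mul_apply, swap_apply_def]; grind
  rw [a1, a2, a3] at h1
  exact (h1.rot.key h.rot h'.1.symm).rot.rot

/-- linked by a three-cycle of `H` -/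
def E3 (H : Subgroup (Perm α)) (a b : α) : Prop := a = b ∨ ∃ c, G3 H a b c

theorem E3.symm (h : E3 H a b) : E3 H b a :=
  h.imp Eq.symm fun ⟨c, h⟩ => ⟨c, h.rot.sw⟩

theorem E3.trans (h : E3 H a b) (h' : E3 H b c) : E3 H a c := by
  rcases h with rfl | ⟨x, h⟩
  · exact h'
  rcases h' with rfl | ⟨y, h'⟩
  · exact Or.inr ⟨x, h⟩
  by_cases e : a = c
  · exact Or.inl e
  · exact Or.inr ⟨b, (h.rot.sw.join h' e).rot⟩

theorem E3.conj (h : E3 H a b) {g : Perm α} (hg : g ∈ H) : E3 H (g a) (g b) :=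
  h.imp (congrArg g) fun ⟨c, h⟩ => ⟨g c, h.conj hg⟩

theorem E3.g3 (h : E3 H a b) (h' : E3 H a c) (e1 : a ≠ b) (e2 : a ≠ c) (e3 : b ≠ c) :
    G3 H a b c := by
  obtain ⟨x, h⟩ := h.resolve_left e1
  obtain ⟨y, h'⟩ := h'.resolve_left e2
  exact h.join h' e3

variable [Fintype α]

theorem ofSub_alt {s : Finset α} {τ : Perm {x // x ∈ s}} :
    Perm.ofSubtype τ ∈ alternatingGroup α ↔ τ ∈ alternatingGroup {x // x ∈ s} := by
  rw [Perm.mem_alternatingGroup, Perm.sign_ofSubtype, Perm.mem_alternatingGroup]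

theorem three_data {σ : Perm α} (h : σ.IsThreeCycle) (ha : σ a ≠ a) :
    a ≠ σ a ∧ a ≠ σ (σ a) ∧ σ a ≠ σ (σ a) ∧ σ = swap (σ a) a * swap (σ a) (σ (σ a)) := by
  have h1 := h.nodup_iff_mem_support.2 (Perm.mem_support.2 ha)
  have h2 := h.eq_swap_mul_swap_iff_mem_support.2 (Perm.mem_support.2 ha)
  simp only [List.nodup_cons, List.mem_cons, List.not_mem_nil, or_false, not_or] at h1
  exact ⟨h1.1.1, h1.1.2, h1.2.1, by rwa [swap_comm (σ a) a]⟩

theorem E3.of_three {σ : Perm α} (h : σ.IsThreeCycle) (hσ : σ ∈ H) (a : α) : E3 H a (σ a) := by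
  by_cases ha : σ a = a
  · exact Or.inl ha.symm
  obtain ⟨h1, h2, h3, h4⟩ := three_data h ha
  exact E3.symm (Or.inr ⟨_, h1.symm, h3, h2, h4 ▸ hσ⟩)

open Classical in
/-- the class of a point -/
noncomputable def cls (H : Subgroup (Perm α)) (a : α) : Finset α := Finset.univ.filter (E3 H a)

theorem mem_cls : b ∈ cls H a ↔ E3 H a b := by simp [cls]

theorem alt_cls_le (H : Subgroup (Perm α)) (a : α) :
    SymNil.Fx (cls H a) ⊓ alternatingGroup α ≤ H := by
  rintro _ ⟨⟨τ, rfl⟩, h2⟩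
  have c : τ ∈ alternatingGroup {x // x ∈ cls H a} := ofSub_alt.1 h2
  rw [← Perm.closure_three_cycles_eq_alternating] at c
  refine (closure_le (H.comap Perm.ofSubtype)).2 (fun σ hσ => ?_) c
  have h3 : (Perm.ofSubtype σ).IsThreeCycle := Perm.cycleType_ofSubtype.trans hσ
  have h4 : ∀ x, Perm.ofSubtype σ x ≠ x → x ∈ cls H a := fun x hx =>
    SymNil.mem_Fx.1 ⟨σ, rfl⟩ (Perm.mem_support.2 hx)
  show Perm.ofSubtype σ ∈ H
  generalize Perm.ofSubtype σ = t at h3 h4
  obtain ⟨x, hx⟩ : ∃ x, t x ≠ x := by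
    by_contra! h5
    exact h3.ne_one (Equiv.ext h5)
  obtain ⟨h5, h6, h7, h8⟩ := three_data h3 hx
  have e1 := mem_cls.1 (h4 x hx)
  have e2 := mem_cls.1 (h4 (t x) h7.symm)
  have e3 := mem_cls.1 (h4 (t (t x)) (t.injective.ne h7.symm))
  rw [h8]
  exact ((e2.symm.trans e1).g3 (e2.symm.trans e3) h5.symm h7 h6).2.2.2

theorem supp_of_commute {c l : Perm α} (h : Commute c l) {x : α} (hx : x ∈ c.support) :
    l x ∈ c.support := by
  rw [Perm.mem_support] at hx ⊢
  intro e
  apply hx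
  apply l.injective
  rw [← Perm.mul_apply, ← h.eq, Perm.mul_apply, e]

/-- A quasisimple self-centralizing normal subgroup of a permutation group containing a
three-cycle is the alternating group on the union of the supports of the three-cycles. -/
theorem alt_of_three {L : Subgroup (Perm α)} (hLH : L ≤ H)
    (hn : ∀ h ∈ H, ∀ l ∈ L, h * l * h⁻¹ ∈ L) (hc : ∀ c ∈ H, (∀ l ∈ L, Commute c l) → c ∈ L)
    (hq : IsQuasisimple L) {t : Perm α} (ht : t.IsThreeCycle) (htH : t ∈ H) :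
    ∃ Δ : Finset α, L = SymNil.Fx Δ ⊓ alternatingGroup α ∧
      (∀ c ∈ H, c.IsThreeCycle → c.support ⊆ Δ) ∧ (∀ h ∈ H, ∀ x ∈ Δ, h x ∈ Δ) ∧
      Nonempty (L ≃* alternatingGroup (Fin Δ.card)) := by
  haveI := hq.1
  have nc : ∀ c ∈ H, c.IsThreeCycle → ¬ ∀ l ∈ L, Commute c l := fun c hcH h3 h => by
    refine h3.ne_one (Equiv.ext fun x => by_contra fun hx => hx ?_)
    exact fix_of_perfect (G := L) c.support (by rw [h3.card_support]; norm_num)
      (fun g x hx => supp_of_commute (h g g.2) hx) ⟨c, hc c hcH h⟩ (Perm.mem_support.2 hx)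
  let K : Subgroup (Perm α) := closure {c | c ∈ H ∧ c.IsThreeCycle}
  have hKH : K ≤ H := (closure_le _).2 fun c h => h.1
  have hK : ∀ h ∈ H, ∀ x ∈ K, h * x * h⁻¹ ∈ K := fun h hh x hx => by
    refine (closure_le (K.comap (MulAut.conj h).toMonoidHom)).2 (fun c hc => subset_closure ?_) hx
    exact ⟨mul_mem (mul_mem hh hc.1) (inv_mem hh), Perm.cycleType_conj.trans hc.2⟩
  have hLK : L ≤ K := (qs_dich hq (fun x hx => hn x (hKH hx)) fun l hl => hK l (hLH hl)).resolve_right
    fun h => nc t htH ht (h t (subset_closure ⟨htH, ht⟩))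
  have hKE : ∀ k ∈ K, ∀ x, E3 H x (k x) := fun k hk => by
    induction hk using closure_induction with
    | mem c hc => exact E3.of_three hc.2 hc.1
    | one => exact fun x => Or.inl rfl
    | mul g h _ _ a b => exact fun x => (b x).trans (a _)
    | inv g _ a => exact fun x => by simpa using (a (g⁻¹ x)).symm
  have hA : ∀ c ∈ H, c.IsThreeCycle → ∀ x, c x ≠ x →
      c.support ⊆ cls H x ∧ L ≤ SymNil.Fx (cls H x) ⊓ alternatingGroup α := fun c hcH h3 x hx => by
    have s : c.support ⊆ cls H x := by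
      rw [h3.support_eq_iff_mem_support.2 (Perm.mem_support.2 hx)]
      intro y hy
      simp only [Finset.mem_insert, Finset.mem_singleton] at hy
      rcases hy with rfl | rfl | rfl
      · exact mem_cls.2 (Or.inl rfl)
      · exact mem_cls.2 (E3.of_three h3 hcH x)
      · exact mem_cls.2 ((E3.of_three h3 hcH x).trans (E3.of_three h3 hcH _))
    refine ⟨s, (qs_dich hq (fun y hy => hn y (alt_cls_le H x hy)) fun l hl y hy => ⟨?_, ?_⟩).resolve_right
      fun h => nc c hcH h3 (h c ⟨SymNil.mem_Fx.2 s, h3.mem_alternatingGroup⟩)⟩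
    · refine SymNil.mem_Fx.2 fun z hz => ?_
      have : l⁻¹ z ∈ y.support := by
        rw [Perm.mem_support] at hz ⊢
        intro e; apply hz; rw [Perm.mul_apply, Perm.mul_apply, e]; simp
      have := mem_cls.1 (SymNil.mem_Fx.1 hy.1 this)
      exact mem_cls.2 (this.trans (hKE _ (hLK (inv_mem hl)) z).symm)
    · exact (alternatingGroup.normal).conj_mem y hy.2 l
  obtain ⟨x, hx⟩ : ∃ x, t x ≠ x := by
    by_contra! h5
    exact ht.ne_one (Equiv.ext h5)
  obtain ⟨⟨l, hl⟩, hl1⟩ := (ne_bot_iff_exists_ne_one).1 (qs_ne_bot hq)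
  obtain ⟨w, hw⟩ : ∃ w, l w ≠ w := by
    by_contra! h5
    exact hl1 (Subtype.ext (Equiv.ext h5))
  have hcl : ∀ c ∈ H, c.IsThreeCycle → ∀ y, c y ≠ y → E3 H x y := fun c hcH h3 y hy =>
    (mem_cls.1 (SymNil.mem_Fx.1 ((hA t htH ht x hx).2 hl).1 (Perm.mem_support.2 hw))).trans
      (mem_cls.1 (SymNil.mem_Fx.1 ((hA c hcH h3 y hy).2 hl).1 (Perm.mem_support.2 hw))).symm
  have hle := (hA t htH ht x hx).2
  set Δ := cls H x with hΔ
  have h5 : 5 ≤ Δ.card := by
    by_contra h5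
    have hw' : w ∈ Δ := SymNil.mem_Fx.1 (hle hl).1 (Perm.mem_support.2 hw)
    refine hw (fix_of_perfect (G := L) Δ (by omega) (fun g y hy => ?_) ⟨l, hl⟩ hw')
    exact mem_cls.2 ((mem_cls.1 hy).trans (hKE _ (hLK g.2) y))
  have hres : SymNil.res Δ L = alternatingGroup _ := by
    have h6 : SymNil.res Δ L ≤ alternatingGroup _ := SymNil.res_alt Δ (hle.trans inf_le_right)
    haveI := alternatingGroup.isSimpleGroup (α := {y // y ∈ Δ}) (by simpa using h5)
    haveI : ((SymNil.res Δ L).subgroupOf (alternatingGroup {y // y ∈ Δ})).Normal := by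
      refine ⟨fun y hy g => ?_⟩
      have : Perm.ofSubtype g.1 ∈ H := alt_cls_le H x ⟨⟨_, rfl⟩, ofSub_alt.2 g.2⟩
      have := hn _ this _ hy
      rwa [← map_inv, ← map_mul, ← map_mul] at this
    rcases this.eq_bot_or_eq_top with h | h
    · exfalso
      obtain ⟨τ, rfl⟩ := (hle hl).1
      have : (⟨τ, h6 hl⟩ : alternatingGroup _) ∈ (SymNil.res Δ L).subgroupOf _ := hl
      rw [h, mem_bot, Subtype.ext_iff] at this
      exact hw (by rw [show τ = 1 from this]; simp)
    · exact le_antisymm h6 (subgroupOf_eq_top.1 h)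
  have hL : (SymNil.res Δ L).map Perm.ofSubtype = L := by
    rw [SymNil.map_res, inf_eq_left]; exact hle.trans inf_le_left
  refine ⟨Δ, le_antisymm hle ?_, fun c hcH h3 y hy => mem_cls.2 (hcl c hcH h3 y
    (Perm.mem_support.1 hy)), fun h hh y hy => mem_cls.2 ?_, ⟨?_⟩⟩
  · rintro _ ⟨⟨τ, rfl⟩, h2⟩
    exact hres.ge (ofSub_alt.1 h2)
  · refine (hcl (h * t * h⁻¹) (mul_mem (mul_mem hh htH) (inv_mem hh))
      (Perm.cycleType_conj.trans ht) (h x) (by simpa using hx)).trans ((mem_cls.1 hy).conj hh)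
  · exact ((MulEquiv.subgroupCongr hL.symm).trans
      (equivMapOfInjective _ _ Perm.ofSubtype_injective).symm).trans
      ((MulEquiv.subgroupCongr hres).trans (Equiv.altCongrHom Δ.equivFin))

omit [DecidableEq α] in
/-- data for the image of `F*(H)` -/
theorem fstar_data {G : Type*} [Group G] [Finite G] (H : Subgroup G) :
    (generalizedFittingSubgroup H).map H.subtype ≤ H ∧
    (∀ h ∈ H, ∀ l ∈ (generalizedFittingSubgroup H).map H.subtype,
      h * l * h⁻¹ ∈ (generalizedFittingSubgroup H).map H.subtype) ∧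
    ∀ c ∈ H, (∀ l ∈ (generalizedFittingSubgroup H).map H.subtype, Commute c l) →
      c ∈ (generalizedFittingSubgroup H).map H.subtype := by
  refine ⟨map_subtype_le _, ?_, fun c hc h => ⟨⟨c, hc⟩, Comp2.centralizer_genFitting_le
    fun l hl => Subtype.ext (h l ⟨l, hl, rfl⟩).symm, rfl⟩⟩
  rintro h hh _ ⟨l, hl, rfl⟩
  exact ⟨_, Comp2.genFitting_normal.conj_mem l hl ⟨h, hh⟩, rfl⟩

end Cfsg.Agent.Mix26
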