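import Mathlib

set_option autoImplicit false
open Equiv Finset

namespace Cfsg.Agent.Mix26

section
variable {α : Type*} [Fintype α] [DecidableEq α]

theorem up_supp_dvd {r : ℕ} (hr : r.Prime) {σ : Perm α} (h : σ ^ r = 1) : r ∣ #σ.support := by
  haveI := Fact.mk hr
  rw [← Perm.sum_cycleType, Perm.cycleType_of_pow_prime_eq_one h, Multiset.sum_replicate, smul_eq_mul]
  exact Dvd.intro_left _ rfl

theorem up_exists {r : ℕ} (hr : r.Prime) (m : ℕ) (hm : m * r ≤ Fintype.card α) :
    ∃ σ : Perm α, σ ^ r = 1 ∧ #σ.support = m * r := by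
  haveI := Fact.mk hr
  obtain ⟨g, hg⟩ := (Perm.exists_with_cycleType_iff α (m := Multiset.replicate m r)).2
    ⟨by simpa using hm, fun a ha => by rw [Multiset.eq_of_mem_replicate ha]; exact hr.two_le⟩
  refine ⟨g, Perm.pow_prime_eq_one_iff.2 fun c hc => ?_, ?_⟩
  · rw [hg] at hc; exact Multiset.eq_of_mem_replicate hc
  · rw [← Perm.sum_cycleType, hg]; simp

theorem up_conj {r : ℕ} (hr : r.Prime) {σ τ : Perm α} (h : σ ^ r = 1) (h' : τ ^ r = 1)
    (hs : #σ.support = #τ.support) : IsConj σ τ := by
  haveI := Fact.mk hr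
  rw [Perm.isConj_iff_cycleType_eq]
  have h1 := Perm.cycleType_of_pow_prime_eq_one h
  have h2 := Perm.cycleType_of_pow_prime_eq_one h'
  rw [← Perm.sum_cycleType, ← Perm.sum_cycleType, h1, h2] at hs
  simp only [Multiset.sum_replicate, smul_eq_mul] at hs
  rw [h1, h2, Nat.eq_of_mul_eq_mul_right hr.pos hs]

theorem up_distrib {β : Type*} [DecidableEq β] (S : Finset β) (u : ℕ) :
    ∀ n, n ≤ #S * u → ∃ c : β → ℕ, (∀ y, c y ≤ u) ∧ ∑ y ∈ S, c y = n := by
  induction S using Finset.induction_on with
  | empty => intro n hn; exact ⟨fun _ => 0, fun _ => Nat.zero_le _, by simp at hn; simp [hn]⟩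
  | insert a S ha ih =>
    intro n hn
    rw [card_insert_of_notMem ha] at hn
    obtain ⟨c, hc, hs⟩ := ih (n - u) (by rw [add_mul] at hn; omega)
    refine ⟨Function.update c a (min n u), fun y => ?_, ?_⟩
    · by_cases hy : y = a
      · subst hy; simp
      · rw [Function.update_of_ne hy]; exact hc y
    · rw [sum_insert ha, Function.update_self,
        sum_congr rfl (fun y hy => Function.update_of_ne (fun h : y = a => ha (h ▸ hy)) _ _), hs]
      omega

/-- necessary condition -/
theorem up_nec {β : Type*} [Fintype β] [DecidableEq β] {r a : ℕ} (hr : r.Prime) (ha : 0 < a)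
    {σ : Perm α} (h : σ ^ r = 1) (f : α → β) (hf : ∀ j, Nat.card {x // f x = j} = a)
    (π : Perm β) (hπ : ∀ x, f (σ x) = π (f x)) :
    ∃ j, j * r ≤ Fintype.card β ∧ a * (j * r) ≤ #σ.support ∧
      #σ.support ≤ a * (j * r) + (Fintype.card β - j * r) * (r * (a / r)) := by
  have hf' : ∀ j, #(univ.filter fun x => f x = j) = a := fun j => by
    rw [← hf j, Nat.card_eq_fintype_card, Fintype.card_subtype]
  have hsurj : ∀ y, ∃ x, f x = y := fun y => by
    have : (univ.filter fun x => f x = y).Nonempty := card_pos.1 (by rw [hf']; exact ha)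
    obtain ⟨x, hx⟩ := this
    exact ⟨x, (mem_filter.1 hx).2⟩
  have hpow : ∀ n x, f ((σ ^ n) x) = (π ^ n) (f x) := by
    intro n
    induction n with
    | zero => intro x; rfl
    | succ n ih => intro x; rw [pow_succ', pow_succ', Perm.mul_apply, Perm.mul_apply, hπ, ih]
  have hπr : π ^ r = 1 := by
    ext y
    obtain ⟨x, rfl⟩ := hsurj y
    rw [← hpow, h]; rfl
  obtain ⟨j, hj⟩ := up_supp_dvd hr hπr
  have hsum : #σ.support = ∑ y, #(σ.support.filter fun x => f x = y) :=
    card_eq_sum_card_fiberwise (f := f) (t := univ) (fun _ _ => mem_univ _)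
  rw [← sum_add_sum_compl π.support] at hsum
  have h1 : ∑ y ∈ π.support, #(σ.support.filter fun x => f x = y) = a * (j * r) := by
    rw [sum_congr rfl (g := fun _ => a), sum_const, hj, smul_eq_mul]
    · ring
    intro y hy
    rw [← hf' y]
    congr 1
    ext x
    simp only [mem_filter, Perm.mem_support, mem_univ, true_and, and_iff_right_iff_imp]
    rintro rfl hx
    exact Perm.mem_support.1 hy (by rw [← hπ, hx])
  have h2 : ∑ y ∈ π.supportᶜ, #(σ.support.filter fun x => f x = y) ≤
      (Fintype.card β - j * r) * (r * (a / r)) := by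
    have : #π.supportᶜ = Fintype.card β - j * r := by rw [card_compl, hj, mul_comm]
    rw [← this, ← smul_eq_mul]
    refine sum_le_card_nsmul _ _ _ fun y hy => ?_
    have hy' : π y = y := by simpa using hy
    have hle : #(σ.support.filter fun x => f x = y) ≤ a := by
      rw [← hf' y]; exact card_le_card (filter_subset_filter _ (subset_univ _))
    have hinv : ∀ x, f (σ x) = y ↔ f x = y := fun x => by
      rw [hπ]
      constructor
      · intro h; exact π.injective (h.trans hy'.symm)
      · rintro rfl; exact hy'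
    have hd : r ∣ #(σ.support.filter fun x => f x = y) := by
      have h3 : (σ.subtypePerm (p := fun x => f x = y) hinv) ^ r = 1 := by
        rw [Perm.subtypePerm_pow]; ext x; simp [h]
      have h4 := up_supp_dvd hr h3
      convert h4 using 1
      rw [← card_map (Function.Embedding.subtype _)]
      congr 1
      ext x
      simp only [mem_filter, Perm.mem_support, mem_map, Function.Embedding.coe_subtype,
        Subtype.exists, exists_and_right, exists_eq_right]
      constructor
      · rintro ⟨h1, h2⟩
        exact ⟨h2, fun h => h1 (congrArg Subtype.val h)⟩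
      · rintro ⟨h2, h1⟩
        exact ⟨fun h => h1 (Subtype.ext h), h2⟩
    obtain ⟨c, hc⟩ := hd
    rw [hc] at hle ⊢
    exact Nat.mul_le_mul_left _ ((Nat.le_div_iff_mul_le hr.pos).2 (by rwa [mul_comm]))
  refine ⟨j, ?_, by omega, by omega⟩
  rw [mul_comm, ← hj]; exact card_le_univ _

/-- sufficient condition, on the product -/
theorem up_suf {β γ : Type*} [Fintype β] [DecidableEq β] [Fintype γ] [DecidableEq γ] {r : ℕ}
    (hr : r.Prime) (j n : ℕ) (hj : j * r ≤ Fintype.card β)
    (hn : n ≤ (Fintype.card β - j * r) * (Fintype.card γ / r)) :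
    ∃ (σ : Perm (β × γ)) (π : Perm β), σ ^ r = 1 ∧ (∀ x, (σ x).1 = π x.1) ∧
      #σ.support = (Fintype.card γ * j + n) * r := by
  obtain ⟨π, hπ, hπs⟩ := up_exists (α := β) hr j hj
  obtain ⟨c, hc, hs⟩ := up_distrib π.supportᶜ (Fintype.card γ / r) n
    (by rw [card_compl, hπs]; exact hn)
  have hτ : ∀ y, ∃ τ : Perm γ, τ ^ r = 1 ∧ #τ.support = c y * r := fun y =>
    up_exists hr (c y) ((Nat.le_div_iff_mul_le hr.pos).1 (hc y))
  choose τ hτ hτs using hτ
  let t : β → Perm γ := fun y => if π y = y then τ y else 1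
  let σ : Perm (β × γ) := Equiv.prodShear π t
  have hσ : ∀ y x, σ (y, x) = (π y, t y x) := fun _ _ => rfl
  refine ⟨σ, π, ?_, fun x => rfl, ?_⟩
  · ext1 ⟨y, x⟩
    by_cases hy : π y = y
    · have : ∀ n : ℕ, (σ ^ n) (y, x) = (y, (τ y ^ n) x) := by
        intro n
        induction n with
        | zero => rfl
        | succ n ih => rw [pow_succ', pow_succ', Perm.mul_apply, Perm.mul_apply, ih, hσ, hy]
                       simp [t, hy]
      rw [this, hτ]; rfl
    · have : ∀ n : ℕ, (σ ^ n) (y, x) = ((π ^ n) y, x) := by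
        intro n
        induction n with
        | zero => rfl
        | succ n ih =>
          rw [pow_succ', pow_succ', Perm.mul_apply, Perm.mul_apply, ih, hσ]
          have : π ((π ^ n) y) ≠ (π ^ n) y := by
            intro h
            apply hy
            apply (π ^ n).injective
            rw [← Perm.mul_apply, ← pow_succ, pow_succ', Perm.mul_apply, h]
          simp [t, this]
      rw [this, hπ]; rfl
  · have hsum : #σ.support = ∑ y, #(σ.support.filter fun x => x.1 = y) :=
      card_eq_sum_card_fiberwise (f := Prod.fst) (t := univ) (fun _ _ => mem_univ _)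
    rw [← sum_add_sum_compl π.support] at hsum
    have h1 : ∑ y ∈ π.support, #(σ.support.filter fun x => x.1 = y) = j * r * Fintype.card γ := by
      rw [sum_congr rfl (g := fun _ => Fintype.card γ), sum_const, hπs, smul_eq_mul]
      intro y hy
      have : (σ.support.filter fun x => x.1 = y) = univ.map ⟨fun x => (y, x), Prod.mk_right_injective y⟩ := by
        ext ⟨y', x⟩
        simp only [mem_filter, Perm.mem_support, mem_map, mem_univ, true_and,
          Function.Embedding.coeFn_mk, Prod.mk.injEq, exists_eq_right]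
        constructor
        · rintro ⟨_, h⟩; exact h.symm
        · rintro rfl
          exact ⟨fun h => Perm.mem_support.1 hy (congrArg Prod.fst h), rfl⟩
      rw [this, card_map, card_univ]
    have h2 : ∑ y ∈ π.supportᶜ, #(σ.support.filter fun x => x.1 = y) = n * r := by
      rw [← hs, sum_mul]
      refine sum_congr rfl fun y hy => ?_
      have hy' : π y = y := by simpa using hy
      have : (σ.support.filter fun x => x.1 = y) =
          (τ y).support.map ⟨fun x => (y, x), Prod.mk_right_injective y⟩ := by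
        ext ⟨y', x⟩
        simp only [mem_filter, Perm.mem_support, mem_map,
          Function.Embedding.coeFn_mk, Prod.mk.injEq]
        constructor
        · rintro ⟨h, rfl⟩
          refine ⟨x, fun h' => h ?_, rfl, rfl⟩
          rw [hσ]; simp [t, hy', h']
        · rintro ⟨x', h, rfl, rfl⟩
          refine ⟨fun h' => h ?_, rfl⟩
          rw [hσ] at h'
          simpa [t, hy'] using h'
      rw [this, card_map, hτs]
    rw [hsum, h1, h2]; ring

end

theorem up_iff {r a b : ℕ} (hr : r.Prime) (ha : 0 < a) (σ : Perm (Fin (a * b))) (h : σ ^ r = 1)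
    (m : ℕ) (hm : #σ.support = m * r) :
    (∃ f : Fin (a * b) → Fin b, (∀ j : Fin b, Nat.card {x : Fin (a * b) // f x = j} = a) ∧
      ∃ π : Perm (Fin b), ∀ x : Fin (a * b), f (σ x) = π (f x)) ↔
    ∃ j, j * r ≤ b ∧ a * j ≤ m ∧ m ≤ a * j + (b - j * r) * (a / r) := by
  constructor
  · rintro ⟨f, hf, π, hπ⟩
    obtain ⟨j, h1, h2, h3⟩ := up_nec hr ha h f hf π hπ
    rw [Fintype.card_fin] at h1 h3
    rw [hm] at h2 h3
    refine ⟨j, h1, ?_, ?_⟩
    · exact Nat.le_of_mul_le_mul_right (by rwa [mul_assoc]) hr.pos
    · refine Nat.le_of_mul_le_mul_right (h3.trans (le_of_eq ?_)) hr.pos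
      ring
  · rintro ⟨j, h1, h2, h3⟩
    obtain ⟨s, π, hs, hπ, hc⟩ := up_suf (β := Fin b) (γ := Fin a) hr j (m - a * j)
      (by simpa using h1) (by simp only [Fintype.card_fin]; omega)
    simp only [Fintype.card_fin] at hc
    let e : Fin b × Fin a ≃ Fin (a * b) := finProdFinEquiv.trans (finCongr (mul_comm b a))
    let s' : Perm (Fin (a * b)) := e.permCongr s
    have hs' : s' ^ r = 1 := by
      have : s' = e.permCongrHom s := rfl
      rw [this, ← map_pow, hs, map_one]
    have hc' : #s'.support = #σ.support := by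
      rw [hm, show m = a * j + (m - a * j) by omega, ← hc, ← card_map e.toEmbedding]
      congr 1
      ext x
      obtain ⟨y, rfl⟩ := e.surjective x
      simp [s']
    obtain ⟨g, hg⟩ := isConj_iff.1 (up_conj hr hs' h hc')
    refine ⟨fun x => (e.symm (g⁻¹ x)).1, fun y => ?_, π, fun x => ?_⟩
    · have : {x : Fin (a * b) // (e.symm (g⁻¹ x)).1 = y} ≃ Fin a :=
        { toFun := fun x => (e.symm (g⁻¹ x.1)).2
          invFun := fun z => ⟨g (e (y, z)), by simp⟩
          left_inv := fun ⟨x, hx⟩ => by
            apply Subtype.ext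
            simp only
            rw [← hx]; simp
          right_inv := fun z => by simp }
      rw [Nat.card_congr this]; simp
    · simp only
      rw [← hg, ← hπ]
      simp [s']

theorem up_arith {r a b : ℕ} (hr : 0 < r) (hab : r ≤ a * b) :
    (∀ m, 1 ≤ m → m * r ≤ a * b → ∃ j, j * r ≤ b ∧ a * j ≤ m ∧ m ≤ a * j + (b - j * r) * (a / r)) ↔
    ((b % r) * (a % r) < r ∧ (b / r = 0 ∨ a % r ≤ (a / r) * (b % r) + 1)) := by
  have ea := Nat.div_add_mod a r
  have eb := Nat.div_add_mod b r
  generalize a / r = u at *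
  generalize a % r = l at *
  generalize b / r = v at *
  have hk : b % r < r := Nat.mod_lt _ hr
  generalize b % r = k at *
  have key : ∀ j, j * r ≤ b → j ≤ v ∧ a * j + (b - j * r) * u = b * u + l * j := by
    intro j hj
    refine ⟨?_, ?_⟩
    · by_contra hc
      have : (v + 1) * r ≤ j * r := Nat.mul_le_mul_right _ (by omega)
      nlinarith
    · obtain ⟨d, hd⟩ := Nat.exists_eq_add_of_le hj
      rw [show b - j * r = d by omega, hd, ← ea]; ring
  have hN : a * b = (b * u + l * v) * r + k * l := by rw [← ea, ← eb]; ring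
  constructor
  · intro H
    have h1 : k * l < r := by
      by_contra hc
      obtain ⟨j, h1, _, h3⟩ := H (b * u + l * v + 1) (by omega) (by rw [hN]; nlinarith)
      obtain ⟨h4, h5⟩ := key j h1
      have : l * j ≤ l * v := Nat.mul_le_mul_left _ h4
      omega
    refine ⟨h1, ?_⟩
    by_contra hc
    push Not at hc
    obtain ⟨hv, hl⟩ := hc
    obtain ⟨w, rfl⟩ : ∃ w, v = w + 1 := ⟨v - 1, by omega⟩
    obtain ⟨j, h1, h2, h3⟩ := H (b * u + l * w + 1) (by omega) (by
      rw [hN]
      have : (b * u + l * w + 1) * r ≤ (b * u + l * (w + 1)) * r :=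
        Nat.mul_le_mul_right _ (by rw [mul_add]; omega)
      omega)
    obtain ⟨h4, h5⟩ := key j h1
    rcases Nat.lt_or_ge j (w + 1) with h6 | h6
    · have : l * j ≤ l * w := Nat.mul_le_mul_left _ (by omega)
      omega
    · obtain rfl : j = w + 1 := by omega
      rw [← ea, ← eb] at h2
      nlinarith
  · rintro ⟨h1, h2⟩ m hm hmr
    have hmN : m ≤ b * u + l * v := by
      by_contra hc
      have : (b * u + l * v + 1) * r ≤ m * r := Nat.mul_le_mul_right _ (by omega)
      nlinarith
    have hle : ∀ j, j ≤ v → j * r ≤ b := fun j hj => by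
      have : j * r ≤ v * r := Nat.mul_le_mul_right _ hj
      nlinarith
    classical
    let j := Nat.findGreatest (fun j => a * j ≤ m) v
    have hjv : j ≤ v := Nat.findGreatest_le v
    have hj : a * j ≤ m := Nat.findGreatest_spec (P := fun j => a * j ≤ m) (Nat.zero_le v) (by simp)
    refine ⟨j, hle j hjv, hj, ?_⟩
    rw [(key j (hle j hjv)).2]
    rcases hjv.eq_or_lt with h | h
    · rw [h]; exact hmN
    · have h3 : ¬ a * (j + 1) ≤ m :=
        Nat.findGreatest_is_greatest (P := fun j => a * j ≤ m) (n := v) (Nat.lt_succ_self j) h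
      have h4 : l ≤ u * k + 1 := h2.resolve_left (by omega)
      have h5 : r * u * (j + 1) ≤ r * u * v := Nat.mul_le_mul_left _ h
      have h6 : a * (j + 1) = r * u * (j + 1) + l * j + l := by rw [← ea]; ring
      have h7 : b * u = r * u * v + u * k := by rw [← eb]; ring
      omega

end Cfsg.Agent.Mix26
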